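import Mathlib
import Cfsg.Agent.Lib.CoprimeHyperplane

/-!
# Generation of an abelian group by the fixed points of hyperplanes

An elementary abelian `p`-group `A ≠ 1` acting on an additive abelian group `V` in which `p` is invertible.
-/

set_option autoImplicit false

namespace Cfsg.Agent.H476.AddHyper

open Cfsg.Agent.Lib.CoprimeHyperplane

theorem sum_identity {p : ℕ} [Fact p.Prime] {M : Type*} [AddCommMonoid M] (f : ZMod p → ZMod p → M) :
    (∑ j, f 0 j) + ∑ j, ∑ i, f i (i * j) = p • f 0 0 + ∑ i, ∑ j, f i j := by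
  have h2 : ∑ j, ∑ i, f i (i * j) = ∑ i, ∑ j, f i (i * j) := Finset.sum_comm
  rw [h2]
  rw [Fintype.sum_eq_add_sum_compl (0 : ZMod p) (fun i => ∑ j, f i (i * j)),
    Fintype.sum_eq_add_sum_compl (0 : ZMod p) (fun i => ∑ j, f i j)]
  have h0 : ∑ j : ZMod p, f 0 (0 * j) = p • f 0 0 := by
    simp [ZMod.card]
  have h1 : ∑ i ∈ ({0} : Finset (ZMod p))ᶜ, ∑ j, f i (i * j) =
      ∑ i ∈ ({0} : Finset (ZMod p))ᶜ, ∑ j, f i j := by
    refine Finset.sum_congr rfl fun i hi => ?_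
    have hi0 : i ≠ 0 := by simpa using hi
    exact Equiv.sum_comp (Equiv.mulLeft₀ i hi0) (fun j => f i j)
  rw [h0, h1]
  exact add_left_comm _ _ _

variable {A V : Type*} [CommGroup A] [AddCommGroup V] (Φ : A → V →+ V)

/-- The fixed points of `B ≤ A`. -/
def fixV (B : Subgroup A) : AddSubgroup V where
  carrier := {x | ∀ b ∈ B, Φ b x = x}
  zero_mem' := fun b _ => map_zero _
  add_mem' := fun {x y} hx hy b hb => by rw [map_add, hx b hb, hy b hb]
  neg_mem' := fun {x} hx b hb => by rw [map_neg, hx b hb]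

theorem mem_fixV {B : Subgroup A} {x : V} : x ∈ fixV Φ B ↔ ∀ b ∈ B, Φ b x = x := Iff.rfl

variable (h1 : ∀ x, Φ 1 x = x) (hmul : ∀ a b x, Φ (a * b) x = Φ a (Φ b x))

include hmul in
theorem mem_fixV_sup_zpowers {p : ℕ} (hp : p ≠ 0) (hA : ∀ a : A, a ^ p = 1) {D : Subgroup A} {c : A} {x : V}
    (hD : x ∈ fixV Φ D) (hc : Φ c x = x) : x ∈ fixV Φ (D ⊔ Subgroup.zpowers c) := by
  rw [mem_fixV]
  intro b hb
  obtain ⟨d, hd, e, he, rfl⟩ := Subgroup.mem_sup.mp hb
  rw [hmul]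
  have h2 : ∀ n : ℕ, Φ (c ^ (n + 1)) x = x := by
    intro n
    induction n with
    | zero => rw [zero_add, pow_one, hc]
    | succ n ih => rw [pow_succ', hmul, ih, hc]
  obtain ⟨k, rfl⟩ := Subgroup.mem_zpowers_iff.mp he
  obtain ⟨q, rfl⟩ := Nat.exists_eq_succ_of_ne_zero hp
  have h3 : ∃ n : ℕ, c ^ k = c ^ (n + 1) := by
    refine ⟨(k % ((q + 1 : ℕ) : ℤ)).toNat + q, ?_⟩
    have h4 : 0 ≤ k % ((q + 1 : ℕ) : ℤ) := Int.emod_nonneg _ (by positivity)
    have h5 : c ^ k = c ^ (k % ((q + 1 : ℕ) : ℤ)) := by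
      conv_lhs => rw [← Int.mul_ediv_add_emod k ((q + 1 : ℕ) : ℤ)]
      rw [zpow_add, zpow_mul, zpow_natCast, hA, one_zpow, one_mul]
    rw [h5]
    have h6 : c ^ (k % ((q + 1 : ℕ) : ℤ)) = c ^ (k % ((q + 1 : ℕ) : ℤ)).toNat := by
      rw [← zpow_natCast, Int.toNat_of_nonneg h4]
    rw [h6, add_assoc, pow_add, hA, mul_one]
  obtain ⟨n, hn⟩ := h3
  rw [hn, h2]
  exact hD d hd

include h1 hmul in
/-- Generation by the fixed points of the hyperplanes, for elements fixed by a proper subgroup `D`. -/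
theorem mem_iSup_of_fixed {p : ℕ} [Fact p.Prime] [Finite A] (hA : ∀ a : A, a ^ p = 1) (u : ℕ)
    (hu : ∀ x : V, (u * p) • x = x) (W : AddSubgroup V) (hW : ∀ a, ∀ x ∈ W, Φ a x ∈ W) (n : ℕ) :
    ∀ D : Subgroup A, D ≠ ⊤ → D.index ≤ n → ∀ x ∈ W, x ∈ fixV Φ D →
      x ∈ ⨆ B : {B : Subgroup A // B.index = p}, W ⊓ fixV Φ B.1 := by
  have hp : p.Prime := Fact.out
  have hpA : IsPGroup p A := fun a => ⟨1, by rw [pow_one]; exact hA a⟩
  induction n with
  | zero =>
    intro D _ h0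
    exact absurd (Nat.le_zero.mp h0) D.index_ne_zero_of_finite
  | succ n ih =>
    intro D hDtop hDn x hxW hxD
    by_cases hDp : D.index = p
    · exact AddSubgroup.mem_iSup_of_mem ⟨D, hDp⟩ ⟨hxW, hxD⟩
    -- adjoining one element
    have hidx : ∀ c : A, c ∉ D → (D ⊔ Subgroup.zpowers c) ≠ ⊤ ∧ (D ⊔ Subgroup.zpowers c).index ≤ n := by
      intro c hc
      have hlt : D < D ⊔ Subgroup.zpowers c :=
        lt_of_le_of_ne le_sup_left fun h => hc (h ▸ Subgroup.mem_sup_right (Subgroup.mem_zpowers c))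
      have hrel : D.relIndex (D ⊔ Subgroup.zpowers c) ∣ p := by
        rw [sup_comm, Subgroup.relIndex_sup_right]
        have h2 : D.relIndex (Subgroup.zpowers c) ∣ Nat.card (Subgroup.zpowers c) :=
          Subgroup.relIndex_dvd_card _ _
        rw [Nat.card_zpowers] at h2
        exact h2.trans (orderOf_dvd_of_pow_eq_one (hA c))
      have hmulI := Subgroup.relIndex_mul_index hlt.le
      have hrel1 : D.relIndex (D ⊔ Subgroup.zpowers c) ≠ 1 := by
        intro h
        exact absurd (Subgroup.relIndex_eq_one.mp h) (not_le_of_gt hlt)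
      have hrelp : D.relIndex (D ⊔ Subgroup.zpowers c) = p :=
        ((Nat.dvd_prime hp).mp hrel).resolve_left hrel1
      rw [hrelp] at hmulI
      have hpos : 0 < (D ⊔ Subgroup.zpowers c).index := Nat.pos_of_ne_zero Subgroup.index_ne_zero_of_finite
      constructor
      · intro h
        rw [h, Subgroup.index_top, mul_one] at hmulI
        exact hDp hmulI.symm
      · have := hp.two_le
        nlinarith
    have hgood : ∀ c : A, c ∉ D → ∀ y ∈ W, y ∈ fixV Φ D → Φ c y = y →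
        y ∈ ⨆ B : {B : Subgroup A // B.index = p}, W ⊓ fixV Φ B.1 := by
      intro c hc y hyW hyD hyc
      obtain ⟨h2, h3⟩ := hidx c hc
      exact ih _ h2 h3 y hyW (mem_fixV_sup_zpowers Φ hmul hp.ne_zero hA hyD hyc)
    -- choose `a`, `b`
    obtain ⟨a, ha⟩ : ∃ a, a ∉ D := by
      by_contra hcon
      push Not at hcon
      exact hDtop (eq_top_iff.2 fun a _ => hcon a)
    obtain ⟨b, hb⟩ : ∃ b, b ∉ D ⊔ Subgroup.zpowers a := by
      by_contra hcon
      push Not at hcon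
      exact (hidx a ha).1 (eq_top_iff.2 fun a _ => hcon a)
    have hcj : ∀ j : ZMod p, a ^ j.val * b ∉ D := by
      intro j hj
      apply hb
      have : b = (a ^ j.val)⁻¹ * (a ^ j.val * b) := by group
      rw [this]
      exact Subgroup.mul_mem _ (Subgroup.inv_mem _ (Subgroup.mem_sup_right (Subgroup.pow_mem _ (Subgroup.mem_zpowers a) _)))
        (Subgroup.mem_sup_left hj)
    -- traces
    have htr : ∀ c : A, ∀ y : V, Φ c (∑ i : ZMod p, Φ (c ^ i.val) y) = ∑ i : ZMod p, Φ (c ^ i.val) y := by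
      intro c y
      rw [map_sum]
      have h2 : ∀ i : ZMod p, Φ c (Φ (c ^ i.val) y) = Φ (c ^ (i + 1).val) y := by
        intro i
        rw [← hmul, pow_val_add (hA c), pow_val_one, mul_comm]
      rw [Finset.sum_congr rfl fun i _ => h2 i]
      exact Equiv.sum_comp (Equiv.addRight (1 : ZMod p)) fun i => Φ (c ^ i.val) y
    have hinvD : ∀ c : A, ∀ y ∈ fixV Φ D, Φ c y ∈ fixV Φ D := by
      intro c y hy d hd
      rw [← hmul, mul_comm, hmul, hy d hd]
    have htrD : ∀ c : A, ∀ y ∈ fixV Φ D, ∑ i : ZMod p, Φ (c ^ i.val) y ∈ fixV Φ D :=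
      fun c y hy => sum_mem fun i _ => hinvD _ y hy
    have htrW : ∀ c : A, ∀ y ∈ W, ∑ i : ZMod p, Φ (c ^ i.val) y ∈ W :=
      fun c y hy => sum_mem fun i _ => hW _ y hy
    have hid := sum_identity (fun i j : ZMod p => Φ (a ^ j.val * b ^ i.val) x)
    have e1 : ∑ j : ZMod p, Φ (a ^ j.val * b ^ (0 : ZMod p).val) x = ∑ j : ZMod p, Φ (a ^ j.val) x := by
      refine Finset.sum_congr rfl fun j _ => ?_
      rw [ZMod.val_zero, pow_zero, mul_one]
    have e2 : ∀ j : ZMod p, ∑ i : ZMod p, Φ (a ^ (i * j).val * b ^ i.val) x =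
        ∑ i : ZMod p, Φ ((a ^ j.val * b) ^ i.val) x := by
      intro j
      refine Finset.sum_congr rfl fun i _ => ?_
      rw [mul_pow, pow_val_mul (hA a)]
    have e3 : ∑ i : ZMod p, ∑ j : ZMod p, Φ (a ^ j.val * b ^ i.val) x =
        ∑ j : ZMod p, Φ (a ^ j.val) (∑ i : ZMod p, Φ (b ^ i.val) x) := by
      rw [Finset.sum_comm]
      refine Finset.sum_congr rfl fun j _ => ?_
      rw [map_sum]
      refine Finset.sum_congr rfl fun i _ => ?_
      rw [hmul]
    rw [e1, e3] at hid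
    simp only [e2] at hid
    have e4 : Φ (a ^ (0 : ZMod p).val * b ^ (0 : ZMod p).val) x = x := by
      rw [ZMod.val_zero, pow_zero, pow_zero, mul_one, h1]
    rw [e4] at hid
    have hpx : p • x ∈ ⨆ B : {B : Subgroup A // B.index = p}, W ⊓ fixV Φ B.1 := by
      have h2 : p • x = (∑ j : ZMod p, Φ (a ^ j.val) x + ∑ j : ZMod p, ∑ i : ZMod p, Φ ((a ^ j.val * b) ^ i.val) x) -
          ∑ j : ZMod p, Φ (a ^ j.val) (∑ i : ZMod p, Φ (b ^ i.val) x) := by
        rw [hid]; abel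
      rw [h2]
      refine sub_mem (add_mem ?_ (sum_mem fun j _ => ?_)) ?_
      · exact hgood a ha _ (htrW a x hxW) (htrD a x hxD) (htr a x)
      · exact hgood _ (hcj j) _ (htrW _ x hxW) (htrD _ x hxD) (htr _ x)
      · exact hgood a ha _ (htrW a _ (htrW b x hxW)) (htrD a _ (htrD b x hxD)) (htr a _)
    rw [← hu x, mul_smul]
    exact AddSubgroup.nsmul_mem _ hpx u

include h1 hmul in
/-- An invariant additive subgroup is the sum of the fixed points of the hyperplanes of `A`. -/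
theorem le_iSup_fixV {p : ℕ} [Fact p.Prime] [Finite A] [Nontrivial A] (hA : ∀ a : A, a ^ p = 1) (u : ℕ)
    (hu : ∀ x : V, (u * p) • x = x) (W : AddSubgroup V) (hW : ∀ a, ∀ x ∈ W, Φ a x ∈ W) :
    W ≤ ⨆ B : {B : Subgroup A // B.index = p}, W ⊓ fixV Φ B.1 := by
  intro x hx
  refine mem_iSup_of_fixed Φ h1 hmul hA u hu W hW _ ⊥ ?_ le_rfl x hx ?_
  · exact bot_ne_top
  · intro b hb
    rw [Subgroup.mem_bot.mp hb, h1]

end Cfsg.Agent.H476.AddHyper
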