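import Mathlib
import Cfsg.Agent.H449.Eigen

/-!
# Additive subgroups of a Lie ring acting nilpotently: a collection lemma

If `S` is a solvable Lie subring which is a sum of `t` subgroups acting nilpotently (and so are the terms of
its derived series) then `S` acts nilpotently.
-/

set_option autoImplicit false

namespace Cfsg.Agent.H476.Collect

open Cfsg.Agent.H449

variable {L : Type*} [LieRing L]

/-- The additive subgroup generated by the brackets. -/
def br (N S : AddSubgroup L) : AddSubgroup L :=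
  AddSubgroup.closure {z | ∃ x ∈ N, ∃ y ∈ S, ⁅x, y⁆ = z}

theorem lie_mem_br {N S : AddSubgroup L} {x y : L} (hx : x ∈ N) (hy : y ∈ S) : ⁅x, y⁆ ∈ br N S :=
  AddSubgroup.subset_closure ⟨x, hx, y, hy, rfl⟩

theorem br_le {N S T : AddSubgroup L} (h : ∀ x ∈ N, ∀ y ∈ S, ⁅x, y⁆ ∈ T) : br N S ≤ T := by
  apply (AddSubgroup.closure_le _).mpr
  rintro _ ⟨x, hx, y, hy, rfl⟩
  exact h x hx y hy

theorem br_mono {N N' S S' : AddSubgroup L} (hN : N ≤ N') (hS : S ≤ S') : br N S ≤ br N' S' :=
  br_le fun _ hx _ hy => lie_mem_br (hN hx) (hS hy)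

theorem br_comm_le (N S : AddSubgroup L) : br N S ≤ br S N :=
  br_le fun x hx y hy => by rw [← lie_skew]; exact neg_mem (lie_mem_br hy hx)

theorem br_comm (N S : AddSubgroup L) : br N S = br S N := le_antisymm (br_comm_le N S) (br_comm_le S N)

theorem br_bot (N : AddSubgroup L) : br N ⊥ = ⊥ := by
  rw [eq_bot_iff]
  exact br_le fun x _ y hy => by
    rw [AddSubgroup.mem_bot.mp hy, lie_zero]; exact zero_mem _

theorem bot_br (N : AddSubgroup L) : br ⊥ N = ⊥ := by rw [br_comm, br_bot]

/-- Brackets with a closure on the left. -/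
theorem lie_mem_of_closure {X : Set L} {T : AddSubgroup L} {y : L} (h : ∀ x ∈ X, ⁅x, y⁆ ∈ T) {x : L}
    (hx : x ∈ AddSubgroup.closure X) : ⁅x, y⁆ ∈ T := by
  induction hx using AddSubgroup.closure_induction with
  | mem x hx => exact h x hx
  | zero => rw [zero_lie]; exact zero_mem _
  | add a b _ _ ha hb => rw [add_lie]; exact add_mem ha hb
  | neg a _ ha => rw [neg_lie]; exact neg_mem ha

/-- Brackets with a closure on the right. -/
theorem lie_mem_of_closure_right {X : Set L} {T : AddSubgroup L} {x : L} (h : ∀ y ∈ X, ⁅x, y⁆ ∈ T) {y : L}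
    (hy : y ∈ AddSubgroup.closure X) : ⁅x, y⁆ ∈ T := by
  induction hy using AddSubgroup.closure_induction with
  | mem x hx => exact h x hx
  | zero => rw [lie_zero]; exact zero_mem _
  | add a b _ _ ha hb => rw [lie_add]; exact add_mem ha hb
  | neg a _ ha => rw [lie_neg]; exact neg_mem ha

theorem br_sup_left (N N' S : AddSubgroup L) : br (N ⊔ N') S ≤ br N S ⊔ br N' S := by
  refine br_le fun x hx y hy => ?_
  obtain ⟨a, ha, b, hb, rfl⟩ := AddSubgroup.mem_sup.mp hx
  rw [add_lie]
  exact add_mem (AddSubgroup.mem_sup_left (lie_mem_br ha hy)) (AddSubgroup.mem_sup_right (lie_mem_br hb hy))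

theorem br_sup_right (N S S' : AddSubgroup L) : br N (S ⊔ S') ≤ br N S ⊔ br N S' := by
  refine br_le fun x hx y hy => ?_
  obtain ⟨a, ha, b, hb, rfl⟩ := AddSubgroup.mem_sup.mp hy
  rw [lie_add]
  exact add_mem (AddSubgroup.mem_sup_left (lie_mem_br hx ha)) (AddSubgroup.mem_sup_right (lie_mem_br hx hb))

theorem br_iSup_left {ι : Sort*} (N : ι → AddSubgroup L) (S : AddSubgroup L) :
    br (⨆ i, N i) S ≤ ⨆ i, br (N i) S := by
  refine br_le fun x hx y hy => ?_
  induction hx using AddSubgroup.iSup_induction' with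
  | hp i x hx => exact AddSubgroup.mem_iSup_of_mem i (lie_mem_br hx hy)
  | h1 => rw [zero_lie]; exact zero_mem _
  | hadd x y _ _ h1 h2 => rw [add_lie]; exact add_mem h1 h2

theorem br_iSup_right {ι : Sort*} (N : AddSubgroup L) (S : ι → AddSubgroup L) :
    br N (⨆ i, S i) ≤ ⨆ i, br N (S i) := by
  refine br_le fun x hx y hy => ?_
  induction hy using AddSubgroup.iSup_induction' with
  | hp i y hy => exact AddSubgroup.mem_iSup_of_mem i (lie_mem_br hx hy)
  | h1 => rw [lie_zero]; exact zero_mem _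
  | hadd x y _ _ h1 h2 => rw [lie_add]; exact add_mem h1 h2

/-- Jacobi: `[[U, X], Y] ≤ [[U, Y], X] + [U, [X, Y]]`. -/
theorem br_br_le (U X Y : AddSubgroup L) : br (br U X) Y ≤ br (br U Y) X ⊔ br U (br X Y) := by
  refine br_le fun z hz y hy => ?_
  refine lie_mem_of_closure ?_ hz
  rintro _ ⟨u, hu, x, hx, rfl⟩
  have e : ⁅⁅u, x⁆, y⁆ = ⁅⁅u, y⁆, x⁆ + ⁅u, ⁅x, y⁆⁆ := by
    have h := leibniz_lie u x y
    rw [h, ← lie_skew x ⁅u, y⁆]
    abel
  rw [e]
  exact add_mem (AddSubgroup.mem_sup_left (lie_mem_br (lie_mem_br hu hy) hx))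
    (AddSubgroup.mem_sup_right (lie_mem_br hu (lie_mem_br hx hy)))

/-- `[N, S, …, S]` (`k` times). -/
def itr (N S : AddSubgroup L) : ℕ → AddSubgroup L
  | 0 => N
  | k + 1 => br (itr N S k) S

theorem itr_zero (N S : AddSubgroup L) : itr N S 0 = N := rfl

theorem itr_succ (N S : AddSubgroup L) (k : ℕ) : itr N S (k + 1) = br (itr N S k) S := rfl

theorem itr_mono {N N' S S' : AddSubgroup L} (hN : N ≤ N') (hS : S ≤ S') (k : ℕ) :
    itr N S k ≤ itr N' S' k := by
  induction k with
  | zero => exact hN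
  | succ k ih => exact br_mono ih hS

theorem itr_add (N S : AddSubgroup L) (a b : ℕ) : itr N S (a + b) = itr (itr N S a) S b := by
  induction b with
  | zero => rfl
  | succ b ih => rw [← add_assoc, itr_succ, ih, itr_succ]

theorem itr_bot (S : AddSubgroup L) (k : ℕ) : itr (⊥ : AddSubgroup L) S k = ⊥ := by
  induction k with
  | zero => rfl
  | succ k ih => rw [itr_succ, ih, bot_br]

theorem itr_eq_bot_of_le {N S : AddSubgroup L} {a b : ℕ} (h : itr N S a = ⊥) (hab : a ≤ b) :
    itr N S b = ⊥ := by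
  obtain ⟨c, rfl⟩ := Nat.exists_eq_add_of_le hab
  rw [itr_add, h, itr_bot]

/-- The derived series of an additive subgroup. -/
def der (S : AddSubgroup L) : ℕ → AddSubgroup L
  | 0 => S
  | k + 1 => br (der S k) (der S k)

theorem der_succ (S : AddSubgroup L) (k : ℕ) : der S (k + 1) = br (der S k) (der S k) := rfl

theorem der_mono {S T : AddSubgroup L} (h : S ≤ T) (k : ℕ) : der S k ≤ der T k := by
  induction k with
  | zero => exact h
  | succ k ih => exact br_mono ih ih

theorem br_der_le {S : AddSubgroup L} (hS : br S S ≤ S) (k : ℕ) : br (der S k) (der S k) ≤ der S k := by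
  induction k with
  | zero => exact hS
  | succ k ih => exact br_mono ih ih

theorem der_anti {S : AddSubgroup L} (hS : br S S ≤ S) (k : ℕ) : der S (k + 1) ≤ der S k := br_der_le hS k

/-- Passing an operator `X` over `a` operators `Y` modulo `V`. -/
theorem br_itr_comm {U V X Y R : AddSubgroup L} (hXR : X ≤ R) (hYR : Y ≤ R) (hU : br U R ≤ U)
    (hV : br U (br R R) ≤ V) (hVR : br V R ≤ V) (a : ℕ) :
    ∀ Z : AddSubgroup L, Z ≤ U → br (itr Z Y a) X ≤ V ⊔ itr (br Z X) Y a := by
  induction a with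
  | zero => intro Z _; exact le_sup_right
  | succ a ih =>
    intro Z hZ
    have hZa : itr Z Y a ≤ U := by
      clear ih
      induction a with
      | zero => exact hZ
      | succ a ih' => exact (br_mono ih' hYR).trans hU
    rw [itr_succ]
    refine (br_br_le _ _ _).trans (sup_le ?_ ?_)
    · refine (br_mono (ih Z hZ) le_rfl).trans ((br_sup_left _ _ _).trans (sup_le ?_ ?_))
      · exact ((br_mono le_rfl hYR).trans hVR).trans le_sup_left
      · exact le_sup_right
    · exact ((br_mono hZa (br_mono hYR hXR)).trans hV).trans le_sup_left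

/-- Expansion of `[U, X + Y, …, X + Y]` modulo `V`. -/
theorem itr_sup_le {U V X Y R : AddSubgroup L} (hXR : X ≤ R) (hYR : Y ≤ R) (hU : br U R ≤ U)
    (hV : br U (br R R) ≤ V) (hVR : br V R ≤ V) (n : ℕ) :
    itr U (X ⊔ Y) n ≤ V ⊔ ⨆ b : {b : ℕ // b ≤ n}, itr (itr U X b) Y (n - b) := by
  induction n with
  | zero =>
    exact le_trans (le_iSup (fun b : {b : ℕ // b ≤ 0} => itr (itr U X b) Y (0 - b)) ⟨0, le_rfl⟩) le_sup_right
  | succ n ih =>
    rw [itr_succ]
    refine (br_mono ih le_rfl).trans ((br_sup_left _ _ _).trans (sup_le ?_ ?_))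
    · exact ((br_mono le_rfl (sup_le hXR hYR)).trans hVR).trans le_sup_left
    · refine (br_iSup_left _ _).trans (iSup_le ?_)
      rintro ⟨b, hb⟩
      have hUb : itr U X b ≤ U := by
        clear hb
        induction b with
        | zero => exact le_rfl
        | succ b ih' => exact (br_mono ih' hXR).trans hU
      refine (br_sup_right _ _ _).trans (sup_le ?_ ?_)
      · refine (br_itr_comm hXR hYR hU hV hVR (n - b) _ hUb).trans (sup_le_sup_left ?_ V)
        have e : n - b = (n + 1) - (b + 1) := by omega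
        rw [e]
        exact le_iSup (fun b : {b : ℕ // b ≤ n + 1} => itr (itr U X b) Y (n + 1 - b)) ⟨b + 1, by omega⟩
      · refine le_trans ?_ le_sup_right
        have e : br (itr (itr U X b) Y (n - b)) Y = itr (itr U X b) Y (n + 1 - b) := by
          rw [← itr_succ]; congr 1; omega
        change br (itr (itr U X b) Y (n - b)) Y ≤ _
        rw [e]
        exact le_iSup (fun b : {b : ℕ // b ≤ n + 1} => itr (itr U X b) Y (n + 1 - b)) ⟨b, by omega⟩

theorem itr_le_of_le {N V Y R : AddSubgroup L} (hYR : Y ≤ R) (hVR : br V R ≤ V) {a b : ℕ}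
    (h : itr N Y a ≤ V) (hab : a ≤ b) : itr N Y b ≤ V := by
  obtain ⟨c, rfl⟩ := Nat.exists_eq_add_of_le hab
  clear hab
  induction c with
  | zero => exact h
  | succ c ih => exact (br_mono ih hYR).trans hVR

/-- The commutative collection step. -/
theorem itr_iSup_le {U V R : AddSubgroup L} (hU : br U R ≤ U)
    (hV : br U (br R R) ≤ V) (hVR : br V R ≤ V) {ι : Type*} (s : Finset ι) (M : ι → AddSubgroup L)
    (hMR : ∀ i, M i ≤ R) (m : ℕ) (hM : ∀ i, itr U (M i) m ≤ V) :
    itr U (⨆ i ∈ s, M i) (s.card * m + 1) ≤ V := by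
  classical
  induction s using Finset.induction_on with
  | empty =>
    have h1 : (⨆ i ∈ (∅ : Finset ι), M i) = ⊥ := by simp
    rw [h1, Finset.card_empty, Nat.zero_mul, zero_add, itr_succ, br_bot]
    exact bot_le
  | insert i s hi ih =>
    have hsR : (⨆ j ∈ s, M j) ≤ R := iSup₂_le fun j _ => hMR j
    rw [Finset.iSup_insert, Finset.card_insert_of_notMem hi]
    refine (itr_sup_le (hMR i) hsR hU hV hVR _).trans (sup_le le_rfl (iSup_le ?_))
    rintro ⟨b, hb⟩
    have hUb : itr U (M i) b ≤ U := by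
      clear hb
      induction b with
      | zero => exact le_rfl
      | succ b ih' => exact (br_mono ih' (hMR i)).trans hU
    by_cases hbm : m ≤ b
    · have h1 : itr U (M i) b ≤ V := itr_le_of_le (hMR i) hVR (hM i) hbm
      have h2 : itr (itr U (M i) b) (⨆ j ∈ s, M j) 0 ≤ V := h1
      exact itr_le_of_le hsR hVR h2 (Nat.zero_le _)
    · have h1 : itr (itr U (M i) b) (⨆ j ∈ s, M j) (s.card * m + 1) ≤ V :=
        (itr_mono hUb le_rfl _).trans ih
      refine itr_le_of_le hsR hVR h1 ?_
      have : (s.card + 1) * m = s.card * m + m := by ring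
      change s.card * m + 1 ≤ (s.card + 1) * m + 1 - b
      omega

/-- A term of the derived series acts nilpotently if the next one does. -/
theorem itr_step {R : AddSubgroup L} (hRR : br R R ≤ R) {ι : Type*} [Fintype ι] (M : ι → AddSubgroup L)
    (m : ℕ) (hM : ∀ i, itr ⊤ (M i) m = ⊥) (hR : R ≤ ⨆ i, (R ⊓ M i)) (n : ℕ)
    (hn : itr ⊤ (br R R) n = ⊥) : itr ⊤ R ((Fintype.card ι * m + 1) * n) = ⊥ := by
  set D := br R R with hD
  have hDR : br D R ≤ D := br_mono hRR le_rfl
  have hUinv : ∀ j : ℕ, br (itr ⊤ D j) R ≤ itr ⊤ D j := by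
    intro j
    induction j with
    | zero => exact le_top
    | succ j ih =>
      rw [itr_succ]
      refine (br_br_le _ _ _).trans (sup_le (br_mono ih le_rfl) (br_mono le_rfl hDR))
  have hstep : ∀ j : ℕ, itr (itr ⊤ D j) R (Fintype.card ι * m + 1) ≤ itr ⊤ D (j + 1) := by
    intro j
    have h1 : R ≤ ⨆ i ∈ (Finset.univ : Finset ι), (R ⊓ M i) := by
      simpa using hR
    refine (itr_mono le_rfl h1 _).trans ?_
    refine itr_iSup_le (R := R) (hUinv j) le_rfl (hUinv (j + 1)) Finset.univ (fun i => R ⊓ M i)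
      (fun i => inf_le_left) m ?_
    intro i
    refine le_trans (itr_mono le_top inf_le_right m) ?_
    rw [hM i]
    exact bot_le
  have hall : ∀ j : ℕ, itr ⊤ R ((Fintype.card ι * m + 1) * j) ≤ itr ⊤ D j := by
    intro j
    induction j with
    | zero => exact le_rfl
    | succ j ih =>
      rw [Nat.mul_succ, itr_add]
      exact (itr_mono ih le_rfl _).trans (hstep j)
  rw [eq_bot_iff, ← hn]
  exact hall n

/-- **Collection lemma.** -/
theorem itr_of_der {S : AddSubgroup L} (hSS : br S S ≤ S) {ι : Type*} [Fintype ι] (M : ι → AddSubgroup L)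
    (m : ℕ) (hM : ∀ i, itr ⊤ (M i) m = ⊥) (hS : ∀ j, der S j ≤ ⨆ i, (der S j ⊓ M i)) (s : ℕ)
    (hs : der S s = ⊥) : itr ⊤ S ((Fintype.card ι * m + 1) ^ s) = ⊥ := by
  have key : ∀ k : ℕ, k ≤ s → itr ⊤ (der S (s - k)) ((Fintype.card ι * m + 1) ^ k) = ⊥ := by
    intro k
    induction k with
    | zero =>
      intro _
      rw [Nat.sub_zero, hs, pow_zero]
      change br (itr ⊤ ⊥ 0) ⊥ = ⊥
      rw [br_bot]
    | succ k ih =>
      intro hk
      have h1 := ih (by omega)
      have e : s - k = (s - (k + 1)) + 1 := by omega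
      rw [e, der_succ] at h1
      have h2 := itr_step (br_der_le hSS _) M m hM (hS _) _ h1
      rw [pow_succ, mul_comm]
      exact h2
  have := key s le_rfl
  rwa [Nat.sub_self] at this

end Cfsg.Agent.H476.Collect
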