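import Mathlib
import Cfsg.Agent.Lib.CoprimeHyperplane

/-!
# Coprime action of an elementary abelian group: restriction, quotients, hyperplanes
-/

set_option autoImplicit false

namespace Cfsg.Agent.H476.CopAct

open Cfsg.Agent.Lib.CoprimeHyperplane
open scoped commutatorElement

variable {A R : Type*} [CommGroup A] [Group R] (φ : A →* MulAut R)

theorem apply_inv_apply (a : A) (x : R) : φ a⁻¹ (φ a x) = x := by
  rw [← MulAut.mul_apply, ← map_mul, inv_mul_cancel, map_one, MulAut.one_apply]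

theorem apply_apply_inv (a : A) (x : R) : φ a (φ a⁻¹ x) = x := by
  rw [← MulAut.mul_apply, ← map_mul, mul_inv_cancel, map_one, MulAut.one_apply]

/-- Restriction of the action to an invariant subgroup. -/
def res (U : Subgroup R) (hU : ∀ a, ∀ x ∈ U, φ a x ∈ U) : A →* MulAut U where
  toFun a :=
    { toFun := fun x => ⟨φ a x, hU a x x.2⟩
      invFun := fun x => ⟨φ a⁻¹ x, hU a⁻¹ x x.2⟩
      left_inv := fun x => Subtype.ext (apply_inv_apply φ a x)
      right_inv := fun x => Subtype.ext (apply_apply_inv φ a x)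
      map_mul' := fun x y => Subtype.ext (map_mul (φ a) (x : R) (y : R)) }
  map_one' := by
    ext x
    change φ 1 (x : R) = x
    rw [map_one, MulAut.one_apply]
  map_mul' a b := by
    ext x
    change φ (a * b) (x : R) = φ a (φ b x)
    rw [map_mul, MulAut.mul_apply]

theorem res_apply (U : Subgroup R) (hU : ∀ a, ∀ x ∈ U, φ a x ∈ U) (a : A) (x : U) :
    ((res φ U hU a x : U) : R) = φ a x := rfl

theorem mem_fix_res (U : Subgroup R) (hU : ∀ a, ∀ x ∈ U, φ a x ∈ U) (B : Subgroup A) (x : U) :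
    x ∈ fix (res φ U hU) B ↔ (x : R) ∈ fix φ B := by
  rw [mem_fix, mem_fix]
  constructor
  · intro h b hb
    have := h b hb
    exact congrArg Subtype.val this
  · intro h b hb
    exact Subtype.ext (h b hb)

/-- The action on the quotient by an invariant normal subgroup. -/
def quo (N : Subgroup R) [N.Normal] (hN : ∀ a, ∀ x ∈ N, φ a x ∈ N) : A →* MulAut (R ⧸ N) where
  toFun a := MonoidHom.toMulEquiv
    (QuotientGroup.map N N (φ a).toMonoidHom (fun x hx => hN a x hx))
    (QuotientGroup.map N N (φ a⁻¹).toMonoidHom (fun x hx => hN a⁻¹ x hx))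
    (by
      ext x
      change (QuotientGroup.mk (φ a⁻¹ (φ a x)) : R ⧸ N) = QuotientGroup.mk x
      rw [apply_inv_apply])
    (by
      ext x
      change (QuotientGroup.mk (φ a (φ a⁻¹ x)) : R ⧸ N) = QuotientGroup.mk x
      rw [apply_apply_inv])
  map_one' := by
    refine MulEquiv.ext fun x => ?_
    obtain ⟨x, rfl⟩ := QuotientGroup.mk_surjective x
    change (QuotientGroup.mk (φ 1 x) : R ⧸ N) = QuotientGroup.mk x
    rw [map_one, MulAut.one_apply]
  map_mul' a b := by
    refine MulEquiv.ext fun x => ?_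
    obtain ⟨x, rfl⟩ := QuotientGroup.mk_surjective x
    change (QuotientGroup.mk (φ (a * b) x) : R ⧸ N) = QuotientGroup.mk (φ a (φ b x))
    rw [map_mul, MulAut.mul_apply]

theorem quo_mk (N : Subgroup R) [N.Normal] (hN : ∀ a, ∀ x ∈ N, φ a x ∈ N) (a : A) (x : R) :
    quo φ N hN a (QuotientGroup.mk x) = QuotientGroup.mk (φ a x) := rfl

/-- Fixed points on quotients. -/
theorem fix_quo {p : ℕ} [Fact p.Prime] [Finite R] {B : Subgroup A} (hB : IsPGroup p B)
    (N : Subgroup R) [N.Normal] (hN : ∀ a, ∀ x ∈ N, φ a x ∈ N) (hNp : ¬ p ∣ Nat.card N) :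
    fix (quo φ N hN) B = (fix φ B).map (QuotientGroup.mk' N) := by
  apply le_antisymm
  · intro y hy
    obtain ⟨x, rfl⟩ := QuotientGroup.mk_surjective y
    obtain ⟨y, hy, hxy⟩ := exists_fixed_in_coset φ hB hNp (fun b _ x hx => hN b x hx) x (by
      intro b hb
      have h1 := hy b hb
      rw [quo_mk] at h1
      exact QuotientGroup.eq.mp h1.symm)
    exact ⟨y, hy, (QuotientGroup.eq.mpr hxy).symm⟩
  · rintro _ ⟨x, hx, rfl⟩ b hb
    change quo φ N hN b (QuotientGroup.mk x) = QuotientGroup.mk x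
    rw [quo_mk, hx b hb]

/-- Invariant Sylow subgroups. -/
theorem exists_inv_sylow {p : ℕ} [Fact p.Prime] [Finite R] (hA : IsPGroup p A)
    (hR : ¬ p ∣ Nat.card R) (q : ℕ) [Fact q.Prime] :
    ∃ P : Sylow q R, ∀ a, ∀ x ∈ P, φ a x ∈ P := by
  let act : MulDistribMulAction A R := MulDistribMulAction.compHom R φ
  have hcard : ¬ p ∣ Nat.card (Sylow q R) := by
    intro h
    obtain ⟨P⟩ : Nonempty (Sylow q R) := inferInstance
    exact hR (h.trans (P.card_dvd_index.trans (Subgroup.index_dvd_card _)))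
  obtain ⟨P, hP⟩ := hA.nonempty_fixed_point_of_prime_not_dvd_card (Sylow q R) hcard
  refine ⟨P, fun a x hx => ?_⟩
  have h1 : a • P = P := hP a
  have h2 : a • x ∈ a • P := ⟨x, hx, rfl⟩
  rwa [h1] at h2

/-- **Coprime generation** by the fixed points of hyperplanes. -/
theorem iSup_fix_eq_top {p : ℕ} [Fact p.Prime] [Finite A] [Nontrivial A] (hA : ∀ a : A, a ^ p = 1)
    [Finite R] (hR : ¬ p ∣ Nat.card R) :
    ⨆ B : {B : Subgroup A // B.index = p}, fix φ B.1 = ⊤ := by
  have hpA : IsPGroup p A := fun a => ⟨1, by rw [pow_one]; exact hA a⟩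
  set W : Subgroup R := ⨆ B : {B : Subgroup A // B.index = p}, fix φ B.1 with hW
  have key : ∀ q : ℕ, q.Prime → ∃ P : Sylow q R, (P : Subgroup R) ≤ W := by
    intro q hq
    haveI : Fact q.Prime := ⟨hq⟩
    obtain ⟨P, hP⟩ := exists_inv_sylow φ hpA hR q
    refine ⟨P, ?_⟩
    by_cases hpq : p = q
    · subst hpq
      have hPc : Nat.card P = 1 := by
        obtain ⟨n, hn⟩ := IsPGroup.iff_card.1 P.isPGroup'
        rcases Nat.eq_zero_or_pos n with h0 | h0
        · rw [hn, h0, pow_zero]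
        · exfalso
          apply hR
          refine dvd_trans ?_ (Subgroup.card_subgroup_dvd_card (P : Subgroup R))
          rw [hn]
          exact dvd_pow_self p h0.ne'
      have hPb : (P : Subgroup R) = ⊥ := Subgroup.card_eq_one.1 hPc
      rw [hPb]
      exact bot_le
    · have h1 := iSup_fix_eq_top_of_isPGroup (res φ (P : Subgroup R) hP) hpq hA P.isPGroup'
      intro x hx
      have h3 : (⟨x, hx⟩ : (P : Subgroup R)) ∈
          ⨆ B : {B : Subgroup A // B.index = p}, fix (res φ (P : Subgroup R) hP) B.1 := by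
        rw [h1]; trivial
      have h4 : (⨆ B : {B : Subgroup A // B.index = p}, fix (res φ (P : Subgroup R) hP) B.1) ≤
          W.subgroupOf (P : Subgroup R) := by
        refine iSup_le fun B z hz => ?_
        rw [mem_fix_res] at hz
        rw [Subgroup.mem_subgroupOf]
        exact (le_iSup (fun B : {B : Subgroup A // B.index = p} => fix φ B.1) B) hz
      exact h4 h3
  rw [← Subgroup.index_eq_one]
  by_contra hne
  obtain ⟨q, hq, hqd⟩ := Nat.exists_prime_and_dvd hne
  haveI : Fact q.Prime := ⟨hq⟩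
  obtain ⟨P, hP⟩ := key q hq
  exact P.not_dvd_index (hqd.trans (Subgroup.index_dvd_of_le hP))

theorem le_iSup_fix {p : ℕ} [Fact p.Prime] [Finite A] [Nontrivial A] (hA : ∀ a : A, a ^ p = 1)
    [Finite R] (hR : ¬ p ∣ Nat.card R) (U : Subgroup R) (hU : ∀ a, ∀ x ∈ U, φ a x ∈ U) :
    U ≤ ⨆ B : {B : Subgroup A // B.index = p}, U ⊓ fix φ B.1 := by
  have h1 := iSup_fix_eq_top (res φ U hU) hA (fun h => hR (h.trans (Subgroup.card_subgroup_dvd_card U)))
  intro x hx
  have h3 : (⟨x, hx⟩ : U) ∈ ⨆ B : {B : Subgroup A // B.index = p}, fix (res φ U hU) B.1 := by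
    rw [h1]; trivial
  have h4 : (⨆ B : {B : Subgroup A // B.index = p}, fix (res φ U hU) B.1) ≤
      (⨆ B : {B : Subgroup A // B.index = p}, U ⊓ fix φ B.1).subgroupOf U := by
    refine iSup_le fun B z hz => ?_
    rw [mem_fix_res] at hz
    rw [Subgroup.mem_subgroupOf]
    exact (le_iSup (fun B : {B : Subgroup A // B.index = p} => U ⊓ fix φ B.1) B) ⟨z.2, hz⟩
  exact h4 h3

theorem fix_anti {B C : Subgroup A} (h : B ≤ C) : fix φ C ≤ fix φ B := fun _ hx b hb => hx b (h hb)

theorem commutator_inv {U V : Subgroup R} (hU : ∀ a, ∀ x ∈ U, φ a x ∈ U)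
    (hV : ∀ a, ∀ x ∈ V, φ a x ∈ V) : ∀ a, ∀ x ∈ ⁅U, V⁆, φ a x ∈ ⁅U, V⁆ := by
  intro a
  have h1 : ⁅U, V⁆ ≤ ⁅U, V⁆.comap (φ a).toMonoidHom := by
    rw [Subgroup.commutator_le]
    intro x hx y hy
    rw [Subgroup.mem_comap, map_commutatorElement]
    exact Subgroup.commutator_mem_commutator (hU a x hx) (hV a y hy)
  exact h1

/-- `⁅⨆ J, ⨆ D⁆ ≤ R` if `⁅J i, D l⁆ ≤ R` for all `i`, `l`, and all `J i`, `D l` normalize `R`. -/
theorem commutator_iSup_le {ι κ : Sort*} (J : ι → Subgroup R) (D : κ → Subgroup R) (T : Subgroup R)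
    (hJD : ∀ i l, ⁅J i, D l⁆ ≤ T)
    (hJ : ∀ i, J i ≤ Subgroup.normalizer (T : Set R)) (hD : ∀ l, D l ≤ Subgroup.normalizer (T : Set R)) :
    ⁅⨆ i, J i, ⨆ l, D l⁆ ≤ T := by
  set N := Subgroup.normalizer (T : Set R) with hN
  have hconj : ∀ n ∈ N, ∀ t ∈ T, n * t * n⁻¹ ∈ T := fun n hn t ht =>
    (Subgroup.mem_normalizer_iff.mp hn t).mp ht
  have hJN : (⨆ i, J i) ≤ N := iSup_le hJ
  have h1 : ∀ l, ∀ d ∈ D l, ∀ x ∈ ⨆ i, J i, ⁅x, d⁆ ∈ T := by
    intro l d hd x hx
    induction hx using Subgroup.iSup_induction' with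
    | hp i x hx => exact hJD i l (Subgroup.commutator_mem_commutator hx hd)
    | h1 => rw [commutatorElement_one_left]; exact one_mem _
    | hmul x y hx hy h2 h3 =>
      have e : ⁅x * y, d⁆ = x * ⁅y, d⁆ * x⁻¹ * ⁅x, d⁆ := by
        simp only [commutatorElement_def]; group
      rw [e]
      exact mul_mem (hconj x (hJN hx) _ h3) h2
  rw [Subgroup.commutator_le]
  intro x hx d hd
  induction hd using Subgroup.iSup_induction' with
  | hp l d hd => exact h1 l d hd x hx
  | h1 => rw [commutatorElement_one_right]; exact one_mem _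
  | hmul d e hd he h2 h3 =>
    have e : ⁅x, d * e⁆ = ⁅x, d⁆ * (d * ⁅x, e⁆ * d⁻¹) := by
      simp only [commutatorElement_def]; group
    rw [e]
    exact mul_mem h2 (hconj d (iSup_le hD hd) _ h3)

end Cfsg.Agent.H476.CopAct
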