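import Mathlib
import Cfsg.Prelude.Def_Transfer
import Cfsg.Prelude.Def_Solvable

/-!
A group with an abelian normal subgroup `V` and an element `x` of prime order modulo which ... acting fixed point freely
on `V` is a Frobenius group with kernel `V` and complement `⟨x⟩`.
-/

set_option autoImplicit false

namespace Cfsg.Agent.H476.FrobSimple

open Cfsg Pointwise

theorem frobenius_of_fpf {H : Type*} [Group H] [Finite H] (V : Subgroup H) [hVn : V.Normal] (x : H) (q : ℕ)
    (hq : q.Prime) (hxq : x ^ q = 1) (hV1 : V ≠ ⊥) (hsup : V ⊔ Subgroup.zpowers x = ⊤)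
    (hfix : ∀ v ∈ V, v * x = x * v → v = 1) :
    IsFrobeniusComplement (Subgroup.zpowers x) ∧ Nat.card (Subgroup.zpowers x) = q ∧
      (V : Set H) = frobeniusKernel (Subgroup.zpowers x) := by
  classical
  haveI : Fact q.Prime := ⟨hq⟩
  obtain ⟨v₀, hv₀, hv₀1⟩ : ∃ v ∈ V, v ≠ 1 := by
    obtain ⟨a, ha⟩ := Subgroup.ne_bot_iff_exists_ne_one.1 hV1
    exact ⟨a, a.2, fun h => ha (Subtype.ext h)⟩
  have hx1 : x ≠ 1 := by
    rintro rfl
    exact hv₀1 (hfix v₀ hv₀ (by rw [mul_one, one_mul]))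
  have hox : orderOf x = q := orderOf_eq_prime hxq hx1
  set Q : Subgroup H := Subgroup.zpowers x with hQ
  have hQc : Nat.card Q = q := by rw [hQ, Nat.card_zpowers, hox]
  have hxQ : x ∈ Q := Subgroup.mem_zpowers x
  -- elements of `Q` commute with `x`
  have hQx : ∀ w ∈ Q, w * x = x * w := by
    intro w hw
    obtain ⟨k, rfl⟩ := Subgroup.mem_zpowers_iff.1 hw
    exact (Commute.zpow_left (Commute.refl x) k).eq
  have hVQ : ∀ w, w ∈ V → w ∈ Q → w = 1 := fun w hwV hwQ => hfix w hwV (hQx w hwQ)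
  -- nontrivial elements of `Q` generate `Q`
  have hgen : ∀ w ∈ Q, w ≠ 1 → Subgroup.zpowers w = Q := by
    intro w hw hw1
    apply Subgroup.eq_of_le_of_card_ge (Subgroup.zpowers_le.2 hw)
    rw [hQc, Nat.card_zpowers]
    have h1 : orderOf w ∣ q := by rw [← hQc]; exact Subgroup.orderOf_dvd_natCard _ hw
    rcases (Nat.dvd_prime hq).1 h1 with h2 | h2
    · exact absurd (orderOf_eq_one_iff.1 h2) hw1
    · exact h2.ge
  have hdec : ∀ g : H, ∃ v ∈ V, ∃ w ∈ Q, g = v * w := by
    intro g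
    have hg : g ∈ V ⊔ Q := by rw [hsup]; exact Subgroup.mem_top g
    rw [Subgroup.mem_sup_of_normal_left] at hg
    obtain ⟨s, hs, m, hm, h⟩ := hg
    exact ⟨s, hs, m, hm, h.symm⟩
  have hmemconj : ∀ g y : H, y ∈ MulAut.conj g • Q ↔ g⁻¹ * y * g ∈ Q := by
    intro g y
    rw [Subgroup.mem_pointwise_smul_iff_inv_smul_mem, ← map_inv, MulAut.smul_def, MulAut.conj_apply, inv_inv]
  refine ⟨⟨?_, ?_, ?_⟩, hQc, ?_⟩
  · intro h
    rw [h, Subgroup.card_bot] at hQc
    exact hq.one_lt.ne hQc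
  · intro h
    exact hv₀1 (hVQ v₀ hv₀ (h ▸ Subgroup.mem_top _))
  · intro g hg
    rw [eq_bot_iff]
    intro w hw
    obtain ⟨hwQ, hwQ'⟩ := Subgroup.mem_inf.1 hw
    rw [hmemconj] at hwQ'
    rw [Subgroup.mem_bot]
    by_contra hw1
    apply hg
    -- `g⁻¹ * x * g ∈ Q`
    have h1 : g⁻¹ * x * g ∈ Q := by
      have h2 : x ∈ Subgroup.zpowers w := by rw [hgen w hwQ hw1]; exact hxQ
      obtain ⟨k, hk⟩ := Subgroup.mem_zpowers_iff.1 h2
      rw [← hk]
      have h3 : g⁻¹ * w ^ k * g = (g⁻¹ * w * g) ^ k := by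
        have := conj_zpow (i := k) (a := g⁻¹) (b := w)
        rw [inv_inv] at this
        exact this.symm
      rw [h3]
      exact Q.zpow_mem hwQ' k
    obtain ⟨v, hv, u, hu, rfl⟩ := hdec g
    -- `v⁻¹ x v ∈ Q`
    have h2 : v⁻¹ * x * v ∈ Q := by
      have h3 := Q.mul_mem (Q.mul_mem hu h1) (Q.inv_mem hu)
      have h4 : u * ((v * u)⁻¹ * x * (v * u)) * u⁻¹ = v⁻¹ * x * v := by group
      rwa [h4] at h3
    have h3 : v⁻¹ * x * v * x⁻¹ = 1 := by
      apply hVQ
      · have h4 : v⁻¹ * x * v * x⁻¹ = v⁻¹ * (x * v * x⁻¹) := by group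
        rw [h4]
        exact V.mul_mem (V.inv_mem hv) (hVn.conj_mem v hv x)
      · exact Q.mul_mem h2 (Q.inv_mem hxQ)
    have h4 : v = 1 := by
      apply hfix v hv
      rw [mul_inv_eq_one, mul_assoc, inv_mul_eq_iff_eq_mul] at h3
      exact h3.symm
    rw [h4, one_mul]
    exact hu
  · ext h
    constructor
    · intro hh
      by_cases h1 : h = 1
      · exact Or.inl h1
      · right
        intro g hg
        rw [hmemconj] at hg
        have h2 : g⁻¹ * h * g ∈ V := by
          have := hVn.conj_mem h hh g⁻¹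
          rwa [inv_inv] at this
        have h3 := hVQ _ h2 hg
        apply h1
        have h4 : h = g * (g⁻¹ * h * g) * g⁻¹ := by group
        rw [h4, h3]
        group
    · rintro (h1 | h1)
      · rw [h1]; exact V.one_mem
      · by_contra hhV
        obtain ⟨v, hv, w, hw, rfl⟩ := hdec h
        have hw1 : w ≠ 1 := by
          rintro rfl
          rw [mul_one] at hhV
          exact hhV hv
        -- the map `u ↦ u w u⁻¹ w⁻¹` is a bijection of `V`
        let φ : V → V := fun u => ⟨(u : H) * (w * (u : H)⁻¹ * w⁻¹),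
          V.mul_mem u.2 (hVn.conj_mem _ (V.inv_mem u.2) w)⟩
        have hφ : Function.Injective φ := by
          intro a b hab
          have h2 : (a : H) * (w * (a : H)⁻¹ * w⁻¹) = (b : H) * (w * (b : H)⁻¹ * w⁻¹) := congrArg Subtype.val hab
          have h3 : ((b : H)⁻¹ * a) * w = w * ((b : H)⁻¹ * a) := by
            have h4 : (b : H)⁻¹ * ((a : H) * (w * (a : H)⁻¹ * w⁻¹)) * (w * a) =
              (b : H)⁻¹ * ((b : H) * (w * (b : H)⁻¹ * w⁻¹)) * (w * a) := by rw [h2]
            have h5 : (b : H)⁻¹ * ((a : H) * (w * (a : H)⁻¹ * w⁻¹)) * (w * a) = ((b : H)⁻¹ * a) * w := by group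
            have h6 : (b : H)⁻¹ * ((b : H) * (w * (b : H)⁻¹ * w⁻¹)) * (w * a) = w * ((b : H)⁻¹ * a) := by group
            rw [h5, h6] at h4
            exact h4
          have h4 : ((b : H)⁻¹ * a) * x = x * ((b : H)⁻¹ * a) := by
            have h5 : x ∈ Subgroup.zpowers w := by rw [hgen w hw hw1]; exact hxQ
            obtain ⟨k, hk⟩ := Subgroup.mem_zpowers_iff.1 h5
            rw [← hk]
            exact (Commute.zpow_right (show Commute ((b : H)⁻¹ * a) w from h3) k).eq
          have h5 := hfix _ (V.mul_mem (V.inv_mem b.2) a.2) h4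
          rw [inv_mul_eq_one] at h5
          exact Subtype.ext h5.symm
        obtain ⟨u, hu⟩ := (Finite.injective_iff_surjective.1 hφ) ⟨v, hv⟩
        have h2 : (u : H) * (w * (u : H)⁻¹ * w⁻¹) = v := congrArg Subtype.val hu
        apply h1 (u : H)
        rw [hmemconj, ← h2]
        have h3 : (u : H)⁻¹ * ((u : H) * (w * (u : H)⁻¹ * w⁻¹) * w) * u = w := by group
        rw [h3]
        exact hw

end Cfsg.Agent.H476.FrobSimple
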