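import Mathlib
import Cfsg.Agent.H449.Kreknin

/-!
# Kreknin's theorem when the zero component acts nilpotently

A `ℤ/n`-graded Lie ring `L` with `[L, L₀, …, L₀] = 0` (`m` times) is solvable of `(n, m)`-bounded derived length.
-/

set_option autoImplicit false

namespace Cfsg.Agent.H476.Krek

open Cfsg.Agent.H449

variable {L : Type*} [LieRing L] {n : ℕ}

/-- The part of a family in the degrees `≥ k`. -/
def fge (F : ZMod n → AddSubgroup L) (k : ℕ) : ZMod n → AddSubgroup L := fun i =>
  if k ≤ i.val then F i else ⊥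

theorem fge_of_le (F : ZMod n → AddSubgroup L) {k : ℕ} {i : ZMod n} (h : k ≤ i.val) :
    fge F k i = F i := if_pos h

theorem fge_of_not_le (F : ZMod n → AddSubgroup L) {k : ℕ} {i : ZMod n} (h : ¬ k ≤ i.val) :
    fge F k i = ⊥ := if_neg h

theorem fge_le (F : ZMod n → AddSubgroup L) (k : ℕ) : fge F k ≤ F := by
  intro i
  by_cases h : k ≤ i.val
  · rw [fge_of_le F h]
  · rw [fge_of_not_le F h]; exact bot_le

theorem fge_mono {F G : ZMod n → AddSubgroup L} (h : F ≤ G) (k : ℕ) : fge F k ≤ fge G k := by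
  intro i
  by_cases hi : k ≤ i.val
  · rw [fge_of_le F hi, fge_of_le G hi]; exact h i
  · rw [fge_of_not_le F hi]; exact bot_le

theorem fgen_mono {F G : ZMod n → AddSubgroup L} (h : F ≤ G) : fgen F ≤ fgen G :=
  fgen_le (h.trans (le_fgen G)) (fbr_fgen_le G)

/-- `[G, F₀, …, F₀]` (`k` times). -/
def it0 (F G : ZMod n → AddSubgroup L) : ℕ → ZMod n → AddSubgroup L
  | 0 => G
  | k + 1 => fun i => AddSubgroup.closure {z | ∃ x ∈ it0 F G k i, ∃ y ∈ F 0, ⁅x, y⁆ = z}

theorem lie_mem_it0 {F G : ZMod n → AddSubgroup L} {k : ℕ} {i : ZMod n} {x y : L}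
    (hx : x ∈ it0 F G k i) (hy : y ∈ F 0) : ⁅x, y⁆ ∈ it0 F G (k + 1) i :=
  AddSubgroup.subset_closure ⟨x, hx, y, hy, rfl⟩

theorem it0_mono {F F' G G' : ZMod n → AddSubgroup L} (hF : F ≤ F') (hG : G ≤ G') (k : ℕ) :
    it0 F G k ≤ it0 F' G' k := by
  induction k with
  | zero => exact hG
  | succ k ih =>
    intro i
    apply (AddSubgroup.closure_le _).mpr
    rintro _ ⟨x, hx, y, hy, rfl⟩
    exact lie_mem_it0 (ih i hx) (hF 0 hy)

theorem fder_le {F : ZMod n → AddSubgroup L} (hF : fbr F F ≤ F) (k : ℕ) : fder F k ≤ F := by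
  induction k with
  | zero => exact le_rfl
  | succ k ih => exact (fbr_mono ih ih).trans hF

theorem fbr_fder_le {F : ZMod n → AddSubgroup L} (hF : fbr F F ≤ F) (k : ℕ) :
    fbr (fder F k) (fder F k) ≤ fder F k := by
  induction k with
  | zero => exact hF
  | succ k ih => exact fbr_mono ih ih

/-- `[F, ⟨E⟩] ≤ [F, E]`. -/
theorem fbr_fgen_le_fbr_left {F E : ZMod n → AddSubgroup L} (hF : fbr F F ≤ F) (hE : E ≤ F) :
    fbr F (fgen E) ≤ fbr F E := by
  let H : ZMod n → AddSubgroup L := fun b =>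
    { carrier := {y | y ∈ F b ∧ ∀ a : ZMod n, ∀ x ∈ F a, ⁅x, y⁆ ∈ fbr F E (a + b)}
      add_mem' := by
        rintro y y' ⟨h1, h2⟩ ⟨h3, h4⟩
        refine ⟨add_mem h1 h3, fun a x hx => ?_⟩
        rw [lie_add]
        exact add_mem (h2 a x hx) (h4 a x hx)
      zero_mem' := ⟨zero_mem _, fun a x _ => by rw [lie_zero]; exact zero_mem _⟩
      neg_mem' := by
        rintro y ⟨h1, h2⟩
        refine ⟨neg_mem h1, fun a x hx => ?_⟩
        rw [lie_neg]
        exact neg_mem (h2 a x hx) }
  have hH : fgen E ≤ H := by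
    apply fgen_le
    · intro b y hy
      exact ⟨hE b hy, fun a x hx => lie_mem_fbr hx hy⟩
    · apply fbr_le
      rintro b b' y ⟨h1, h2⟩ y' ⟨h3, h4⟩
      refine ⟨hF _ (lie_mem_fbr h1 h3), fun a x hx => ?_⟩
      rw [leibniz_lie, ← lie_skew y]
      have h5 : ⁅x, y⁆ ∈ F (a + b) := hF _ (lie_mem_fbr hx h1)
      have h6 : ⁅x, y'⁆ ∈ F (a + b') := hF _ (lie_mem_fbr hx h3)
      have h7 := h4 _ _ h5
      have h8 := h2 _ _ h6
      rw [add_assoc] at h7 h8
      rw [add_comm b' b] at h8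
      exact add_mem h7 (neg_mem h8)
  exact fbr_le fun a b x hx y hy => (hH b hy).2 a x hx

/-- If `E` is normalized by `F₀` then so is `⟨E⟩`. -/
theorem lie_fgen_mem {F E : ZMod n → AddSubgroup L}
    (hE : ∀ i, ∀ x ∈ E i, ∀ z ∈ F 0, ⁅x, z⁆ ∈ E i) :
    ∀ i, ∀ x ∈ fgen E i, ∀ z ∈ F 0, ⁅x, z⁆ ∈ fgen E i := by
  let H : ZMod n → AddSubgroup L := fun b =>
    { carrier := {y | y ∈ fgen E b ∧ ∀ z ∈ F 0, ⁅y, z⁆ ∈ fgen E b}
      add_mem' := by
        rintro y y' ⟨h1, h2⟩ ⟨h3, h4⟩
        refine ⟨add_mem h1 h3, fun z hz => ?_⟩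
        rw [add_lie]
        exact add_mem (h2 z hz) (h4 z hz)
      zero_mem' := ⟨zero_mem _, fun z _ => by rw [zero_lie]; exact zero_mem _⟩
      neg_mem' := by
        rintro y ⟨h1, h2⟩
        refine ⟨neg_mem h1, fun z hz => ?_⟩
        rw [neg_lie]
        exact neg_mem (h2 z hz) }
  have hH : fgen E ≤ H := by
    apply fgen_le
    · intro b y hy
      exact ⟨le_fgen E b hy, fun z hz => le_fgen E b (hE b y hy z hz)⟩
    · apply fbr_le
      rintro b b' y ⟨h1, h2⟩ y' ⟨h3, h4⟩
      refine ⟨fbr_fgen_le E _ (lie_mem_fbr h1 h3), fun z hz => ?_⟩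
      have e : ⁅⁅y, y'⁆, z⁆ = ⁅y, ⁅y', z⁆⁆ + ⁅⁅y, z⁆, y'⁆ := by
        have h := leibniz_lie y y' z
        rw [h]
        have h' : ⁅y', ⁅y, z⁆⁆ = - ⁅⁅y, z⁆, y'⁆ := (lie_skew y' ⁅y, z⁆).symm ▸ rfl
        rw [h']
        abel
      rw [e]
      exact add_mem (fbr_fgen_le E _ (lie_mem_fbr h1 (h4 z hz)))
        (fbr_fgen_le E _ (lie_mem_fbr (h2 z hz) h3))
  intro i x hx z hz
  exact (hH i hx).2 z hz

/-- One step. -/
theorem step_a [NeZero n] {F : ZMod n → AddSubgroup L} (hF : fbr F F ≤ F) {k f : ℕ}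
    (hf : fder F f ≤ fgen (fge F k)) (i : ZMod n) (hi : i.val = k) :
    fder F (f + 1) i ≤ fgen (fge F (k + 1)) i ⊔ it0 F F 1 i := by
  have h1 : fder F (f + 1) ≤ fbr F (fge F k) :=
    (fbr_mono (fder_le hF f) hf).trans (fbr_fgen_le_fbr_left hF (fge_le F k))
  refine (h1 i).trans ?_
  apply (AddSubgroup.closure_le _).mpr
  rintro _ ⟨a, b, hab, x, hx, y, hy, rfl⟩
  by_cases hb : k ≤ b.val
  · rw [fge_of_le F hb] at hy
    by_cases hb' : b.val = k
    · have hbi : b = i := ZMod.val_injective n (by rw [hb', hi])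
      have ha : a = 0 := by
        rw [hbi] at hab
        exact add_eq_right.mp hab
      subst ha
      subst hbi
      apply AddSubgroup.mem_sup_right
      rw [← lie_skew]
      exact neg_mem (lie_mem_it0 (k := 0) hy hx)
    · have hb2 : k + 1 ≤ b.val := by omega
      have hval : (a + b).val = if a.val + b.val < n then a.val + b.val
          else a.val + b.val - n := by
        rw [ZMod.val_add]
        have h5 := ZMod.val_lt a
        have h6 := ZMod.val_lt b
        split_ifs with h7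
        · exact Nat.mod_eq_of_lt h7
        · rw [Nat.mod_eq_sub_mod (by omega), Nat.mod_eq_of_lt (by omega)]
      rw [hab, hi] at hval
      have h5 := ZMod.val_lt a
      have h6 := ZMod.val_lt b
      have ha2 : k + 1 ≤ a.val := by
        split_ifs at hval <;> omega
      have hx' : x ∈ fgen (fge F (k + 1)) a := by
        apply le_fgen
        rw [fge_of_le F ha2]
        exact hx
      have hy' : y ∈ fgen (fge F (k + 1)) b := by
        apply le_fgen
        rw [fge_of_le F hb2]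
        exact hy
      exact AddSubgroup.mem_sup_left (fbr_fgen_le _ _ (lie_mem_fbr' hab hx' hy'))
  · rw [fge_of_not_le F hb, AddSubgroup.mem_bot] at hy
    rw [hy, lie_zero]
    exact zero_mem _

/-- The bound. -/
def kf (m : ℕ) : ℕ → ℕ
  | 0 => 0
  | k + 1 => m * (kf m k + 1) + kf m k

theorem krek_aux [NeZero n] (m k : ℕ) : ∀ F : ZMod n → AddSubgroup L, fbr F F ≤ F →
    (∀ i, it0 F F m i = ⊥) → fder F (kf m k) ≤ fgen (fge F k) := by
  induction k with
  | zero =>
    intro F _ _ i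
    refine le_trans ?_ (le_fgen _ i)
    rw [fge_of_le F (Nat.zero_le _)]
    exact le_rfl
  | succ k ih =>
    intro F hF h0
    set s := kf m k + 1 with hs
    set W := fgen (fge F (k + 1)) with hW
    have hWn : ∀ i, ∀ x ∈ W i, ∀ z ∈ F 0, ⁅x, z⁆ ∈ W i := by
      apply lie_fgen_mem
      intro i x hx z hz
      by_cases hi : k + 1 ≤ i.val
      · rw [fge_of_le F hi] at hx ⊢
        exact hF i (lie_mem_fbr' (add_zero i) hx hz)
      · rw [fge_of_not_le F hi, AddSubgroup.mem_bot] at hx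
        rw [hx, zero_lie]; exact zero_mem _
    have hb : ∀ j : ℕ, ∀ i : ZMod n, i.val = k → fder F (j * s) i ≤ W i ⊔ it0 F F j i := by
      intro j
      induction j with
      | zero =>
        intro i _
        rw [Nat.zero_mul]
        exact le_sup_right
      | succ j ihj =>
        intro i hi
        have hN : fder F ((j + 1) * s) = fder (fder F (j * s)) s := by
          rw [← fder_add]; congr 1; ring
        rw [hN]
        have hNF : fder F (j * s) ≤ F := fder_le hF _
        have hNN : fbr (fder F (j * s)) (fder F (j * s)) ≤ fder F (j * s) := fbr_fder_le hF _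
        have hN0 : ∀ i, it0 (fder F (j * s)) (fder F (j * s)) m i = ⊥ := by
          intro i
          rw [eq_bot_iff, ← h0 i]
          exact it0_mono hNF hNF m i
        have h1 := step_a hNN (ih _ hNN hN0) i hi
        refine h1.trans (sup_le ?_ ?_)
        · exact (fgen_mono (fge_mono hNF (k + 1)) i).trans le_sup_left
        · apply (AddSubgroup.closure_le _).mpr
          rintro _ ⟨x, hx, z, hz, rfl⟩
          have hx' := ihj i hi hx
          have hz' : z ∈ F 0 := hNF 0 hz
          obtain ⟨w, hw, y, hy, rfl⟩ := AddSubgroup.mem_sup.mp hx'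
          rw [SetLike.mem_coe, add_lie]
          exact add_mem (AddSubgroup.mem_sup_left (hWn i w hw z hz'))
            (AddSubgroup.mem_sup_right (lie_mem_it0 hy hz'))
    have hkf : kf m (k + 1) = m * s + kf m k := rfl
    rw [hkf, fder_add]
    have hNF : fder F (m * s) ≤ F := fder_le hF _
    have hNN : fbr (fder F (m * s)) (fder F (m * s)) ≤ fder F (m * s) := fbr_fder_le hF _
    have hN0 : ∀ i, it0 (fder F (m * s)) (fder F (m * s)) m i = ⊥ := by
      intro i
      rw [eq_bot_iff, ← h0 i]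
      exact it0_mono hNF hNF m i
    refine (ih _ hNN hN0).trans (fgen_le ?_ (fbr_fgen_le _))
    intro i
    by_cases hi : k ≤ i.val
    · rw [fge_of_le _ hi]
      by_cases hi' : k + 1 ≤ i.val
      · refine le_trans ?_ (le_fgen _ i)
        rw [fge_of_le F hi']
        exact hNF i
      · have h1 := hb m i (by omega)
        rw [h0 i, sup_bot_eq] at h1
        exact h1
    · rw [fge_of_not_le _ hi]
      exact bot_le

/-- **Kreknin's theorem, generalized.** -/
theorem krek [NeZero n] (m : ℕ) (F : ZMod n → AddSubgroup L) (hF : fbr F F ≤ F)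
    (h0 : ∀ i, it0 F F m i = ⊥) : fder F (kf m n) = ⊥ := by
  rw [eq_bot_iff]
  refine (krek_aux m n F hF h0).trans (fgen_le ?_ ?_)
  · intro i
    have : ¬ n ≤ i.val := not_le.mpr (ZMod.val_lt i)
    rw [fge_of_not_le F this]
    exact bot_le
  · apply fbr_le
    intro a b x hx y hy
    have : x = 0 := hx
    rw [this, zero_lie]
    exact zero_mem _

end Cfsg.Agent.H476.Krek
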