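import Mathlib
import Cfsg.Agent.H449.Eigen
import Cfsg.Agent.H476.Krek
import Cfsg.Agent.H476.Collect

/-!
# Lie rings with an automorphism of prime order whose fixed points act nilpotently
-/

set_option autoImplicit false

namespace Cfsg.Agent.H476.LieAut

open Cfsg.Agent.H449 Cfsg.Agent.H476.Krek Cfsg.Agent.H476.Collect

universe u

/-- The additive span of the pure tensors `s ⊗ v`, `v ∈ N`. -/
noncomputable def tsp (A : Type) [CommRing A] {L : Type u} [LieRing L] (N : AddSubgroup L) : AddSubgroup (Ext A L) :=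
  AddSubgroup.closure {z | ∃ s : A, ∃ v ∈ N, tm A s v = z}

section

variable {A : Type} [CommRing A] {L : Type u} [LieRing L]

theorem tm_mem_tsp {N : AddSubgroup L} (s : A) {v : L} (hv : v ∈ N) : tm A s v ∈ tsp A N :=
  AddSubgroup.subset_closure ⟨s, v, hv, rfl⟩

theorem tsp_top (x : Ext A L) : x ∈ tsp A (⊤ : AddSubgroup L) := by
  induction x using Ext.ind with
  | h0 => exact zero_mem _
  | h1 s u => exact tm_mem_tsp s trivial
  | h2 x y hx hy => exact add_mem hx hy

theorem tm_zero (s : A) : tm A s (0 : L) = 0 := TensorProduct.tmul_zero _ _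

theorem tm_add (s : A) (x y : L) : tm A s (x + y) = tm A s x + tm A s y := TensorProduct.tmul_add _ _ _

theorem tm_neg (s : A) (x : L) : tm A s (-x) = - tm A s x := TensorProduct.tmul_neg _ _

theorem tsp_bot : tsp A (⊥ : AddSubgroup L) = ⊥ := by
  rw [eq_bot_iff]
  apply (AddSubgroup.closure_le _).mpr
  rintro _ ⟨s, v, hv, rfl⟩
  rw [AddSubgroup.mem_bot.mp hv]
  exact AddSubgroup.mem_bot.mpr (tm_zero s)

theorem lie_mem_tsp {N S : AddSubgroup L} {x y : Ext A L} (hx : x ∈ tsp A N) (hy : y ∈ tsp A S) :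
    ⁅x, y⁆ ∈ tsp A (br N S) := by
  refine lie_mem_of_closure ?_ hx
  rintro _ ⟨s, v, hv, rfl⟩
  refine lie_mem_of_closure_right ?_ hy
  rintro _ ⟨t, w, hw, rfl⟩
  rw [lie_tm]
  exact tm_mem_tsp _ (lie_mem_br hv hw)

end

/-- **Theorem.** Let `a` be an automorphism of the Lie ring `L` with `a ^ p = 1`, `p` a prime which is invertible in
`L`, whose fixed points act nilpotently: `[L, C_L(a), …, C_L(a)] = 0` (`m` times).
Then `L` is solvable of `(p, m)`-bounded derived length. -/
theorem der_eq_bot_of_aut {p : ℕ} [Fact p.Prime] {L : Type u} [LieRing L] (a : L →+ L)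
    (ha : ∀ x y, a ⁅x, y⁆ = ⁅a x, a y⁆) (hap : ∀ x, (⇑a)^[p] x = x) (u : ℕ)
    (hu : ∀ x : L, (u * p) • x = x) (F₀ : AddSubgroup L) (hF₀ : ∀ x, a x = x → x ∈ F₀) (m : ℕ)
    (hm : itr (⊤ : AddSubgroup L) F₀ m = ⊥) : der (⊤ : AddSubgroup L) (kf m p) = ⊥ := by
  have hp : p.Prime := Fact.out
  obtain ⟨A, _, hfree, hnt, ω, hω, hsum⟩ := exists_root_ring p hp
  let χ : AddChar (ZMod p) A := AddChar.zmodChar p hω
  have hχ : ∑ j : ZMod p, χ j = 0 := by
    have h1 : ∀ j : ZMod p, χ j = ω ^ j.val := fun j => AddChar.zmodChar_apply hω j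
    rw [Finset.sum_congr rfl fun j _ => h1 j, ← hsum]
    clear h1 χ hsum hω
    obtain ⟨n, rfl⟩ : ∃ n, p = n + 1 := ⟨p - 1, by have := hp.pos; omega⟩
    exact Fin.sum_univ_eq_sum_range (fun j => ω ^ j) (n + 1)
  let b := ext A a
  have hb : ∀ x y, b ⁅x, y⁆ = ⁅b x, b y⁆ := ext_lie A a ha
  have hbp : ∀ x, (⇑b)^[p] x = x := ext_iterate A a p hap
  have hu' : ∀ x : Ext A L, (u * p) • x = x := by
    intro x
    induction x using Ext.ind with
    | h0 => exact smul_zero _
    | h1 s v => rw [nsmul_tm, hu]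
    | h2 x y hx hy => rw [smul_add, hx, hy]
  -- the trace maps into `tsp F₀`
  have htr : ∀ x : Ext A L, ∑ i ∈ Finset.range p, (⇑b)^[i] x ∈ tsp A F₀ := by
    intro x
    induction x using Ext.ind with
    | h0 =>
      have : ∀ i : ℕ, (⇑b)^[i] (0 : Ext A L) = 0 := ext_iterate_zero A a
      rw [Finset.sum_congr rfl fun i _ => this i, Finset.sum_const_zero]
      exact zero_mem _
    | h1 s v =>
      have key : ∀ (k : ℕ) (v : L), (⇑b)^[k] (tm A s v) = tm A s ((⇑a)^[k] v) := by
        intro k
        induction k with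
        | zero => intro v; rfl
        | succ k ih => intro v; rw [Function.iterate_succ_apply, ext_tm, ih]; rfl
      rw [Finset.sum_congr rfl fun i _ => key i v]
      have h1 : ∀ t : Finset ℕ, ∑ i ∈ t, tm A s ((⇑a)^[i] v) = tm A s (∑ i ∈ t, (⇑a)^[i] v) := by
        intro t
        classical
        induction t using Finset.induction_on with
        | empty => rw [Finset.sum_empty, Finset.sum_empty, tm_zero]
        | insert i t hi ih => rw [Finset.sum_insert hi, Finset.sum_insert hi, ih, tm_add]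
      rw [h1]
      apply tm_mem_tsp
      apply hF₀
      rw [map_sum]
      have h2 : ∀ i ∈ Finset.range p, a ((⇑a)^[i] v) = (⇑a)^[i + 1] v := by
        intro i _
        exact (Function.iterate_succ_apply' (⇑a) i v).symm
      rw [Finset.sum_congr rfl h2]
      have h3 := Finset.sum_range_succ (fun i => (⇑a)^[i] v) p
      have h4 := Finset.sum_range_succ' (fun i => (⇑a)^[i] v) p
      rw [h3, hap] at h4
      simpa using h4.symm
    | h2 x y hx hy =>
      have : ∀ i : ℕ, (⇑b)^[i] (x + y) = (⇑b)^[i] x + (⇑b)^[i] y := fun i => ext_iterate_add A a i x y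
      rw [Finset.sum_congr rfl fun i _ => this i, Finset.sum_add_distrib]
      exact add_mem hx hy
  -- the zero component
  have hzero : ∀ x ∈ eig χ b 0, x ∈ tsp A F₀ := by
    intro x hx
    rw [mem_eig, AddChar.map_zero_eq_one, one_smul] at hx
    have h1 : ∀ i : ℕ, (⇑b)^[i] x = x := by
      intro i
      induction i with
      | zero => rfl
      | succ i ih => rw [Function.iterate_succ_apply, hx, ih]
    have h2 := htr x
    rw [Finset.sum_congr rfl fun i _ => h1 i, Finset.sum_const, Finset.card_range] at h2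
    rw [← hu' x, mul_smul]
    exact AddSubgroup.nsmul_mem _ h2 u
  have hit : ∀ k : ℕ, ∀ i, it0 (eig χ b) (eig χ b) k i ≤ tsp A (itr (⊤ : AddSubgroup L) F₀ k) := by
    intro k
    induction k with
    | zero => intro i x _; exact tsp_top x
    | succ k ih =>
      intro i
      apply (AddSubgroup.closure_le _).mpr
      rintro _ ⟨x, hx, y, hy, rfl⟩
      exact lie_mem_tsp (ih i hx) (hzero y hy)
  have h0 : ∀ i, it0 (eig χ b) (eig χ b) m i = ⊥ := by
    intro i
    rw [eq_bot_iff]
    refine (hit m i).trans ?_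
    rw [hm, tsp_bot]
  haveI : NeZero p := ⟨hp.ne_zero⟩
  have hkrek := krek m (eig χ b) (fbr_eig_le χ b hb) h0
  -- the derived series of the extension
  have hder : ∀ k : ℕ, der (⊤ : AddSubgroup (Ext A L)) k ≤ ⨆ j, fder (eig χ b) k j := by
    intro k
    induction k with
    | zero =>
      intro x _
      rw [← hu' x, mul_smul]
      apply AddSubgroup.nsmul_mem
      rw [← sum_prj χ hχ b x]
      exact sum_mem fun j _ => AddSubgroup.mem_iSup_of_mem j (prj_mem χ b hbp j x)
    | succ k ih =>
      rw [der_succ]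
      refine (br_mono ih ih).trans ?_
      refine (br_iSup_left _ _).trans (iSup_le fun i => ?_)
      refine (br_iSup_right _ _).trans (iSup_le fun j => ?_)
      refine br_le fun x hx y hy => ?_
      exact AddSubgroup.mem_iSup_of_mem (i + j) (lie_mem_fbr hx hy)
  have hderU : der (⊤ : AddSubgroup (Ext A L)) (kf m p) = ⊥ := by
    rw [eq_bot_iff]
    refine (hder _).trans (iSup_le fun j => ?_)
    rw [hkrek]
    exact le_rfl
  have htm : ∀ k : ℕ, ∀ x ∈ der (⊤ : AddSubgroup L) k, tm A 1 x ∈ der (⊤ : AddSubgroup (Ext A L)) k := by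
    intro k
    induction k with
    | zero => intro x _; trivial
    | succ k ih =>
      intro x hx
      rw [der_succ] at hx ⊢
      change x ∈ AddSubgroup.closure _ at hx
      induction hx using AddSubgroup.closure_induction with
      | mem x hx =>
        obtain ⟨y, hy, z, hz, rfl⟩ := hx
        have : tm A (1 : A) ⁅y, z⁆ = ⁅tm A 1 y, tm A 1 z⁆ := by rw [lie_tm, mul_one]
        rw [this]
        exact lie_mem_br (ih y hy) (ih z hz)
      | zero => rw [tm_zero]; exact zero_mem _
      | add x y _ _ h1 h2 => rw [tm_add]; exact add_mem h1 h2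
      | neg x _ h1 => rw [tm_neg]; exact neg_mem h1
  rw [eq_bot_iff]
  intro x hx
  have h1 := htm _ x hx
  rw [hderU, AddSubgroup.mem_bot] at h1
  exact AddSubgroup.mem_bot.mpr (tm_injective A x h1)

end Cfsg.Agent.H476.LieAut
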