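import Mathlib
import Cfsg.Agent.H476.LieAut
import Cfsg.Agent.H476.AddHyper

/-!
# Nilpotency of a Lie ring with an elementary abelian group of automorphisms

A Lie ring `L` with an action of an elementary abelian `p`-group `A` (`p` invertible in `L`), which is the sum of
finitely many invariant additive subgroups `M i` acting nilpotently with
`[M i, M j] ∩ C_L(B) ≤ M r` for the hyperplanes `B` of `A`, is nilpotent of bounded class
if `C_L(a)` is solvable for some `a`.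
-/

set_option autoImplicit false

namespace Cfsg.Agent.H476.LieBound

open Cfsg.Agent.H449 Cfsg.Agent.H476.Collect Cfsg.Agent.H476.AddHyper Cfsg.Agent.H476.Krek
open Cfsg.Agent.H476.LieAut

universe u

variable {A : Type*} [CommGroup A] {L : Type u} [LieRing L] (Φ : A → L →+ L) {ι : Type*}
  (M : ι → AddSubgroup L)

/-- Invariant additive subgroups which are generated by their intersections with the `M i`. -/
def Good (N : AddSubgroup L) : Prop :=
  (∀ a, ∀ x ∈ N, Φ a x ∈ N) ∧ N ≤ ⨆ i, N ⊓ M i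

theorem br_invariant (hlie : ∀ a x y, Φ a ⁅x, y⁆ = ⁅Φ a x, Φ a y⁆) {N N' : AddSubgroup L}
    (h : ∀ a, ∀ x ∈ N, Φ a x ∈ N) (h' : ∀ a, ∀ x ∈ N', Φ a x ∈ N') :
    ∀ a, ∀ x ∈ br N N', Φ a x ∈ br N N' := by
  intro a
  have h1 : br N N' ≤ (br N N').comap (Φ a) := by
    refine br_le fun x hx y hy => ?_
    rw [AddSubgroup.mem_comap, hlie]
    exact lie_mem_br (h a x hx) (h' a y hy)
  exact h1

theorem good_br {p : ℕ} [Fact p.Prime] [Finite A] [Nontrivial A] (hA : ∀ a : A, a ^ p = 1)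
    (h1 : ∀ x, Φ 1 x = x) (hmul : ∀ a b x, Φ (a * b) x = Φ a (Φ b x))
    (hlie : ∀ a x y, Φ a ⁅x, y⁆ = ⁅Φ a x, Φ a y⁆) (u : ℕ) (hu : ∀ x : L, (u * p) • x = x)
    (hM : ∀ i, ∀ a, ∀ x ∈ M i, Φ a x ∈ M i)
    (hC : ∀ i j, ∀ B : Subgroup A, B.index = p → ∃ r, br (M i) (M j) ⊓ fixV Φ B ≤ M r)
    {N N' : AddSubgroup L} (hN : Good Φ M N) (hN' : Good Φ M N') : Good Φ M (br N N') := by
  refine ⟨br_invariant Φ hlie hN.1 hN'.1, ?_⟩
  have hb : br N N' ≤ br (⨆ i, N ⊓ M i) (⨆ i, N' ⊓ M i) := br_mono hN.2 hN'.2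
  refine hb.trans ((br_iSup_left _ _).trans (iSup_le fun i => (br_iSup_right _ _).trans
    (iSup_le fun j => ?_)))
  have hinv : ∀ a, ∀ x ∈ br (N ⊓ M i) (N' ⊓ M j), Φ a x ∈ br (N ⊓ M i) (N' ⊓ M j) :=
    br_invariant Φ hlie (fun a x hx => ⟨hN.1 a x hx.1, hM i a x hx.2⟩)
      (fun a x hx => ⟨hN'.1 a x hx.1, hM j a x hx.2⟩)
  refine (le_iSup_fixV Φ h1 hmul hA u hu _ hinv).trans (iSup_le ?_)
  rintro ⟨B, hB⟩
  obtain ⟨r, hr⟩ := hC i j B hB
  refine le_trans ?_ (le_iSup (fun r => br N N' ⊓ M r) r)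
  refine le_inf (inf_le_left.trans (br_mono inf_le_left inf_le_left)) ?_
  exact (inf_le_inf_right _ (br_mono inf_le_right inf_le_right)).trans hr

theorem good_iSup {κ : Sort*} {N : κ → AddSubgroup L} (hN : ∀ k, Good Φ M (N k)) :
    Good Φ M (⨆ k, N k) := by
  constructor
  · intro a
    have h1 : (⨆ k, N k) ≤ (⨆ k, N k).comap (Φ a) := by
      refine iSup_le fun k x hx => ?_
      exact AddSubgroup.mem_iSup_of_mem k ((hN k).1 a x hx)
    exact h1
  · refine iSup_le fun k => (hN k).2.trans (iSup_mono fun i => ?_)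
    exact inf_le_inf_right _ (le_iSup N k)

theorem good_fix {p : ℕ} (hA : ∀ a : A, a ^ p = 1)
    (h1 : ∀ x, Φ 1 x = x) (hmul : ∀ a b x, Φ (a * b) x = Φ a (Φ b x))
    (u : ℕ) (hu : ∀ x : L, (u * p) • x = x)
    (hM : ∀ i, ∀ a, ∀ x ∈ M i, Φ a x ∈ M i)
    (hT : Good Φ M ⊤) (a : A) : Good Φ M (fixV Φ (Subgroup.zpowers a)) := by
  have hpow : ∀ (x : L), Φ a x = x → ∀ n : ℕ, Φ (a ^ n) x = x := by
    intro x hx n
    induction n with
    | zero => rw [pow_zero, h1]
    | succ n ih => rw [pow_succ, hmul, hx, ih]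
  have hfin : ∀ (x : L), Φ a x = x → x ∈ fixV Φ (Subgroup.zpowers a) := by
    intro x hx b hb
    obtain ⟨k, rfl⟩ := Subgroup.mem_zpowers_iff.mp hb
    obtain ⟨n, rfl | rfl⟩ := Int.eq_nat_or_neg k
    · rw [zpow_natCast]; exact hpow x hx n
    · have h2 := hpow x hx n
      have h3 : Φ (a ^ (-(n : ℤ))) (Φ (a ^ n) x) = x := by
        rw [← hmul, zpow_neg, zpow_natCast, inv_mul_cancel, h1]
      rwa [h2] at h3
  constructor
  · intro b x hx c hc
    rw [← hmul, mul_comm, hmul, hx c hc]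
  · -- the trace
    have htr : ∀ y : L, ∑ i ∈ Finset.range p, Φ (a ^ i) y ∈ fixV Φ (Subgroup.zpowers a) := by
      intro y
      apply hfin
      rw [map_sum]
      have h2 : ∀ i ∈ Finset.range p, Φ a (Φ (a ^ i) y) = Φ (a ^ (i + 1)) y := by
        intro i _
        rw [← hmul, ← pow_succ']
      rw [Finset.sum_congr rfl h2]
      have h3 := Finset.sum_range_succ (fun i => Φ (a ^ i) y) p
      have h4 := Finset.sum_range_succ' (fun i => Φ (a ^ i) y) p
      rw [h3, hA, pow_zero] at h4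
      exact (add_right_cancel h4).symm
    have key : ∀ y : L, ∑ i ∈ Finset.range p, Φ (a ^ i) y ∈
        ⨆ i, fixV Φ (Subgroup.zpowers a) ⊓ M i := by
      intro y
      have hy : y ∈ ⨆ i, (⊤ : AddSubgroup L) ⊓ M i := hT.2 trivial
      induction hy using AddSubgroup.iSup_induction' with
      | hp i y hy =>
        refine AddSubgroup.mem_iSup_of_mem i ⟨htr y, ?_⟩
        exact sum_mem fun j _ => hM i _ y hy.2
      | h1 =>
        have : ∀ i ∈ Finset.range p, Φ (a ^ i) (0 : L) = 0 := fun i _ => map_zero _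
        rw [Finset.sum_congr rfl this, Finset.sum_const_zero]
        exact zero_mem _
      | hadd y z _ _ h2 h3 =>
        have : ∀ i ∈ Finset.range p, Φ (a ^ i) (y + z) = Φ (a ^ i) y + Φ (a ^ i) z :=
          fun i _ => map_add _ _ _
        rw [Finset.sum_congr rfl this, Finset.sum_add_distrib]
        exact add_mem h2 h3
    intro x hx
    have h2 := key x
    have h3 : ∀ i ∈ Finset.range p, Φ (a ^ i) x = x := fun i _ =>
      hx _ (Subgroup.pow_mem _ (Subgroup.mem_zpowers a) i)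
    rw [Finset.sum_congr rfl h3, Finset.sum_const, Finset.card_range] at h2
    rw [← hu x, mul_smul]
    exact AddSubgroup.nsmul_mem _ h2 u

/-- The bound. -/
def bnd (p t m s : ℕ) : ℕ := (t * m + 1) ^ (kf ((t * m + 1) ^ s) p)

theorem itr_top_top {p : ℕ} [Fact p.Prime] [Finite A] [Nontrivial A] (hA : ∀ a : A, a ^ p = 1)
    (h1 : ∀ x, Φ 1 x = x) (hmul : ∀ a b x, Φ (a * b) x = Φ a (Φ b x))
    (hlie : ∀ a x y, Φ a ⁅x, y⁆ = ⁅Φ a x, Φ a y⁆) (u : ℕ) (hu : ∀ x : L, (u * p) • x = x)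
    [Fintype ι] (hM : ∀ i, ∀ a, ∀ x ∈ M i, Φ a x ∈ M i)
    (hC : ∀ i j, ∀ B : Subgroup A, B.index = p → ∃ r, br (M i) (M j) ⊓ fixV Φ B ≤ M r)
    (m : ℕ) (hm : ∀ i, itr ⊤ (M i) m = ⊥) (hT : Good Φ M ⊤) (a : A) (s : ℕ)
    (hs : der (fixV Φ (Subgroup.zpowers a)) s = ⊥) :
    itr (⊤ : AddSubgroup L) ⊤ (bnd p (Fintype.card ι) m s) = ⊥ := by
  have hder : ∀ N : AddSubgroup L, Good Φ M N → ∀ j, Good Φ M (der N j) := by
    intro N hN j
    induction j with
    | zero => exact hN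
    | succ j ih => exact good_br Φ M hA h1 hmul hlie u hu hM hC ih ih
  have hfix := good_fix Φ M hA h1 hmul u hu hM hT a
  have hFF : br (fixV Φ (Subgroup.zpowers a)) (fixV Φ (Subgroup.zpowers a)) ≤
      fixV Φ (Subgroup.zpowers a) := by
    refine br_le fun x hx y hy b hb => ?_
    rw [hlie, hx b hb, hy b hb]
  have h2 := itr_of_der hFF M m hm (fun j => (hder _ hfix j).2) s hs
  have hiter : ∀ (n : ℕ) (x : L), (⇑(Φ a))^[n] x = Φ (a ^ n) x := by
    intro n
    induction n with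
    | zero => intro x; rw [pow_zero, h1]; rfl
    | succ n ih => intro x; rw [Function.iterate_succ_apply, ih, ← hmul, pow_succ]
  have h3 := der_eq_bot_of_aut (p := p) (Φ a) (hlie a) (fun x => by rw [hiter, hA, h1]) u hu
    (fixV Φ (Subgroup.zpowers a)) (by
      intro x hx b hb
      obtain ⟨k, rfl⟩ := Subgroup.mem_zpowers_iff.mp hb
      have hpow : ∀ n : ℕ, Φ (a ^ n) x = x := by
        intro n
        induction n with
        | zero => rw [pow_zero, h1]
        | succ n ih => rw [pow_succ, hmul, hx, ih]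
      obtain ⟨n, rfl | rfl⟩ := Int.eq_nat_or_neg k
      · rw [zpow_natCast]; exact hpow n
      · have h2 := hpow n
        have h3 : Φ (a ^ (-(n : ℤ))) (Φ (a ^ n) x) = x := by
          rw [← hmul, zpow_neg, zpow_natCast, inv_mul_cancel, h1]
        rwa [h2] at h3) _ h2
  exact itr_of_der le_top M m hm (fun j => (hder _ hT j).2) _ h3

end Cfsg.Agent.H476.LieBound
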