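import Mathlib
import Cfsg.Agent.H449.GroupCore
import Cfsg.Agent.H476.LieBound

/-!
# The graded Lie ring of a group: subgroups and coprime action
-/

set_option autoImplicit false

namespace Cfsg.Agent.H476.GrSub

open Cfsg.Agent.H449 Cfsg.Agent.H476.Collect Cfsg.Agent.H476.AddHyper Cfsg.Agent.H476.LieBound
open Cfsg.Agent.Lib.CoprimeHyperplane
open scoped commutatorElement

universe u

variable {K : Type u} [Group K]

/-- The image of `P ∩ H k` in `H k / H (k + 1)`. -/
noncomputable def grk (S : NSeries K) (P : Subgroup K) (k : ℕ) : AddSubgroup (S.W k) where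
  carrier := {w | ∃ x ∈ P ⊓ S.H k, S.cls k x = w}
  zero_mem' := ⟨1, one_mem _, S.cls_one k⟩
  add_mem' := by
    rintro _ _ ⟨x, hx, rfl⟩ ⟨y, hy, rfl⟩
    exact ⟨x * y, mul_mem hx hy, S.cls_mul hx.2 hy.2⟩
  neg_mem' := by
    rintro _ ⟨x, hx, rfl⟩
    exact ⟨x⁻¹, inv_mem hx, S.cls_inv hx.2⟩

theorem mem_grk {S : NSeries K} {P : Subgroup K} {k : ℕ} {w : S.W k} :
    w ∈ grk S P k ↔ ∃ x ∈ P ⊓ S.H k, S.cls k x = w := Iff.rfl

/-- The additive subgroup of the graded Lie ring defined by a subgroup. -/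
noncomputable def gr (S : NSeries K) (P : Subgroup K) : AddSubgroup (GrLie S) where
  carrier := {f | ∀ k, f k ∈ grk S P k}
  zero_mem' := fun k => zero_mem (grk S P k)
  add_mem' := fun hf hg k => add_mem (hf k) (hg k)
  neg_mem' := fun hf k => neg_mem (hf k)

theorem mem_gr {S : NSeries K} {P : Subgroup K} {f : GrLie S} : f ∈ gr S P ↔ ∀ k, f k ∈ grk S P k :=
  Iff.rfl

theorem gr_mono {S : NSeries K} {P Q : Subgroup K} (h : P ≤ Q) : gr S P ≤ gr S Q := by
  intro f hf k
  obtain ⟨x, hx, hx'⟩ := hf k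
  exact ⟨x, ⟨h hx.1, hx.2⟩, hx'⟩

theorem gr_bot (S : NSeries K) : gr S (⊥ : Subgroup K) = ⊥ := by
  rw [eq_bot_iff]
  intro f hf
  rw [AddSubgroup.mem_bot]
  refine GrLie.ext S fun k => ?_
  obtain ⟨x, hx, hx'⟩ := hf k
  rw [← hx', Subgroup.mem_bot.mp hx.1, S.cls_one]
  rfl

theorem gr_top (S : NSeries K) : gr S (⊤ : Subgroup K) = ⊤ := by
  rw [eq_top_iff]
  intro f _ k
  exact ⟨S.rep (f k), ⟨trivial, S.rep_mem _⟩, S.cls_rep _⟩

theorem lie_mem_gr {S : NSeries K} {P Q : Subgroup K} {f g : GrLie S} (hf : f ∈ gr S P)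
    (hg : g ∈ gr S Q) : ⁅f, g⁆ ∈ gr S ⁅P, Q⁆ := by
  intro k
  rw [GrLie.lie_apply]
  apply sum_mem
  intro ij hij
  have h := Finset.HasAntidiagonal.mem_antidiagonal.mp hij
  obtain ⟨x, hx, hx'⟩ := hf ij.1
  obtain ⟨y, hy, hy'⟩ := hg ij.2
  rw [← hx', ← hy', S.bk_cls h hx.2 hy.2]
  exact ⟨⁅x, y⁆, ⟨Subgroup.commutator_mem_commutator hx.1 hy.1, S.comm_mem h.ge hx.2 hy.2⟩, rfl⟩

theorem br_gr_le (S : NSeries K) (P Q : Subgroup K) : br (gr S P) (gr S Q) ≤ gr S ⁅P, Q⁆ :=
  br_le fun _ hf _ hg => lie_mem_gr hf hg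

theorem itr_gr_le (S : NSeries K) (P Q : Subgroup K) (m : ℕ) :
    itr (gr S P) (gr S Q) m ≤ gr S (iterComm P Q m) := by
  induction m with
  | zero => exact le_rfl
  | succ m ih =>
    rw [itr_succ, iterComm_succ]
    exact (br_mono ih le_rfl).trans (br_gr_le S _ _)

/-- The derived series of a subgroup. -/
def dS (H : Subgroup K) : ℕ → Subgroup K
  | 0 => H
  | k + 1 => ⁅dS H k, dS H k⁆

theorem dS_succ (H : Subgroup K) (k : ℕ) : dS H (k + 1) = ⁅dS H k, dS H k⁆ := rfl

theorem dS_mono {H H' : Subgroup K} (h : H ≤ H') (k : ℕ) : dS H k ≤ dS H' k := by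
  induction k with
  | zero => exact h
  | succ k ih => exact Subgroup.commutator_mono ih ih

theorem dS_add (H : Subgroup K) (a b : ℕ) : dS H (a + b) = dS (dS H a) b := by
  induction b with
  | zero => rfl
  | succ b ih => rw [← add_assoc, dS_succ, ih, dS_succ]

theorem dS_le (H : Subgroup K) (k : ℕ) : dS H k ≤ H := by
  induction k with
  | zero => exact le_rfl
  | succ k ih =>
    rw [dS_succ, Subgroup.commutator_le]
    intro x hx y hy
    have h1 := ih hx
    have h2 := ih hy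
    exact mul_mem (mul_mem (mul_mem h1 h2) (inv_mem h1)) (inv_mem h2)

theorem dS_anti (H : Subgroup K) {a b : ℕ} (h : a ≤ b) : dS H b ≤ dS H a := by
  obtain ⟨c, rfl⟩ := Nat.exists_eq_add_of_le h
  rw [dS_add]
  exact dS_le _ _

theorem dS_le_lcs (H : Subgroup K) (k : ℕ) : dS H k ≤ H.lowerCentralSeries k := by
  induction k with
  | zero => exact le_rfl
  | succ k ih =>
    rw [dS_succ, Subgroup.lowerCentralSeries_succ]
    exact Subgroup.commutator_mono ih (dS_le H k)

theorem der_gr_le (S : NSeries K) (P : Subgroup K) (k : ℕ) : der (gr S P) k ≤ gr S (dS P k) := by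
  induction k with
  | zero => exact le_rfl
  | succ k ih =>
    rw [der_succ, dS_succ]
    exact (br_mono ih ih).trans (br_gr_le S _ _)

theorem der_mono' {L : Type*} [LieRing L] {S T : AddSubgroup L} (h : S ≤ T) (k : ℕ) :
    der S k ≤ der T k := der_mono h k

/-! ### Action -/

section Action

variable {A : Type*} [CommGroup A] (φ : A →* MulAut K)

theorem lcs_inv (a : A) : ∀ k, ∀ x ∈ (lcsSeries K).H k, (φ a).toMonoidHom x ∈ (lcsSeries K).H k := by
  intro k x hx
  have h1 : (φ a).toMonoidHom x ∈ ((⊤ : Subgroup K).lowerCentralSeries (k - 1)).map (φ a).toMonoidHom :=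
    ⟨x, hx, rfl⟩
  rw [Subgroup.map_lowerCentralSeries] at h1
  exact Subgroup.lowerCentralSeries_mono _ le_top h1

/-- The action on the graded Lie ring. -/
noncomputable def Phi (a : A) : GrLie (lcsSeries K) →+ GrLie (lcsSeries K) :=
  GrLie.map (lcsSeries K) (lcs_inv φ a)

theorem Phi_apply (a : A) (f : GrLie (lcsSeries K)) {k : ℕ} {x : K} (hx : x ∈ (lcsSeries K).H k)
    (h : f k = (lcsSeries K).cls k x) : Phi φ a f k = (lcsSeries K).cls k (φ a x) := by
  rw [Phi, GrLie.map_apply, h, (lcsSeries K).mapW_cls (lcs_inv φ a) hx]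
  rfl

theorem Phi_one (f : GrLie (lcsSeries K)) : Phi φ 1 f = f := by
  refine GrLie.ext _ fun k => ?_
  rw [Phi_apply φ 1 f ((lcsSeries K).rep_mem (f k)) ((lcsSeries K).cls_rep _).symm, map_one,
    MulAut.one_apply, (lcsSeries K).cls_rep]

theorem Phi_mul (a b : A) (f : GrLie (lcsSeries K)) : Phi φ (a * b) f = Phi φ a (Phi φ b f) := by
  refine GrLie.ext _ fun k => ?_
  have hm := (lcsSeries K).rep_mem (f k)
  rw [Phi_apply φ (a * b) f hm ((lcsSeries K).cls_rep _).symm,
    Phi_apply φ a (Phi φ b f) (lcs_inv φ b k _ hm)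
      (Phi_apply φ b f hm ((lcsSeries K).cls_rep _).symm), map_mul, MulAut.mul_apply]
  rfl

theorem Phi_lie (a : A) (f g : GrLie (lcsSeries K)) : Phi φ a ⁅f, g⁆ = ⁅Phi φ a f, Phi φ a g⁆ :=
  GrLie.map_lie _ _ f g

theorem gr_invariant {P : Subgroup K} (hP : ∀ a, ∀ x ∈ P, φ a x ∈ P) :
    ∀ a, ∀ f ∈ gr (lcsSeries K) P, Phi φ a f ∈ gr (lcsSeries K) P := by
  intro a f hf k
  obtain ⟨x, hx, hx'⟩ := hf k
  rw [Phi_apply φ a f hx.2 hx'.symm]
  exact ⟨φ a x, ⟨hP a x hx.1, lcs_inv φ a k x hx.2⟩, rfl⟩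

theorem fix_gr {p : ℕ} [Fact p.Prime] [Finite K] (hK : ¬ p ∣ Nat.card K) {B : Subgroup A}
    (hB : IsPGroup p B) {P : Subgroup K} (hP : ∀ a, ∀ x ∈ P, φ a x ∈ P) :
    gr (lcsSeries K) P ⊓ fixV (Phi φ) B ≤ gr (lcsSeries K) (P ⊓ fix φ B) := by
  rintro f ⟨hf, hfB⟩ k
  obtain ⟨x, hx, hx'⟩ := hf k
  have hN : ¬ p ∣ Nat.card (P ⊓ (lcsSeries K).H (k + 1) : Subgroup K) := fun h =>
    hK (h.trans (Subgroup.card_subgroup_dvd_card _))
  have hNinv : ∀ b ∈ B, ∀ y ∈ P ⊓ (lcsSeries K).H (k + 1), φ b y ∈ P ⊓ (lcsSeries K).H (k + 1) := fun b _ y hy =>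
    ⟨hP b y hy.1, lcs_inv φ b _ y hy.2⟩
  have hxN : ∀ b ∈ B, x⁻¹ * φ b x ∈ P ⊓ (lcsSeries K).H (k + 1) := by
    intro b hb
    refine ⟨P.mul_mem (P.inv_mem hx.1) (hP b x hx.1), ?_⟩
    have h1 : Phi φ b f k = f k := by rw [hfB b hb]
    rw [Phi_apply φ b f hx.2 hx'.symm, ← hx'] at h1
    have h2 := ((lcsSeries K).cls_eq_iff (lcs_inv φ b k x hx.2) hx.2).mp h1
    have h3 := (lcsSeries K).conj_mem h2 x⁻¹
    have h4 : x⁻¹ * ((φ b).toMonoidHom x * x⁻¹) * x⁻¹⁻¹ = x⁻¹ * φ b x := by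
      change x⁻¹ * (φ b x * x⁻¹) * x⁻¹⁻¹ = x⁻¹ * φ b x
      group
    rw [h4] at h3
    exact h3
  obtain ⟨y, hy, hxy⟩ := exists_fixed_in_coset φ hB hN hNinv x hxN
  have hyP : y ∈ P := by
    have := mul_mem hx.1 hxy.1
    rwa [mul_inv_cancel_left] at this
  have hyH : y ∈ (lcsSeries K).H k := by
    have := mul_mem hx.2 ((lcsSeries K).anti (Nat.le_succ k) hxy.2)
    rwa [mul_inv_cancel_left] at this
  refine ⟨y, ⟨⟨hyP, hy⟩, hyH⟩, ?_⟩
  rw [← hx', ← mul_inv_cancel_left x y, (lcsSeries K).cls_mul hx.2 ((lcsSeries K).anti (Nat.le_succ k) hxy.2),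
    (lcsSeries K).cls_eq_zero hxy.2, add_zero]

end Action

theorem nsmul_gr_apply (S : NSeries K) (n : ℕ) (f : GrLie S) (k : ℕ) : (n • f) k = n • f k := rfl

/-- `p` is invertible on the graded Lie ring of a finite `p'`-group. -/
theorem exists_inv [Finite K] {p : ℕ} (hp : p.Prime) (hK : ¬ p ∣ Nat.card K) (S : NSeries K) :
    ∃ u : ℕ, ∀ f : GrLie S, (u * p) • f = f := by
  have hcop : Nat.Coprime p (Nat.card K) := (Nat.Prime.coprime_iff_not_dvd hp).mpr hK
  have htot : 0 < Nat.totient (Nat.card K) := Nat.totient_pos.mpr Nat.card_pos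
  refine ⟨p ^ (Nat.totient (Nat.card K) - 1), fun f => ?_⟩
  have e : p ^ (Nat.totient (Nat.card K) - 1) * p = p ^ (Nat.totient (Nat.card K)) := by
    rw [← pow_succ]; congr 1; omega
  rw [e]
  refine GrLie.ext S fun k => ?_
  rw [nsmul_gr_apply, ← S.cls_rep (f k), ← S.cls_pow (S.rep_mem _)]
  congr 1
  have h1 : p ^ (Nat.totient (Nat.card K)) ≡ 1 [MOD orderOf (S.rep (f k))] :=
    (Nat.ModEq.pow_totient hcop).of_dvd (_root_.orderOf_dvd_natCard _)
  have h2 := (pow_eq_pow_iff_modEq (x := S.rep (f k))).mpr h1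
  rw [h2, pow_one]

/-! ### Generation in degree one -/

/-- The homogeneous component of degree `k`. -/
noncomputable def comp (S : NSeries K) (k : ℕ) : AddSubgroup (GrLie S) where
  carrier := {f | ∀ l, l ≠ k → f l = 0}
  zero_mem' := fun l _ => rfl
  add_mem' := fun {f g} hf hg l hl => by rw [GrLie.add_apply, hf l hl, hg l hl, add_zero]
  neg_mem' := fun {f} hf l hl => by
    change - f l = 0
    rw [hf l hl, neg_zero]

theorem single_mem_comp (S : NSeries K) (k : ℕ) (w : S.W k) : GrLie.single S k w ∈ comp S k :=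
  fun _ hl => GrLie.single_of_ne S hl w

theorem eq_single_of_mem_comp {S : NSeries K} {k : ℕ} {f : GrLie S} (hf : f ∈ comp S k) :
    f = GrLie.single S k (f k) := by
  refine GrLie.ext S fun l => ?_
  by_cases hl : l = k
  · subst hl; rw [GrLie.single_same]
  · rw [hf l hl, GrLie.single_of_ne S hl]

theorem comp_succ_le (k : ℕ) :
    comp (lcsSeries K) (k + 1 + 1) ≤ br (comp (lcsSeries K) (k + 1)) (comp (lcsSeries K) 1) := by
  intro f hf
  rw [eq_single_of_mem_comp hf, ← (lcsSeries K).cls_rep (f (k + 1 + 1))]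
  have hm := (lcsSeries K).rep_mem (f (k + 1 + 1))
  generalize (lcsSeries K).rep (f (k + 1 + 1)) = x at hm
  change x ∈ Subgroup.closure {z | ∃ y ∈ (⊤ : Subgroup K).lowerCentralSeries k,
    ∃ g ∈ (⊤ : Subgroup K), ⁅y, g⁆ = z} at hm
  induction hm using Subgroup.closure_induction with
  | mem x hx =>
    obtain ⟨y, hy, g, hg, rfl⟩ := hx
    have hy' : y ∈ (lcsSeries K).H (k + 1) := hy
    have hg' : g ∈ (lcsSeries K).H 1 := hg
    rw [← (lcsSeries K).bk_cls (i := k + 1) (j := 1) rfl hy' hg', ← GrLie.lie_single (lcsSeries K) rfl]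
    exact lie_mem_br (single_mem_comp (lcsSeries K) _ _) (single_mem_comp (lcsSeries K) _ _)
  | one => rw [(lcsSeries K).cls_one, GrLie.single_zero]; exact zero_mem _
  | mul x y hx hy h1 h2 =>
    rw [(lcsSeries K).cls_mul (k := k + 1 + 1) hx hy, GrLie.single_add]
    exact add_mem h1 h2
  | inv x hx h1 =>
    rw [(lcsSeries K).cls_inv (k := k + 1 + 1) hx, GrLie.single_neg]
    exact neg_mem h1

theorem comp_zero_le : comp (lcsSeries K) 0 = ⊥ := by
  rw [eq_bot_iff]
  intro f hf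
  rw [AddSubgroup.mem_bot, eq_single_of_mem_comp hf, ← (lcsSeries K).cls_rep (f 0),
    (lcsSeries K).cls_eq_zero (by rw [zero_add, (lcsSeries K).one]; trivial), GrLie.single_zero]

/-- If the subgroups `P i` generate `K`, the degree one component is generated by the `gr (P i)`. -/
theorem comp_one_le {ι : Type*} (P : ι → Subgroup K) (hP : ⨆ i, P i = ⊤) :
    comp (lcsSeries K) 1 ≤ ⨆ i, comp (lcsSeries K) 1 ⊓ gr (lcsSeries K) (P i) := by
  intro f hf
  rw [eq_single_of_mem_comp hf, ← (lcsSeries K).cls_rep (f 1)]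
  have hm : (lcsSeries K).rep (f 1) ∈ ⨆ i, P i := by rw [hP]; trivial
  generalize (lcsSeries K).rep (f 1) = x at hm
  induction hm using Subgroup.iSup_induction' with
  | hp i x hx =>
    refine AddSubgroup.mem_iSup_of_mem i ⟨single_mem_comp (lcsSeries K) _ _, fun k => ?_⟩
    by_cases hk : k = 1
    · subst hk
      rw [GrLie.single_same]
      exact ⟨x, ⟨hx, trivial⟩, rfl⟩
    · rw [GrLie.single_of_ne (lcsSeries K) hk]
      exact zero_mem _
  | h1 => rw [(lcsSeries K).cls_one, GrLie.single_zero]; exact zero_mem _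
  | hmul x y _ _ h1 h2 =>
    rw [(lcsSeries K).cls_mul (k := 1) (by trivial) (by trivial), GrLie.single_add]
    exact add_mem h1 h2

theorem top_le_iSup_comp {n : ℕ} (hn : (⊤ : Subgroup K).lowerCentralSeries n = ⊥) :
    (⊤ : AddSubgroup (GrLie (lcsSeries K))) ≤ ⨆ k, comp (lcsSeries K) k := by
  intro f _
  have h0 : ∀ k, n + 1 ≤ k → f k = 0 := by
    intro k hk
    rw [← (lcsSeries K).cls_rep (f k)]
    have h1 : (lcsSeries K).rep (f k) ∈ (lcsSeries K).H (n + 1) := (lcsSeries K).anti hk ((lcsSeries K).rep_mem _)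
    have h2 : (lcsSeries K).rep (f k) = 1 := by
      have h3 : (lcsSeries K).rep (f k) ∈ (⊤ : Subgroup K).lowerCentralSeries n := h1
      rw [hn] at h3
      exact Subgroup.mem_bot.mp h3
    rw [h2, (lcsSeries K).cls_one]
  have h1 : f = ∑ k ∈ Finset.range (n + 1), GrLie.single (lcsSeries K) k (f k) := by
    refine GrLie.ext (lcsSeries K) fun l => ?_
    have h2 : (∑ k ∈ Finset.range (n + 1), GrLie.single (lcsSeries K) k (f k)) l =
        ∑ k ∈ Finset.range (n + 1), GrLie.single (lcsSeries K) k (f k) l :=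
      Finset.sum_apply l (Finset.range (n + 1)) (fun k => GrLie.single (lcsSeries K) k (f k))
    rw [h2]
    by_cases hl : l < n + 1
    · rw [Finset.sum_eq_single_of_mem l (Finset.mem_range.mpr hl), GrLie.single_same]
      intro k _ hk
      exact GrLie.single_of_ne (lcsSeries K) (Ne.symm hk) _
    · rw [h0 l (by omega), Finset.sum_eq_zero]
      intro k hk
      have := Finset.mem_range.mp hk
      exact GrLie.single_of_ne (lcsSeries K) (by omega) _
  rw [h1]
  exact sum_mem fun k _ => AddSubgroup.mem_iSup_of_mem k (single_mem_comp (lcsSeries K) k _)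

theorem single_mem_itr (k : ℕ) : ∀ x ∈ (lcsSeries K).H (k + 1),
    GrLie.single (lcsSeries K) (k + 1) ((lcsSeries K).cls (k + 1) x) ∈
      itr (⊤ : AddSubgroup (GrLie (lcsSeries K))) ⊤ k := by
  induction k with
  | zero => intro x _; trivial
  | succ k ih =>
    intro x hx
    change x ∈ Subgroup.closure {z | ∃ y ∈ (⊤ : Subgroup K).lowerCentralSeries k,
      ∃ g ∈ (⊤ : Subgroup K), ⁅y, g⁆ = z} at hx
    induction hx using Subgroup.closure_induction with
    | mem x hx =>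
      obtain ⟨y, hy, g, hg, rfl⟩ := hx
      have hy' : y ∈ (lcsSeries K).H (k + 1) := hy
      have hg' : g ∈ (lcsSeries K).H 1 := hg
      rw [← (lcsSeries K).bk_cls (i := k + 1) (j := 1) rfl hy' hg',
        ← GrLie.lie_single (lcsSeries K) rfl]
      exact lie_mem_br (ih y hy') trivial
    | one => rw [(lcsSeries K).cls_one, GrLie.single_zero]; exact zero_mem _
    | mul x y hx hy h1 h2 =>
      rw [(lcsSeries K).cls_mul (k := k + 1 + 1) hx hy, GrLie.single_add]
      exact add_mem h1 h2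
    | inv x hx h1 =>
      rw [(lcsSeries K).cls_inv (k := k + 1 + 1) hx, GrLie.single_neg]
      exact neg_mem h1

/-- Class of a nilpotent group from the class of its graded Lie ring. -/
theorem lcs_eq_bot_of_itr (hK : Group.IsNilpotent K) {h : ℕ}
    (hh : itr (⊤ : AddSubgroup (GrLie (lcsSeries K))) ⊤ h = ⊥) :
    (⊤ : Subgroup K).lowerCentralSeries h = ⊥ := by
  have h1 : (⊤ : Subgroup K).lowerCentralSeries h ≤ (⊤ : Subgroup K).lowerCentralSeries (h + 1) := by
    intro x hx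
    have hx' : x ∈ (lcsSeries K).H (h + 1) := hx
    have h2 := single_mem_itr h x hx'
    rw [hh, AddSubgroup.mem_bot] at h2
    have h3 : (lcsSeries K).cls (h + 1) x = 0 := by
      have h4 := congrArg (fun f : GrLie (lcsSeries K) => f (h + 1)) h2
      beta_reduce at h4
      rw [GrLie.single_same] at h4
      exact h4
    exact (lcsSeries K).mem_of_cls_eq_zero hx' h3
  have h2 : ∀ j, (⊤ : Subgroup K).lowerCentralSeries h ≤
      (⊤ : Subgroup K).lowerCentralSeries (h + j) := by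
    intro j
    induction j with
    | zero => exact le_rfl
    | succ j ih =>
      refine h1.trans ?_
      rw [Subgroup.lowerCentralSeries_succ, ← add_assoc, Subgroup.lowerCentralSeries_succ]
      exact Subgroup.commutator_mono ih le_rfl
  obtain ⟨c, hc⟩ := Subgroup.nilpotent_iff_lowerCentralSeries.mp hK
  rw [eq_bot_iff, ← hc]
  exact (h2 c).trans (Subgroup.lowerCentralSeries_antitone ⊤ (Nat.le_add_left c h))

/-! ### The theorem -/

/-- **Theorem.** Bound for the class of a nilpotent group `K` with a coprime action of an elementary abelian group. -/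
theorem class_bound {A : Type*} [CommGroup A] [Finite A] [Nontrivial A] [Finite K] {p : ℕ} [Fact p.Prime]
    (hA : ∀ a : A, a ^ p = 1) (hK : ¬ p ∣ Nat.card K) (hnil : Group.IsNilpotent K) (φ : A →* MulAut K)
    {ι : Type*} [Fintype ι] (P : ι → Subgroup K) (hP : ∀ i, ∀ a, ∀ x ∈ P i, φ a x ∈ P i)
    (hsup : ⨆ i, P i = ⊤)
    (hC : ∀ i j, ∀ B : Subgroup A, B.index = p → ∃ r, ⁅P i, P j⁆ ⊓ fix φ B ≤ P r)
    (m : ℕ) (hm : ∀ i, ∃ E : Subgroup A, E ≠ ⊥ ∧ ∀ E' : Subgroup A, E' ≤ E → E'.relIndex E = p →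
      iterComm (fix φ E') (P i) m = ⊥)
    (a : A) (s : ℕ) (hs : dS (fix φ (Subgroup.zpowers a)) s = ⊥) :
    (⊤ : Subgroup K).lowerCentralSeries (bnd p (Fintype.card ι) m s) = ⊥ := by
  have hpp : p.Prime := Fact.out
  have hpA : IsPGroup p A := fun a => ⟨1, by rw [pow_one]; exact hA a⟩
  obtain ⟨u, hu⟩ := exists_inv hpp hK (lcsSeries K)
  apply lcs_eq_bot_of_itr hnil
  let M : ι → AddSubgroup (GrLie (lcsSeries K)) := fun i => gr (lcsSeries K) (P i)
  have hMinv : ∀ i, ∀ a, ∀ x ∈ M i, Phi φ a x ∈ M i := fun i => gr_invariant φ (hP i)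
  have hcomm : ∀ i j, ∀ a, ∀ x ∈ ⁅P i, P j⁆, φ a x ∈ ⁅P i, P j⁆ := by
    intro i j a
    have h1 : ⁅P i, P j⁆ ≤ ⁅P i, P j⁆.comap (φ a).toMonoidHom := by
      rw [Subgroup.commutator_le]
      intro x hx y hy
      rw [Subgroup.mem_comap, map_commutatorElement]
      exact Subgroup.commutator_mem_commutator (hP i a x hx) (hP j a y hy)
    exact h1
  have hCM : ∀ i j, ∀ B : Subgroup A, B.index = p → ∃ r, br (M i) (M j) ⊓ fixV (Phi φ) B ≤ M r := by
    intro i j B hB
    obtain ⟨r, hr⟩ := hC i j B hB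
    refine ⟨r, ?_⟩
    refine (inf_le_inf_right _ (br_gr_le (lcsSeries K) (P i) (P j))).trans ?_
    exact (fix_gr φ hK (hpA.to_subgroup B) (hcomm i j)).trans (gr_mono hr)
  have hmM : ∀ i, itr ⊤ (M i) m = ⊥ := by
    intro i
    obtain ⟨E, hE, hE'⟩ := hm i
    have : Nontrivial E := (Subgroup.nontrivial_iff_ne_bot E).mpr hE
    have h1 := le_iSup_fixV (A := E) (fun b : E => Phi φ (b : A)) (Phi_one φ)
      (fun a b x => Phi_mul φ a b x) (p := p) (fun b => Subtype.ext (hA b)) u hu ⊤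
      (fun _ _ _ => trivial)
    rw [eq_bot_iff]
    refine (itr_mono h1 le_rfl m).trans ?_
    have h2 : ∀ (κ : Type _) (N : κ → AddSubgroup (GrLie (lcsSeries K))) (T : AddSubgroup (GrLie (lcsSeries K))) (n : ℕ),
        itr (⨆ k, N k) T n ≤ ⨆ k, itr (N k) T n := by
      intro κ N T n
      induction n with
      | zero => exact le_rfl
      | succ n ih => exact (br_mono ih le_rfl).trans (br_iSup_left _ _)
    refine (h2 _ _ _ m).trans (iSup_le ?_)
    rintro ⟨B, hB⟩
    have h3 : (B.map E.subtype).relIndex E = p := by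
      rw [Subgroup.relIndex, Subgroup.subgroupOf,
        Subgroup.comap_map_eq_self_of_injective (Subgroup.subtype_injective E)]
      exact hB
    have h4 := hE' _ (Subgroup.map_subtype_le B) h3
    have h5 : (⊤ : AddSubgroup (GrLie (lcsSeries K))) ⊓ fixV (fun b : E => Phi φ (b : A)) B ≤
        gr (lcsSeries K) (fix φ (B.map E.subtype)) := by
      have h6 : fixV (fun b : E => Phi φ (b : A)) B ≤ fixV (Phi φ) (B.map E.subtype) := by
        rintro f hf _ ⟨b, hb, rfl⟩
        exact hf b hb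
      have h7 := fix_gr φ hK (hpA.to_subgroup (B.map E.subtype)) (P := ⊤) (fun _ _ _ => trivial)
      rw [gr_top, top_inf_eq, top_inf_eq] at h7
      rw [top_inf_eq]
      exact h6.trans h7
    refine (itr_mono h5 le_rfl m).trans ((itr_gr_le (lcsSeries K) _ _ m).trans ?_)
    rw [h4, gr_bot]
  -- the whole Lie ring is good
  obtain ⟨c, hc⟩ := Subgroup.nilpotent_iff_lowerCentralSeries.mp hnil
  have hcompinv : ∀ k, ∀ a, ∀ f ∈ comp (lcsSeries K) k, Phi φ a f ∈ comp (lcsSeries K) k := by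
    intro k a f hf l hl
    rw [Phi_apply φ a f (x := 1) (one_mem _) (by rw [hf l hl, (lcsSeries K).cls_one]), map_one, (lcsSeries K).cls_one]
  have hbrinv : ∀ k, Good (Phi φ) M (comp (lcsSeries K) k) := by
    intro k
    rcases Nat.eq_zero_or_pos k with rfl | hk
    · refine ⟨hcompinv 0, ?_⟩
      rw [comp_zero_le]
      exact bot_le
    · obtain ⟨n, rfl⟩ : ∃ n, k = n + 1 := ⟨k - 1, by omega⟩
      clear hk
      induction n with
      | zero => exact ⟨hcompinv 1, comp_one_le P hsup⟩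
      | succ n ih =>
        have h1 := good_br (Phi φ) M hA (Phi_one φ) (Phi_mul φ) (Phi_lie φ) u hu hMinv hCM ih
          ⟨hcompinv 1, comp_one_le P hsup⟩
        have h2 : br (comp (lcsSeries K) (n + 1)) (comp (lcsSeries K) 1) ≤ comp (lcsSeries K) (n + 1 + 1) := by
          refine br_le fun f hf g hg => ?_
          rw [eq_single_of_mem_comp hf, eq_single_of_mem_comp hg, GrLie.lie_single (lcsSeries K) rfl]
          exact single_mem_comp (lcsSeries K) _ _
        have h3 : comp (lcsSeries K) (n + 1 + 1) = br (comp (lcsSeries K) (n + 1)) (comp (lcsSeries K) 1) := le_antisymm (comp_succ_le n) h2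
        rw [h3]
        exact h1
  have hT : Good (Phi φ) M ⊤ := by
    have h1 := good_iSup (Phi φ) M hbrinv
    have h2 : (⨆ k, comp (lcsSeries K) k) = ⊤ := top_le_iff.mp (top_le_iSup_comp hc)
    rwa [h2] at h1
  have hsL : der (fixV (Phi φ) (Subgroup.zpowers a)) s = ⊥ := by
    have h7 := fix_gr φ hK (hpA.to_subgroup (Subgroup.zpowers a)) (P := ⊤) (fun _ _ _ => trivial)
    rw [gr_top, top_inf_eq, top_inf_eq] at h7
    rw [eq_bot_iff]
    refine (der_mono h7 s).trans ((der_gr_le (lcsSeries K) _ s).trans ?_)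
    rw [hs, gr_bot]
  exact itr_top_top (Phi φ) M hA (Phi_one φ) (Phi_mul φ) (Phi_lie φ) u hu hMinv hCM m hmM hT a s hsL

end Cfsg.Agent.H476.GrSub
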