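import Mathlib
import Cfsg.Prelude.Def_Transfer
import Cfsg.Prelude.Def_Solvable
import Cfsg.Agent.H476.MaxCentStruct
import Cfsg.Agent.H476.FrobSimple
import Cfsg.Agent.SolvableStructure.AbelianSocle

/-!
Normal subgroups `N` of a finite group `G` such that `C_G(x)` is maximal for all `x ∈ N ∖ Z(N)`.
-/

set_option autoImplicit false

namespace Cfsg.Agent.H476.MaxCentralizer

open Cfsg

variable {G : Type*} [Group G]

/-- The abelian case, first step: `N` is nilpotent. -/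
theorem isNilpotent_of_abelian_closures [Finite G] (N : Subgroup G) [hNn : N.Normal]
    (hab : ∀ x ∈ N, x ∈ Subgroup.centralizer ((Subgroup.normalClosure {x} : Subgroup G) : Set G) ∨
      x ∈ Subgroup.centralizer (N : Set G)) : Group.IsNilpotent N := by
  classical
  refine ((Group.isNilpotent_of_finite_tfae (G := N)).out 0 3).2 ?_
  intro p hp P
  constructor
  intro y hy g
  -- commuting family of conjugates
  set Y : Subgroup N := Subgroup.normalClosure {y} with hY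
  have hYn : Y.Normal := Subgroup.normalClosure_normal
  have hyY : y ∈ Y := Subgroup.subset_normalClosure (Set.mem_singleton y)
  obtain ⟨k, hk⟩ := P.isPGroup' ⟨y, hy⟩
  have hyk : y ^ p ^ k = 1 := congrArg Subtype.val hk
  -- conjugates of `y` commute
  have hcomm : ∀ a b : N, (a * y * a⁻¹) * (b * y * b⁻¹) = (b * y * b⁻¹) * (a * y * a⁻¹) := by
    intro a b
    have h0 : ∀ c : N, y * (c * y * c⁻¹) = (c * y * c⁻¹) * y := by
      intro c
      rcases hab (y : G) y.2 with h | h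
      · rw [Subgroup.mem_centralizer_iff] at h
        have h1 : (c : G) * y * (c : G)⁻¹ ∈ (Subgroup.normalClosure {(y : G)} : Subgroup G) :=
          Subgroup.normalClosure_normal.conj_mem _ (Subgroup.subset_normalClosure (Set.mem_singleton _)) _
        exact Subtype.ext (h _ h1).symm
      · rw [Subgroup.mem_centralizer_iff] at h
        have h1 : (c : G) * y * (c : G)⁻¹ ∈ N := hNn.conj_mem _ y.2 _
        exact Subtype.ext (h _ h1).symm
    have h1 := h0 (a⁻¹ * b)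
    have h2 : a * (y * ((a⁻¹ * b) * y * (a⁻¹ * b)⁻¹)) * a⁻¹ = (a * y * a⁻¹) * (b * y * b⁻¹) := by group
    have h3 : a * (((a⁻¹ * b) * y * (a⁻¹ * b)⁻¹) * y) * a⁻¹ = (b * y * b⁻¹) * (a * y * a⁻¹) := by group
    rw [← h2, ← h3, h1]
  have hYc : ∀ u ∈ Y, ∀ v ∈ Y, u * v = v * u := by
    have h1 : ∀ u ∈ Y, ∀ a : N, u * (a * y * a⁻¹) = (a * y * a⁻¹) * u := by
      intro u hu a
      have h2 : Y ≤ Subgroup.centralizer ({a * y * a⁻¹} : Set N) := by
        rw [hY, Subgroup.normalClosure, Subgroup.closure_le]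
        intro z hz
        rw [Group.mem_conjugatesOfSet_iff] at hz
        obtain ⟨w, hw, hz⟩ := hz
        rw [Set.mem_singleton_iff] at hw
        subst hw
        obtain ⟨b, rfl⟩ := isConj_iff.1 hz
        exact mem_cz.2 (hcomm b a)
      exact mem_cz.1 (h2 hu)
    intro u hu v hv
    have h2 : Y ≤ Subgroup.centralizer ({u} : Set N) := by
      have hY' : Y = Subgroup.closure (Group.conjugatesOfSet {y}) := hY
      rw [hY', Subgroup.closure_le]
      intro z hz
      rw [Group.mem_conjugatesOfSet_iff] at hz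
      obtain ⟨w, hw, hz⟩ := hz
      rw [Set.mem_singleton_iff] at hw
      subst hw
      obtain ⟨b, rfl⟩ := isConj_iff.1 hz
      exact mem_cz.2 (h1 u hu b).symm
    exact (mem_cz.1 (h2 hv)).symm
  -- `Y` has exponent dividing `p ^ k`
  have hYexp : ∀ u ∈ Y, u ^ p ^ k = 1 := by
    intro u hu
    rw [hY, Subgroup.normalClosure] at hu
    induction hu using Subgroup.closure_induction with
    | mem z hz =>
      rw [Group.mem_conjugatesOfSet_iff] at hz
      obtain ⟨w, hw, hz⟩ := hz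
      rw [Set.mem_singleton_iff] at hw
      subst hw
      obtain ⟨b, rfl⟩ := isConj_iff.1 hz
      rw [conj_pow, hyk]; group
    | one => exact one_pow _
    | mul a b ha hb iha ihb =>
      rw [(show Commute a b from hYc a ha b hb).mul_pow, iha, ihb, one_mul]
    | inv a ha iha => rw [inv_pow, iha, inv_one]
  have hYp : IsPGroup p Y := fun u => ⟨k, Subtype.ext (hYexp u u.2)⟩
  have hsup : IsPGroup p ((P : Subgroup N) ⊔ Y : Subgroup N) := P.isPGroup'.to_sup_of_normal_right hYp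
  have h1 : (P : Subgroup N) ⊔ Y = P := P.is_maximal' hsup le_sup_left
  exact h1.le (Subgroup.mem_sup_right (hYn.conj_mem y hyY g))

/-- The abelian case. -/
theorem abelian_case [Finite G] (N : Subgroup G) [hNn : N.Normal]
    (h : ∀ x : G, x ∈ N → x ∉ Subgroup.centralizer (N : Set G) → IsCoatom (Subgroup.centralizer ({x} : Set G)))
    (hab : ∀ x ∈ N, x ∈ Subgroup.centralizer ((Subgroup.normalClosure {x} : Subgroup G) : Set G) ∨
      x ∈ Subgroup.centralizer (N : Set G)) :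
    ∃ p : ℕ, p.Prime ∧ (∀ x ∈ N, x ^ p ∈ Subgroup.centralizer (N : Set G)) ∧
      ⁅N, N⁆ ≤ Subgroup.centralizer (N : Set G) := by
  classical
  have hnil := isNilpotent_of_abelian_closures N hab
  have hcomm : ⁅N, N⁆ ≤ Subgroup.centralizer (N : Set G) := by
    intro z hz
    rw [Subgroup.mem_centralizer_iff]
    intro x hx
    by_cases hxc : x ∈ Subgroup.centralizer (N : Set G)
    · rw [Subgroup.mem_centralizer_iff] at hxc
      exact (hxc z (Subgroup.commutator_le_left N N hz)).symm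
    · have h1 := (SolvableStructure.AbelianSocle.commutator_le_frattini N).trans (frattini_le_coatom (h x hx hxc))
      exact (mem_cz.1 (h1 hz)).symm
  have hcz : ∀ a ∈ N, ∀ b ∈ N, ∀ c ∈ N, (a * b * a⁻¹ * b⁻¹) * c = c * (a * b * a⁻¹ * b⁻¹) := by
    intro a ha b hb c hc
    exact ((Subgroup.mem_centralizer_iff.1 (hcomm (Subgroup.commutator_mem_commutator ha hb))) c hc).symm
  -- powers of commutators
  have hmul1 : ∀ x ∈ N, ∀ a ∈ N, ∀ b ∈ N,
      x * (a * b) * x⁻¹ * (a * b)⁻¹ = (x * a * x⁻¹ * a⁻¹) * (x * b * x⁻¹ * b⁻¹) := by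
    intro x hx a ha b hb
    have h1 := hcz x hx b hb a⁻¹ (N.inv_mem ha)
    calc x * (a * b) * x⁻¹ * (a * b)⁻¹ = (x * a * x⁻¹) * ((x * b * x⁻¹ * b⁻¹) * a⁻¹) := by group
      _ = (x * a * x⁻¹) * (a⁻¹ * (x * b * x⁻¹ * b⁻¹)) := by rw [h1]
      _ = _ := by group
  have hmul2 : ∀ x ∈ N, ∀ y ∈ N, ∀ a ∈ N,
      (x * y) * a * (x * y)⁻¹ * a⁻¹ = (x * a * x⁻¹ * a⁻¹) * (y * a * y⁻¹ * a⁻¹) := by
    intro x hx y hy a ha
    have h1 := hcz y hy a ha (a * x⁻¹ * a⁻¹) (N.mul_mem (N.mul_mem ha (N.inv_mem hx)) (N.inv_mem ha))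
    calc (x * y) * a * (x * y)⁻¹ * a⁻¹ = x * ((y * a * y⁻¹ * a⁻¹) * (a * x⁻¹ * a⁻¹)) := by group
      _ = x * ((a * x⁻¹ * a⁻¹) * (y * a * y⁻¹ * a⁻¹)) := by rw [h1]
      _ = _ := by group
  have hpow1 : ∀ x ∈ N, ∀ a ∈ N, ∀ n : ℕ, x * a ^ n * x⁻¹ * (a ^ n)⁻¹ = (x * a * x⁻¹ * a⁻¹) ^ n := by
    intro x hx a ha n
    induction n with
    | zero => simp
    | succ n ih => rw [pow_succ, hmul1 x hx _ (N.pow_mem ha n) a ha, ih, pow_succ]
  have hpow2 : ∀ x ∈ N, ∀ a ∈ N, ∀ n : ℕ, x ^ n * a * (x ^ n)⁻¹ * a⁻¹ = (x * a * x⁻¹ * a⁻¹) ^ n := by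
    intro x hx a ha n
    induction n with
    | zero => simp
    | succ n ih => rw [pow_succ, hmul2 _ (N.pow_mem hx n) x hx a ha, ih, pow_succ]
  -- every noncentral element has prime order modulo the center
  have hprime : ∀ x ∈ N, x ∉ Subgroup.centralizer (N : Set G) →
      ∃ p : ℕ, p.Prime ∧ x ^ p ∈ Subgroup.centralizer (N : Set G) := by
    intro x hx hxc
    have hM := h x hx hxc
    set M : Subgroup G := Subgroup.centralizer ({x} : Set G) with hMdef
    obtain ⟨n, hn, hnx⟩ : ∃ n ∈ N, n * x ≠ x * n := by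
      by_contra hcon
      push Not at hcon
      exact hxc (Subgroup.mem_centralizer_iff.2 hcon)
    have hne : x * n * x⁻¹ * n⁻¹ ≠ 1 := by
      intro h1
      apply hnx
      rw [mul_inv_eq_one, mul_inv_eq_iff_eq_mul] at h1
      exact h1.symm
    obtain ⟨p, hp, hpd⟩ := Nat.exists_prime_and_dvd (n := orderOf (x * n * x⁻¹ * n⁻¹))
      (fun h1 => hne (orderOf_eq_one_iff.1 h1))
    obtain ⟨m, hm⟩ := hpd
    refine ⟨p, hp, ?_⟩
    have hm0 : 0 < m := by
      rcases Nat.eq_zero_or_pos m with h1 | h1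
      · rw [h1, mul_zero] at hm
        exact absurd hm (orderOf_pos _).ne'
      · exact h1
    set n' := n ^ m with hn'
    have hn'N : n' ∈ N := N.pow_mem hn m
    have hn'1 : x * n' * x⁻¹ * n'⁻¹ ≠ 1 := by
      rw [hn', hpow1 x hx n hn m]
      intro h1
      have h2 := orderOf_dvd_of_pow_eq_one h1
      rw [hm] at h2
      have h3 := Nat.le_of_dvd hm0 h2
      have h4 := hp.one_lt
      nlinarith
    have hn'p : (x * n' * x⁻¹ * n'⁻¹) ^ p = 1 := by
      rw [hn', hpow1 x hx n hn m, ← pow_mul, mul_comm m p, ← hm, pow_orderOf_eq_one]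
    have hcc : ∀ a ∈ N, ∀ b ∈ N, Commute (x * a * x⁻¹ * a⁻¹) (x * b * x⁻¹ * b⁻¹) := by
      intro a ha b hb
      exact hcz x hx a ha _ (N.mul_mem (N.mul_mem (N.mul_mem hx hb) (N.inv_mem hx)) (N.inv_mem hb))
    let T : Subgroup G :=
      { carrier := {a | a ∈ N ∧ (x * a * x⁻¹ * a⁻¹) ^ p = 1}
        one_mem' := ⟨N.one_mem, by simp⟩
        mul_mem' := by
          rintro a b ⟨ha, ha'⟩ ⟨hb, hb'⟩
          refine ⟨N.mul_mem ha hb, ?_⟩
          rw [hmul1 x hx a ha b hb, (hcc a ha b hb).mul_pow, ha', hb', one_mul]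
        inv_mem' := by
          rintro a ⟨ha, ha'⟩
          refine ⟨N.inv_mem ha, ?_⟩
          have h1 := hmul1 x hx a ha a⁻¹ (N.inv_mem ha)
          have h2 : x * (a * a⁻¹) * x⁻¹ * (a * a⁻¹)⁻¹ = 1 := by group
          rw [h2] at h1
          have h3 : x * a⁻¹ * x⁻¹ * a⁻¹⁻¹ = (x * a * x⁻¹ * a⁻¹)⁻¹ := (inv_eq_of_mul_eq_one_right h1.symm).symm
          rw [h3, inv_pow, ha', inv_one] }
    have hTmem : ∀ a, a ∈ T ↔ a ∈ N ∧ (x * a * x⁻¹ * a⁻¹) ^ p = 1 := fun a => Iff.rfl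
    -- `M` normalizes `T`
    have hMT : ∀ m ∈ M, ∀ a ∈ T, m * a * m⁻¹ ∈ T := by
      rintro m hm a ⟨ha, ha'⟩
      refine ⟨hNn.conj_mem a ha m, ?_⟩
      have h1 : m * x = x * m := mem_cz.1 hm
      have h1' : m⁻¹ * x = x * m⁻¹ := (Commute.inv_left (show Commute m x from h1)).eq
      have h2 : x * (m * a * m⁻¹) * x⁻¹ * (m * a * m⁻¹)⁻¹ = m * (x * a * x⁻¹ * a⁻¹) * m⁻¹ := by
        have h3 : m⁻¹ * x⁻¹ = x⁻¹ * m⁻¹ := by rw [← mul_inv_rev, ← mul_inv_rev, h1]
        calc x * (m * a * m⁻¹) * x⁻¹ * (m * a * m⁻¹)⁻¹ = (x * m) * a * (m⁻¹ * x⁻¹) * m * a⁻¹ * m⁻¹ := by group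
          _ = (m * x) * a * (x⁻¹ * m⁻¹) * m * a⁻¹ * m⁻¹ := by rw [h1, h3]
          _ = _ := by group
      rw [h2, conj_pow, ha', mul_one, mul_inv_cancel]
    have hTN : ∀ a ∈ N, ∀ b ∈ T, a * b * a⁻¹ ∈ T := by
      rintro a ha b ⟨hb, hb'⟩
      have h1 : a * b * a⁻¹ * b⁻¹ ∈ Subgroup.centralizer (N : Set G) :=
        hcomm (Subgroup.commutator_mem_commutator ha hb)
      have h2 : a * b * a⁻¹ * b⁻¹ ∈ T := by
        refine ⟨N.mul_mem (N.mul_mem (N.mul_mem ha hb) (N.inv_mem ha)) (N.inv_mem hb), ?_⟩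
        have h3 := Subgroup.mem_centralizer_iff.1 h1 x hx
        rw [h3]
        have h4 : a * b * a⁻¹ * b⁻¹ * x * x⁻¹ * (a * b * a⁻¹ * b⁻¹)⁻¹ = 1 := by group
        rw [h4, one_pow]
      have h3 := T.mul_mem h2 (show b ∈ T from ⟨hb, hb'⟩)
      have h4 : a * b * a⁻¹ * b⁻¹ * b = a * b * a⁻¹ := by group
      rwa [h4] at h3
    have hMTle : M ≤ Subgroup.normalizer (T : Set G) := by
      intro m hm
      rw [Subgroup.mem_normalizer_iff]
      intro a
      refine ⟨fun ha => hMT m hm a ha, fun ha => ?_⟩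
      have h1 := hMT m⁻¹ (M.inv_mem hm) _ ha
      have h2 : m⁻¹ * (m * a * m⁻¹) * m⁻¹⁻¹ = a := by group
      rwa [h2] at h1
    have hn'T : n' ∈ T := ⟨hn'N, hn'p⟩
    have hn'M : n' ∉ M := by
      intro h1
      apply hn'1
      have h2 : n' * x = x * n' := mem_cz.1 h1
      rw [← h2]; group
    have hsup : T ⊔ M = ⊤ := by
      rw [sup_comm]
      rcases hM.le_iff.1 (le_sup_left : M ≤ M ⊔ T) with h1 | h1
      · exact h1
      · exact absurd (h1.le (Subgroup.mem_sup_right hn'T)) hn'M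
    have hTn : T.Normal := by
      apply MinNormal.normal_of_normalizer_eq_top
      rw [eq_top_iff, ← hsup]
      exact sup_le Subgroup.le_normalizer hMTle
    have hNT : N ≤ T := by
      intro a ha
      have h1 : a ∈ T ⊔ M := by rw [hsup]; exact Subgroup.mem_top a
      rw [Subgroup.mem_sup_of_normal_left] at h1
      obtain ⟨t, ht, m, hm, rfl⟩ := h1
      refine T.mul_mem ht ?_
      have hmN : m ∈ N := by
        have := N.mul_mem (N.inv_mem ht.1) ha
        rwa [inv_mul_cancel_left] at this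
      refine ⟨hmN, ?_⟩
      have h2 : m * x = x * m := mem_cz.1 hm
      rw [← h2, mul_inv_cancel_right, mul_inv_cancel, one_pow]
    rw [Subgroup.mem_centralizer_iff]
    intro a ha
    have h1 := hpow2 x hx a ha p
    rw [(hNT ha).2, mul_inv_eq_one, mul_inv_eq_iff_eq_mul] at h1
    exact h1.symm
  have hprime' : ∀ x ∈ N, ∃ p : ℕ, p.Prime ∧ x ^ p ∈ Subgroup.centralizer (N : Set G) := by
    intro x hx
    by_cases hxc : x ∈ Subgroup.centralizer (N : Set G)
    · exact ⟨2, Nat.prime_two, Subgroup.pow_mem _ hxc 2⟩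
    · exact hprime x hx hxc
  by_cases hall : ∀ x ∈ N, x ∈ Subgroup.centralizer (N : Set G)
  · exact ⟨2, Nat.prime_two, fun x hx => Subgroup.pow_mem _ (hall x hx) 2, hcomm⟩
  push Not at hall
  obtain ⟨x, hx, hxc⟩ := hall
  obtain ⟨p, hp, hxp⟩ := hprime x hx hxc
  refine ⟨p, hp, ?_, hcomm⟩
  intro y hy
  by_cases hyc : y ∈ Subgroup.centralizer (N : Set G)
  · exact Subgroup.pow_mem _ hyc p
  obtain ⟨q, hq, hyq⟩ := hprime y hy hyc
  by_cases hpq : q = p
  · rw [← hpq]; exact hyq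
  exfalso
  set f := QuotientGroup.mk' (Subgroup.centralizer (N : Set G)) with hf
  have hker : ∀ g : G, f g = 1 ↔ g ∈ Subgroup.centralizer (N : Set G) := fun g => QuotientGroup.eq_one_iff g
  haveI : Fact p.Prime := ⟨hp⟩
  haveI : Fact q.Prime := ⟨hq⟩
  have h1 : orderOf (f x) = p := orderOf_eq_prime (by rw [← map_pow]; exact (hker _).2 hxp)
    (fun h => hxc ((hker x).1 h))
  have h2 : orderOf (f y) = q := orderOf_eq_prime (by rw [← map_pow]; exact (hker _).2 hyq)
    (fun h => hyc ((hker y).1 h))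
  have h3 : Commute (f x) (f y) := by
    have h4 : f (x * y * x⁻¹ * y⁻¹) = 1 := (hker _).2 (hcomm (Subgroup.commutator_mem_commutator hx hy))
    rw [map_mul, map_mul, map_mul, map_inv, map_inv, mul_inv_eq_one, mul_inv_eq_iff_eq_mul] at h4
    exact h4
  have h4 := h3.orderOf_mul_eq_mul_orderOf_of_coprime (by
    rw [h1, h2]; exact (Nat.coprime_primes hp hq).2 (fun h => hpq h.symm))
  obtain ⟨r, hr, hr'⟩ := hprime' (x * y) (N.mul_mem hx hy)
  have h5 : orderOf (f x * f y) ∣ r := by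
    apply orderOf_dvd_of_pow_eq_one
    rw [← map_mul, ← map_pow]
    exact (hker _).2 hr'
  rw [h4, h1, h2] at h5
  have h6 : p = r := (Nat.prime_dvd_prime_iff_eq hp hr).1 ((Dvd.intro _ rfl).trans h5)
  have h7 : q = r := (Nat.prime_dvd_prime_iff_eq hq hr).1 ((Dvd.intro_left _ rfl).trans h5)
  exact hpq (h7.trans h6.symm)

end Cfsg.Agent.H476.MaxCentralizer
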