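import Mathlib
import Cfsg.Prelude.Def_Transfer
import Cfsg.Prelude.Def_Solvable
import Cfsg.Agent.H476.MaxCentMain

/-!
Normal subgroups `N` of a finite group `G` such that `C_G(x)` is maximal for all `x ∈ N ∖ Z(N)`:
the case of a nonabelian normal closure `⟨x^G⟩`.
-/

set_option autoImplicit false

namespace Cfsg.Agent.H476.MaxCentralizer

open Cfsg

variable {G : Type*} [Group G]

/-- The nonabelian case. -/
theorem nonabelian_case [Finite G] (N : Subgroup G) [hNn : N.Normal]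
    (h : ∀ x : G, x ∈ N → x ∉ Subgroup.centralizer (N : Set G) → IsCoatom (Subgroup.centralizer ({x} : Set G)))
    (x : G) (hx : x ∈ N)
    (hxc : x ∉ Subgroup.centralizer ((Subgroup.normalClosure {x} : Subgroup G) : Set G)) :
    ∃ S : Subgroup G, S.Normal ∧ S ≤ N ∧ ¬ S ≤ Subgroup.centralizer (N : Set G) ∧
      (∃ p : ℕ, p.Prime ∧ ∀ s ∈ S, s ^ p ∈ Subgroup.centralizer (N : Set G)) ∧
      (∀ s ∈ S, ∀ t ∈ S, s * t = t * s) ∧
      (∃ q : ℕ, q.Prime ∧ x ^ q ∈ Subgroup.centralizer (N : Set G)) ∧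
      (∀ s ∈ S, s * x * s⁻¹ * x⁻¹ ∈ Subgroup.centralizer (N : Set G) →
        s ∈ Subgroup.centralizer (N : Set G)) ∧
      (∀ n ∈ N, ∃ s ∈ S, ∃ w ∈ Subgroup.zpowers x, ∃ z ∈ Subgroup.centralizer (N : Set G), n = s * w * z) := by
  classical
  set X : Subgroup G := Subgroup.normalClosure {x} with hX
  set Z : Subgroup G := X ⊓ Subgroup.centralizer (X : Set G) with hZ
  have hXn : X.Normal := Subgroup.normalClosure_normal
  have hXN : X ≤ N := Subgroup.normalClosure_le_normal (Set.singleton_subset_iff.2 hx)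
  have hxX : x ∈ X := Subgroup.subset_normalClosure (Set.mem_singleton x)
  have hxZ : x ∉ Z := fun h1 => hxc (Subgroup.mem_inf.1 h1).2
  have hcent : Subgroup.centralizer (N : Set G) ≤ Subgroup.centralizer (X : Set G) :=
    Subgroup.centralizer_le hXN
  have hcoat : ∀ v ∈ X, v ∉ Z → IsCoatom (Subgroup.centralizer ({v} : Set G)) := by
    intro v hv hvZ
    exact h v (hXN hv) (fun h1 => hvZ (Subgroup.mem_inf.2 ⟨hv, hcent h1⟩))
  obtain ⟨S, hSn, hZS, hSX, ⟨p, hp, hexp⟩, hScomm, ⟨q, hq, hxq⟩, hfix, hXS, htop, -⟩ :=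
    structure_normalClosure x X Z hX hZ hxZ hcoat
  obtain ⟨s₀, hs₀, hs₀Z⟩ := SetLike.exists_of_lt hZS
  have hs₀x : s₀ * x ≠ x * s₀ := by
    intro h1
    apply hs₀Z
    apply hfix s₀ hs₀
    rw [h1]
    have : x * s₀ * s₀⁻¹ * x⁻¹ = 1 := by group
    rw [this]; exact Z.one_mem
  have hZc : ∀ v ∈ X, ∀ z ∈ Z, z * v = v * z := by
    intro v hv z hz
    exact (Subgroup.mem_centralizer_iff.1 (Subgroup.mem_inf.1 hz).2 v hv).symm
  -- `N ∩ C(X) ≤ C(N)`
  have hCN : ∀ y ∈ N, y ∈ Subgroup.centralizer (X : Set G) → y ∈ Subgroup.centralizer (N : Set G) := by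
    intro y hy hyX
    by_contra hyc
    have hyM := h y hy hyc
    have hXy : X ≤ Subgroup.centralizer ({y} : Set G) := by
      intro a ha
      exact mem_cz.2 (Subgroup.mem_centralizer_iff.1 hyX a ha)
    have hxy : x * y = y * x := Subgroup.mem_centralizer_iff.1 hyX x hxX
    have hs₀y : s₀ * y = y * s₀ := Subgroup.mem_centralizer_iff.1 hyX s₀ (hSX hs₀)
    have hxyc : x * y ∉ Subgroup.centralizer (N : Set G) := by
      intro h1
      have h2 := Subgroup.mem_centralizer_iff.1 h1 s₀ (hXN (hSX hs₀))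
      apply hs₀x
      have h3 : (s₀ * x) * y = (x * s₀) * y := by
        calc (s₀ * x) * y = s₀ * (x * y) := by group
          _ = (x * y) * s₀ := h2
          _ = x * (y * s₀) := by group
          _ = x * (s₀ * y) := by rw [hs₀y]
          _ = (x * s₀) * y := by group
      exact mul_right_cancel h3
    have hxyM := h (x * y) (N.mul_mem hx hy) hxyc
    have hle : Subgroup.centralizer ({x * y} : Set G) ≤ Subgroup.centralizer ({x} : Set G) := by
      intro g hg
      have hg1 : g * (x * y) = (x * y) * g := mem_cz.1 hg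
      have hg2 : g ∈ X ⊔ Subgroup.centralizer (X : Set G) := by rw [htop]; exact Subgroup.mem_top g
      rw [Subgroup.mem_sup_of_normal_left] at hg2
      obtain ⟨a, ha, k, hk, rfl⟩ := hg2
      have hkx : k * x = x * k := (Subgroup.mem_centralizer_iff.1 hk x hxX).symm
      -- `x⁻¹ a x a⁻¹ ∈ Z`
      have h1 : x⁻¹ * (a * x * a⁻¹) = y * ((a * k) * y * (a * k)⁻¹)⁻¹ := by
        have h2 : (a * x * a⁻¹) * ((a * k) * y * (a * k)⁻¹) = x * y := by
          calc (a * x * a⁻¹) * ((a * k) * y * (a * k)⁻¹) = a * (x * k) * y * (a * k)⁻¹ := by group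
            _ = a * (k * x) * y * (a * k)⁻¹ := by rw [hkx]
            _ = (a * k) * (x * y) * (a * k)⁻¹ := by group
            _ = (x * y) * (a * k) * (a * k)⁻¹ := by rw [hg1]
            _ = x * y := by group
        have h3 : a * x * a⁻¹ = x * y * ((a * k) * y * (a * k)⁻¹)⁻¹ := by
          rw [← h2]; group
        rw [h3]; group
      have h2 : x⁻¹ * (a * x * a⁻¹) ∈ Z := by
        refine Subgroup.mem_inf.2 ⟨X.mul_mem (X.inv_mem hxX) (hXn.conj_mem x hxX a), ?_⟩
        rw [h1]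
        have h3 : (Subgroup.centralizer (X : Set G)).Normal := inferInstance
        exact Subgroup.mul_mem _ hyX (Subgroup.inv_mem _ (h3.conj_mem y hyX _))
      -- write `a = s w`
      have h3 : a ∈ S ⊔ Subgroup.zpowers x := hXS ha
      rw [Subgroup.mem_sup_of_normal_left] at h3
      obtain ⟨s, hs, w, hw, rfl⟩ := h3
      have hwx : w * x = x * w := by
        obtain ⟨k, rfl⟩ := Subgroup.mem_zpowers_iff.1 hw
        exact (Commute.zpow_left (Commute.refl x) k).eq
      have h4 : x⁻¹ * (s * w * x * (s * w)⁻¹) = x⁻¹ * s * x * s⁻¹ := by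
        calc x⁻¹ * (s * w * x * (s * w)⁻¹) = x⁻¹ * s * (w * x) * w⁻¹ * s⁻¹ := by group
          _ = x⁻¹ * s * (x * w) * w⁻¹ * s⁻¹ := by rw [hwx]
          _ = _ := by group
      rw [h4] at h2
      have h5 : s * x * s⁻¹ * x⁻¹ ∈ Z := by
        have h6 : Z.Normal := inferInstance
        have h7 := h6.conj_mem _ h2 x
        have h8 : x * (x⁻¹ * s * x * s⁻¹) * x⁻¹ = s * x * s⁻¹ * x⁻¹ := by group
        rwa [h8] at h7
      have h6 : s ∈ Z := hfix s hs h5
      have h7 : s * x = x * s := hZc x hxX s h6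
      rw [mem_cz]
      calc s * w * k * x = s * w * (k * x) := by group
        _ = s * (w * x) * k := by rw [hkx]; group
        _ = (s * x) * w * k := by rw [hwx]; group
        _ = x * (s * w * k) := by rw [h7]; group
    have hxM := hcoat x hxX hxZ
    have heq : Subgroup.centralizer ({x} : Set G) = Subgroup.centralizer ({x * y} : Set G) :=
      (hxyM.le_iff.1 hle).resolve_left hxM.1
    have hle2 : Subgroup.centralizer ({x} : Set G) ≤ Subgroup.centralizer ({y} : Set G) := by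
      intro g hg
      have h1 : g * x = x * g := mem_cz.1 hg
      rw [heq] at hg
      have h2 : g * (x * y) = x * y * g := mem_cz.1 hg
      rw [mem_cz]
      have h3 : x * (g * y) = x * (y * g) := by
        calc x * (g * y) = (x * g) * y := by group
          _ = (g * x) * y := by rw [h1]
          _ = g * (x * y) := by group
          _ = x * y * g := h2
          _ = x * (y * g) := by group
      exact mul_left_cancel h3
    have heq2 : Subgroup.centralizer ({y} : Set G) = Subgroup.centralizer ({x} : Set G) :=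
      (hxM.le_iff.1 hle2).resolve_left hyM.1
    apply hs₀x
    have := hXy (hSX hs₀)
    rw [heq2] at this
    exact mem_cz.1 this
  have hZCN : Z ≤ Subgroup.centralizer (N : Set G) := by
    intro z hz
    exact hCN z (hXN (Subgroup.mem_inf.1 hz).1) (Subgroup.mem_inf.1 hz).2
  have hback : ∀ g ∈ X, g ∈ Subgroup.centralizer (N : Set G) → g ∈ Z :=
    fun g hg hg' => Subgroup.mem_inf.2 ⟨hg, hcent hg'⟩
  refine ⟨S, hSn, hSX.trans hXN, fun h1 => hs₀Z (hback s₀ (hSX hs₀) (h1 hs₀)),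
    ⟨p, hp, fun s hs => hZCN (hexp s hs)⟩, hScomm, ⟨q, hq, hZCN hxq⟩, ?_, ?_⟩
  · intro s hs h1
    apply hZCN
    apply hfix s hs
    apply hback _ _ h1
    have h2 : s * x * s⁻¹ * x⁻¹ = s * (x * s⁻¹ * x⁻¹) := by group
    rw [h2]
    exact X.mul_mem (hSX hs) (hXn.conj_mem _ (X.inv_mem (hSX hs)) x)
  · intro n hn
    have h1 : n ∈ X ⊔ Subgroup.centralizer (X : Set G) := by rw [htop]; exact Subgroup.mem_top n
    rw [Subgroup.mem_sup_of_normal_left] at h1
    obtain ⟨a, ha, k, hk, rfl⟩ := h1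
    have h3 : a ∈ S ⊔ Subgroup.zpowers x := hXS ha
    rw [Subgroup.mem_sup_of_normal_left] at h3
    obtain ⟨s, hs, w, hw, rfl⟩ := h3
    refine ⟨s, hs, w, hw, k, hCN k ?_ hk, rfl⟩
    have := N.mul_mem (N.inv_mem (hXN ha)) hn
    rwa [inv_mul_cancel_left] at this

/-- Frobenius structure of `N / Z(N)` in the nonabelian case. -/
theorem frobenius_quotient [Finite G] (N : Subgroup G) [hNn : N.Normal]
    (h : ∀ x : G, x ∈ N → x ∉ Subgroup.centralizer (N : Set G) → IsCoatom (Subgroup.centralizer ({x} : Set G)))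
    (x : G) (hx : x ∈ N)
    (hxc : x ∉ Subgroup.centralizer ((Subgroup.normalClosure {x} : Subgroup G) : Set G)) :
    ∃ (Q K : Subgroup (↥N ⧸ Subgroup.center ↥N)) (p : ℕ), p.Prime ∧ Cfsg.IsFrobeniusComplement Q ∧
      (Nat.card ↥Q).Prime ∧ K.Normal ∧ (K : Set (↥N ⧸ Subgroup.center ↥N)) = Cfsg.frobeniusKernel Q ∧
      Cfsg.IsElementaryAbelian p K ∧ K ≠ ⊥ ∧ (∀ k ∈ K, ∀ w ∈ Q, k * w = w * k → k = 1 ∨ w = 1) ∧
      K ⊔ Q = ⊤ := by
  classical
  obtain ⟨S, hSn, hSN, hSc, ⟨p, hp, hexp⟩, hScomm, ⟨q, hq, hxq⟩, hfix, hdec⟩ := nonabelian_case N h x hx hxc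
  set f := QuotientGroup.mk' (Subgroup.center N) with hf
  have hker : ∀ n : N, f n = 1 ↔ (n : G) ∈ Subgroup.centralizer (N : Set G) := by
    intro n
    rw [hf, QuotientGroup.mk'_apply, QuotientGroup.eq_one_iff, Subgroup.mem_center_iff,
      Subgroup.mem_centralizer_iff]
    constructor
    · intro h1 g hg
      exact congrArg Subtype.val (h1 ⟨g, hg⟩)
    · intro h1 g
      exact Subtype.ext (h1 g g.2)
  have hsurj : Function.Surjective f := QuotientGroup.mk'_surjective _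
  set K : Subgroup (↥N ⧸ Subgroup.center ↥N) := (S.subgroupOf N).map f with hK
  have hKn : K.Normal := (hSn.subgroupOf N).map f hsurj
  have hKmem : ∀ k ∈ K, ∃ s, ∃ hs : s ∈ S, k = f ⟨s, hSN hs⟩ := by
    rintro _ ⟨s, hs, rfl⟩
    exact ⟨s, Subgroup.mem_subgroupOf.1 hs, rfl⟩
  have hKbot : K ≠ ⊥ := by
    intro h1
    apply hSc
    intro s hs
    have h2 : f ⟨s, hSN hs⟩ ∈ K := ⟨⟨s, hSN hs⟩, Subgroup.mem_subgroupOf.2 hs, rfl⟩
    rw [h1, Subgroup.mem_bot] at h2
    exact (hker _).1 h2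
  set xb := f ⟨x, hx⟩ with hxb
  have hxb1 : xb ^ q = 1 := by
    rw [hxb, ← map_pow]
    exact (hker _).2 hxq
  have hsup : K ⊔ Subgroup.zpowers xb = ⊤ := by
    rw [eq_top_iff]
    intro g _
    obtain ⟨n, rfl⟩ := hsurj g
    obtain ⟨s, hs, w, hw, z, hz, hn⟩ := hdec n n.2
    obtain ⟨k, rfl⟩ := Subgroup.mem_zpowers_iff.1 hw
    have hzN : z ∈ N := by
      have h1 : z = (s * x ^ k)⁻¹ * n := by rw [hn]; group
      rw [h1]
      exact N.mul_mem (N.inv_mem (N.mul_mem (hSN hs) (N.zpow_mem hx k))) n.2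
    have h1 : n = ⟨s, hSN hs⟩ * ⟨x, hx⟩ ^ k * ⟨z, hzN⟩ := Subtype.ext hn
    rw [h1, map_mul, map_mul, map_zpow, (hker ⟨z, hzN⟩).2 hz, mul_one]
    exact Subgroup.mul_mem _ (Subgroup.mem_sup_left ⟨⟨s, hSN hs⟩, Subgroup.mem_subgroupOf.2 hs, rfl⟩)
      (Subgroup.mem_sup_right (Subgroup.mem_zpowers_iff.2 ⟨k, rfl⟩))
  have hfix' : ∀ v ∈ K, v * xb = xb * v → v = 1 := by
    intro v hv hvx
    obtain ⟨s, hs, rfl⟩ := hKmem v hv
    apply (hker _).2
    apply hfix s hs
    have h1 : f (⟨s, hSN hs⟩ * ⟨x, hx⟩ * ⟨s, hSN hs⟩⁻¹ * ⟨x, hx⟩⁻¹) = 1 := by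
      rw [map_mul, map_mul, map_mul, map_inv, map_inv, ← hxb, hvx]
      group
    exact (hker _).1 h1
  obtain ⟨hF, hcard, hkernel⟩ := FrobSimple.frobenius_of_fpf K xb q hq hxb1 hKbot hsup hfix'
  refine ⟨Subgroup.zpowers xb, K, p, hp, hF, hcard ▸ hq, hKn, hkernel, ⟨⟨⟨?_⟩⟩, ?_⟩, hKbot, ?_, hsup⟩
  · rintro ⟨a, ha⟩ ⟨b, hb⟩
    obtain ⟨s, hs, rfl⟩ := hKmem a ha
    obtain ⟨t, ht, rfl⟩ := hKmem b hb
    apply Subtype.ext
    change f _ * f _ = f _ * f _
    rw [← map_mul, ← map_mul]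
    congr 1
    exact Subtype.ext (hScomm s hs t ht)
  · intro a ha
    obtain ⟨s, hs, rfl⟩ := hKmem a ha
    rw [← map_pow]
    exact (hker _).2 (hexp s hs)
  · intro k hk w hw hkw
    by_cases hw1 : w = 1
    · exact Or.inr hw1
    left
    apply hfix' k hk
    -- `xb` is a power of `w`
    have h1 : Subgroup.zpowers w = Subgroup.zpowers xb := by
      apply Subgroup.eq_of_le_of_card_ge (Subgroup.zpowers_le.2 hw)
      rw [hcard, Nat.card_zpowers]
      have h2 : orderOf w ∣ q := by rw [← hcard]; exact Subgroup.orderOf_dvd_natCard _ hw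
      rcases (Nat.dvd_prime hq).1 h2 with h3 | h3
      · exact absurd (orderOf_eq_one_iff.1 h3) hw1
      · exact h3.ge
    have h2 : xb ∈ Subgroup.zpowers w := by rw [h1]; exact Subgroup.mem_zpowers xb
    obtain ⟨m, hm⟩ := Subgroup.mem_zpowers_iff.1 h2
    rw [← hm]
    exact (Commute.zpow_right (show Commute k w from hkw) m).eq

end Cfsg.Agent.H476.MaxCentralizer
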