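import Mathlib
import Cfsg.Prelude.Def_Transfer
import Cfsg.Prelude.Def_PLocal
import Cfsg.Agent.S0659
import Cfsg.Agent.Solvable.FpfThompson
import Cfsg.Agent.PLocal.ConjFunctor

/-!
A minimal normal subgroup `S` of a finite group `H` whose intersection with a maximal subgroup `M`
is nilpotent of order divisible by an odd prime `r` is an `r`-group.
-/

set_option autoImplicit false

namespace Cfsg.Agent.H476.MinNormal

open Cfsg

theorem normal_of_normalizer_eq_top {H : Type*} [Group H] {P : Subgroup H}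
    (h : Subgroup.normalizer (P : Set H) = ⊤) : P.Normal :=
  Subgroup.normalizer_eq_top_iff.1 h

/-- A minimal normal subgroup `S` of a finite group `H` whose intersection with a maximal subgroup `M`
is nilpotent of order divisible by an odd prime `r` is an `r`-group. -/
theorem isPGroup_of_minimal_normal {H : Type*} [Group H] [Finite H] (S M : Subgroup H) [hSn : S.Normal]
    (hmin : ∀ T : Subgroup H, T.Normal → T ≤ S → T = ⊥ ∨ T = S)
    (hM : IsCoatom M) (r : ℕ) [hr : Fact r.Prime] (hr2 : r ≠ 2)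
    (hnil : Group.IsNilpotent ↥(M ⊓ S)) (hdvd : r ∣ Nat.card ↥(M ⊓ S)) : IsPGroup r S := by
  classical
  by_contra hcon
  set D : Subgroup H := M ⊓ S with hD
  obtain ⟨P⟩ : Nonempty (Sylow r D) := inferInstance
  have hPn : (P : Subgroup D).Normal := by
    have := (Group.isNilpotent_of_finite_tfae (G := D)).out 0 3
    exact (this.1 hnil) r hr P
  set P₀ : Subgroup H := (P : Subgroup D).map D.subtype with hP₀
  have hP₀r : IsPGroup r P₀ := PLocal.ConjFunctor.isPGroup_map_sylow P
  have hP₀D : P₀ ≤ D := Subgroup.map_subtype_le _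
  have hP₀S : P₀ ≤ S := hP₀D.trans inf_le_right
  have hP₀ne : P₀ ≠ ⊥ := by
    intro h
    rw [hP₀, Subgroup.map_eq_bot_iff_of_injective _ D.subtype_injective] at h
    exact P.ne_bot_of_dvd_card hdvd h
  -- nontrivial `r`-subgroups of `S` are not normal
  have hnotnormal : ∀ T : Subgroup H, T ≤ S → T ≠ ⊥ → IsPGroup r T → Subgroup.normalizer (T : Set H) ≠ ⊤ := by
    intro T hTS hT1 hTr h
    have hTn := normal_of_normalizer_eq_top h
    rcases hmin T hTn hTS with h1 | h1
    · exact hT1 h1
    · exact hcon (h1 ▸ hTr)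
  -- `M` normalizes `P₀`
  have hMP : M ≤ Subgroup.normalizer (P₀ : Set H) := by
    intro m hm
    rw [Subgroup.mem_normalizer_iff]
    have hstep : ∀ m ∈ M, ∀ x ∈ P₀, m * x * m⁻¹ ∈ P₀ := by
      intro m hm x hx
      obtain ⟨x', hx', rfl⟩ := hx
      -- the conjugate lies in `D` and is an `r`-element
      have hmem : m * (x' : H) * m⁻¹ ∈ D :=
        ⟨M.mul_mem (M.mul_mem hm x'.2.1) (M.inv_mem hm), hSn.conj_mem _ x'.2.2 m⟩
      refine ⟨⟨m * (x' : H) * m⁻¹, hmem⟩, ?_, rfl⟩
      obtain ⟨k, hk⟩ := P.isPGroup' ⟨x', hx'⟩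
      have hk' : (x' : H) ^ r ^ k = 1 := by
        have h1 := congrArg (fun z : (P : Subgroup D) => ((z : D) : H)) hk
        simpa using h1
      have hpg : IsPGroup r (Subgroup.zpowers (⟨m * (x' : H) * m⁻¹, hmem⟩ : D)) := by
        rw [IsPGroup.iff_card, Nat.card_zpowers]
        have : orderOf (⟨m * (x' : H) * m⁻¹, hmem⟩ : D) ∣ r ^ k := by
          apply orderOf_dvd_of_pow_eq_one
          apply Subtype.ext
          simp [conj_pow, hk']
        exact (Nat.dvd_prime_pow hr.out).1 this |>.imp fun _ h => h.2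
      obtain ⟨Q, hQ⟩ := hpg.exists_le_sylow
      have hPQ : P = Q := by
        have := P.unique_of_normal hPn
        exact Subsingleton.elim P Q
      rw [hPQ]
      exact hQ (Subgroup.mem_zpowers _)
    intro x
    constructor
    · intro hx
      exact hstep m hm x hx
    · intro hx
      have := hstep m⁻¹ (M.inv_mem hm) _ hx
      have h2 : m⁻¹ * (m * x * m⁻¹) * m⁻¹⁻¹ = x := by group
      rwa [h2] at this
  have hNP : Subgroup.normalizer (P₀ : Set H) = M :=
    (hM.le_iff.1 hMP).resolve_left (hnotnormal P₀ hP₀S hP₀ne hP₀r)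
  -- `P₀` is a Sylow subgroup of `S`
  obtain ⟨Q, hQ⟩ := PLocal.ConjFunctor.exists_sylow_of_le hP₀r hP₀S
  have hQ₀ : (Q : Subgroup S).map S.subtype = P₀ := by
    by_contra hne
    have hlt : P₀ < (Q : Subgroup S).map S.subtype := lt_of_le_of_ne hQ (fun h => hne h.symm)
    have h1 := PLocal.ConjFunctor.lt_inf_normalizer (PLocal.ConjFunctor.isPGroup_map_sylow Q) hlt
    rw [hNP] at h1
    set R : Subgroup H := (Q : Subgroup S).map S.subtype ⊓ M with hR
    have hRD : R ≤ D := le_inf inf_le_right (inf_le_left.trans (Subgroup.map_subtype_le _))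
    have hRr : IsPGroup r R := (PLocal.ConjFunctor.isPGroup_map_sylow Q).to_le inf_le_left
    have hRr' : IsPGroup r (R.subgroupOf D) := hRr.comap_of_injective D.subtype D.subtype_injective
    have h2 : (P : Subgroup D) ≤ R.subgroupOf D := by
      intro x hx
      exact h1.le ⟨x, hx, rfl⟩
    have h3 := P.is_maximal' hRr' h2
    have h4 : R = P₀ := by
      rw [hP₀, ← h3, Subgroup.subgroupOf_map_subtype, inf_eq_left.2 hRD]
    exact h1.ne h4.symm
  -- `Z(J(P₀))`
  set W : Subgroup H := centerThompsonAOf P₀ with hW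
  have hWne : W ≠ ⊥ := PLocal.ThompsonJA.centerThompsonAOf_ne_bot P₀ hP₀r hP₀ne
  have hWP : W ≤ P₀ := PLocal.ThompsonJA.centerThompsonAOf_le P₀
  have hMW : M ≤ Subgroup.normalizer (W : Set H) :=
    hMP.trans (PLocal.ThompsonJA.normalizer_le_normalizer_centerThompsonAOf P₀)
  have hNW : Subgroup.normalizer (W : Set H) = M :=
    (hM.le_iff.1 hMW).resolve_left (hnotnormal W (hWP.trans hP₀S) hWne (hP₀r.to_le hWP))
  have hnpcD : HasNormalPComplement r D := Solvable.FpfThompson.hasNormalPComplement_of_isNilpotent hnil r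
  have hnpc : HasNormalPComplement r S := by
    refine Cfsg.Agent.S0659.result hr2 Q ?_
    refine Transfer.PNilpotentBasic.hnc_of_map_le S.subtype S.subtype_injective _ D ?_ hnpcD
    have hmapW : (centerThompsonAOf (Q : Subgroup S)).map S.subtype = W := by
      rw [PLocal.ThompsonJA.map_centerThompsonAOf S.subtype S.subtype_injective, hQ₀]
    rintro _ ⟨x, hx, rfl⟩
    refine ⟨?_, x.2⟩
    change (x : H) ∈ M
    rw [← hNW, Subgroup.mem_normalizer_iff]
    rw [SetLike.mem_coe, Subgroup.mem_normalizer_iff] at hx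
    intro w
    rw [← hmapW]
    constructor
    · rintro ⟨w', hw', rfl⟩
      exact ⟨x * w' * x⁻¹, (hx w').1 hw', rfl⟩
    · rintro ⟨w', hw', hww⟩
      refine ⟨x⁻¹ * w' * x, ?_, ?_⟩
      · have := (hx (x⁻¹ * w' * x)).2 (by
          have e : x * (x⁻¹ * w' * x) * x⁻¹ = w' := by group
          rw [e]; exact hw')
        exact this
      · rw [map_mul, map_mul, map_inv, hww]
        change (x : H)⁻¹ * ((x : H) * w * (x : H)⁻¹) * (x : H) = w
        group
  obtain ⟨N, hN, h1, h2⟩ := Transfer.NormalPComplement.hasNormalPComplement_iff.1 hnpc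
  have hmemN := Transfer.NormalPComplement.mem_iff_coprime_orderOf' N h1 h2
  have hNn : (N.map S.subtype).Normal := by
    constructor
    rintro _ ⟨x, hx, rfl⟩ g
    have hx' := (hmemN x).1 hx
    refine ⟨⟨g * (x : H) * g⁻¹, hSn.conj_mem _ x.2 g⟩, ?_, rfl⟩
    refine (hmemN _).2 ?_
    have : orderOf (⟨g * (x : H) * g⁻¹, hSn.conj_mem _ x.2 g⟩ : S) = orderOf x := by
      rw [← Subgroup.orderOf_coe, ← Subgroup.orderOf_coe x]
      exact orderOf_injective (MulAut.conj g).toMonoidHom (MulAut.conj g).injective (x : H)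
    rw [this]; exact hx'
  rcases hmin _ hNn (Subgroup.map_subtype_le _) with h3 | h3
  · rw [Subgroup.map_eq_bot_iff_of_injective _ S.subtype_injective] at h3
    subst h3
    exact hcon (h2.of_injective (QuotientGroup.mk' (⊥ : Subgroup S)) (by
      rw [← MonoidHom.ker_eq_bot_iff, QuotientGroup.ker_mk']))
  · have h4 : Nat.card N = Nat.card S := by
      have h5 := Nat.card_congr (N.equivMapOfInjective S.subtype S.subtype_injective).toEquiv
      rw [h5, h3]
    have h6 : r ∣ Nat.card S := hdvd.trans (Subgroup.card_dvd_of_le inf_le_right)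
    rw [h4] at h1
    exact (Nat.Prime.coprime_iff_not_dvd hr.out).1 h1.symm h6

end Cfsg.Agent.H476.MinNormal
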