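import Mathlib
import Cfsg.Prelude.Def_Transfer
import Cfsg.Prelude.Def_Solvable
import Cfsg.Agent.H476.MinNormal

/-!
Finite groups in which centralizers of certain elements are maximal subgroups.
-/

set_option autoImplicit false

namespace Cfsg.Agent.H476.MaxCentralizer

open Cfsg

variable {G : Type*} [Group G]

theorem mem_cz {g k : G} : k ∈ Subgroup.centralizer ({g} : Set G) ↔ k * g = g * k :=
  Subgroup.mem_centralizer_singleton_iff

/-- In a finite group, commuting elements of coprime orders are powers of their product. -/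
theorem exists_pow_mul_eq [Finite G] {x y : G} (hc : x * y = y * x) (hco : (orderOf x).Coprime (orderOf y)) :
    (∃ n : ℕ, (x * y) ^ n = x) ∧ ∃ n : ℕ, (x * y) ^ n = y := by
  have hc' : Commute x y := hc
  constructor
  · obtain ⟨m, hm⟩ := exists_pow_eq_self_of_coprime (x := x) (n := orderOf y) hco.symm
    refine ⟨orderOf y * m, ?_⟩
    rw [pow_mul, hc'.mul_pow, pow_orderOf_eq_one, mul_one, hm]
  · obtain ⟨m, hm⟩ := exists_pow_eq_self_of_coprime (x := y) (n := orderOf x) hco
    refine ⟨orderOf x * m, ?_⟩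
    rw [pow_mul, hc'.mul_pow, pow_orderOf_eq_one, one_mul, hm]

/-- `C(x y) ≤ C(x) ∩ C(y)` for commuting elements of coprime orders. -/
theorem cz_mul_le [Finite G] {x y : G} (hc : x * y = y * x) (hco : (orderOf x).Coprime (orderOf y)) :
    Subgroup.centralizer ({x * y} : Set G) ≤ Subgroup.centralizer ({x} : Set G) ∧
    Subgroup.centralizer ({x * y} : Set G) ≤ Subgroup.centralizer ({y} : Set G) := by
  obtain ⟨⟨m, hm⟩, ⟨n, hn⟩⟩ := exists_pow_mul_eq hc hco
  constructor
  · intro g hg
    rw [mem_cz] at hg ⊢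
    rw [← hm]
    exact (Commute.pow_right hg m)
  · intro g hg
    rw [mem_cz] at hg ⊢
    rw [← hn]
    exact (Commute.pow_right hg n)

/-- The centralizer of an `r`-element that is maximal, with the property that products with `r'`-elements
again have maximal centralizer: the `r'`-elements of `N` are centralized. -/
theorem cz_le_of_coprime [Finite G] (X : Subgroup G) (Z : Subgroup G)
    (hcoat : ∀ v ∈ X, v ∉ Z → IsCoatom (Subgroup.centralizer ({v} : Set G)))
    {x y : G} (hx : x ∈ X) (hxZ : x ∉ Z) (hy : y ∈ X) (hc : x * y = y * x)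
    (hco : (orderOf x).Coprime (orderOf y)) :
    Subgroup.centralizer ({x} : Set G) ≤ Subgroup.centralizer ({y} : Set G) := by
  obtain ⟨h1, h2⟩ := cz_mul_le hc hco
  have h3 : x * y ∉ Z := by
    intro h
    obtain ⟨⟨m, hm⟩, -⟩ := exists_pow_mul_eq hc hco
    exact hxZ (hm ▸ Z.pow_mem h m)
  have h4 := hcoat (x * y) (X.mul_mem hx hy) h3
  have h5 := hcoat x hx hxZ
  have h6 : Subgroup.centralizer ({x} : Set G) = Subgroup.centralizer ({x * y} : Set G) :=
    (h4.le_iff.1 h1).resolve_left h5.1
  rw [h6]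
  exact h2

/-- Nilpotency of the intersection of a maximal centralizer with a normal subgroup. -/
theorem isNilpotent_inf [Finite G] (X : Subgroup G) (Z : Subgroup G)
    (hcoat : ∀ v ∈ X, v ∉ Z → IsCoatom (Subgroup.centralizer ({v} : Set G)))
    {x : G} (hx : x ∈ X) (hxZ : x ∉ Z) {r : ℕ} [hr : Fact r.Prime] {k : ℕ} (hxr : orderOf x = r ^ k)
    (S : Subgroup G) (hS : S ≤ X) :
    Group.IsNilpotent ↥(Subgroup.centralizer ({x} : Set G) ⊓ S) := by
  set D : Subgroup G := Subgroup.centralizer ({x} : Set G) ⊓ S with hD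
  apply Group.of_quotient_center_nilpotent
  have hp : IsPGroup r (↥D ⧸ Subgroup.center ↥D) := by
    intro d
    obtain ⟨d, rfl⟩ := QuotientGroup.mk_surjective d
    -- the `r'`-part of `d` is central
    obtain ⟨a, m, hm, hdm⟩ := Nat.exists_eq_pow_mul_and_not_dvd (n := orderOf d) (orderOf_pos d).ne' r hr.out.ne_one
    refine ⟨a, ?_⟩
    rw [← QuotientGroup.mk_pow, QuotientGroup.eq_one_iff, Subgroup.mem_center_iff]
    have hord : (orderOf x).Coprime (orderOf (((d : G)) ^ r ^ a)) := by
      rw [hxr]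
      apply Nat.Coprime.pow_left
      rw [Nat.Prime.coprime_iff_not_dvd hr.out]
      intro hdvd
      have h1 : orderOf ((d : G) ^ r ^ a) ∣ m := by
        apply orderOf_dvd_of_pow_eq_one
        rw [← pow_mul, ← hdm, ← Subgroup.coe_pow, pow_orderOf_eq_one, Subgroup.coe_one]
      exact hm (hdvd.trans h1)
    have hcomm : x * ((d : G) ^ r ^ a) = (d : G) ^ r ^ a * x := by
      have h1 : (d : G) * x = x * (d : G) := mem_cz.1 d.2.1
      exact ((Commute.pow_left (show Commute (d : G) x from h1) (r ^ a)).eq).symm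
    have h2 := cz_le_of_coprime X Z hcoat hx hxZ (hS (S.pow_mem d.2.2 (r ^ a))) hcomm hord
    intro e
    apply Subtype.ext
    exact mem_cz.1 (h2 e.2.1)
  exact hp.isNilpotent

end Cfsg.Agent.H476.MaxCentralizer
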