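import Mathlib
import Cfsg.Agent.H476.CopAct
import Cfsg.Agent.H476.GrSub

/-!
# `A`-special subgroups

For a commutator word `w` the `A`-special subgroups generate the verbal subgroup.
-/

set_option autoImplicit false

namespace Cfsg.Agent.H476.Special

open Cfsg.Agent.Lib.CoprimeHyperplane Cfsg.Agent.H476.CopAct Cfsg.Agent.H476.GrSub
open scoped commutatorElement

/-- Commutator words. -/
inductive Wd : Type
  | x : Wd
  | br : Wd → Wd → Wd

/-- The subgroup `w(U, …, U)`. -/
def ev {G : Type*} [Group G] : Wd → Subgroup G → Subgroup G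
  | .x, U => U
  | .br w v, U => ⁅ev w U, ev v U⁆

/-- The number of leaves. -/
def leaves : Wd → ℕ
  | .x => 1
  | .br w v => leaves w + leaves v

/-- The depth. -/
def depth : Wd → ℕ
  | .x => 0
  | .br w v => max (depth w) (depth v) + 1

/-- The words `γ_{j+1}` and `δ_j`. -/
def W (b : Bool) : ℕ → Wd
  | 0 => .x
  | j + 1 => .br (W b j) (if b then .x else W b j)

theorem leaves_W_true (j : ℕ) : leaves (W true j) = j + 1 := by
  induction j with
  | zero => rfl
  | succ j ih => simp [W, leaves, ih]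

theorem leaves_W_false (j : ℕ) : leaves (W false j) = 2 ^ j := by
  induction j with
  | zero => rfl
  | succ j ih => simp [W, leaves, ih, pow_succ]; ring

section Ev

variable {G : Type*} [Group G]

theorem ev_x (U : Subgroup G) : ev .x U = U := rfl

theorem ev_br (w v : Wd) (U : Subgroup G) : ev (.br w v) U = ⁅ev w U, ev v U⁆ := rfl

theorem ev_mono {U V : Subgroup G} (h : U ≤ V) (w : Wd) : ev w U ≤ ev w V := by
  induction w with
  | x => exact h
  | br w v ih1 ih2 => exact Subgroup.commutator_mono ih1 ih2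

theorem ev_le (w : Wd) (U : Subgroup G) : ev w U ≤ U := by
  induction w with
  | x => exact le_rfl
  | br w v ih1 ih2 =>
    rw [ev_br, Subgroup.commutator_le]
    intro x hx y hy
    have h1 := ih1 hx
    have h2 := ih2 hy
    exact mul_mem (mul_mem (mul_mem h1 h2) (inv_mem h1)) (inv_mem h2)

theorem ev_map {H : Type*} [Group H] (f : G →* H) (w : Wd) (U : Subgroup G) :
    (ev w U).map f = ev w (U.map f) := by
  induction w with
  | x => rfl
  | br w v ih1 ih2 => rw [ev_br, ev_br, Subgroup.map_commutator, ih1, ih2]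

/-- `U` normalizes `w(U)`. -/
theorem ev_conj (w : Wd) (U : Subgroup G) {g x : G} (hg : g ∈ U) (hx : x ∈ ev w U) :
    g * x * g⁻¹ ∈ ev w U := by
  have h1 : (ev w U).map (MulAut.conj g).toMonoidHom = ev w U := by
    rw [ev_map]
    congr 1
    apply le_antisymm
    · rintro _ ⟨y, hy, rfl⟩
      exact mul_mem (mul_mem hg hy) (inv_mem hg)
    · intro y hy
      refine ⟨g⁻¹ * y * g, mul_mem (mul_mem (inv_mem hg) hy) hg, ?_⟩
      change g * (g⁻¹ * y * g) * g⁻¹ = y
      group
  have h2 : g * x * g⁻¹ ∈ (ev w U).map (MulAut.conj g).toMonoidHom := ⟨x, hx, rfl⟩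
  rwa [h1] at h2

theorem dS_depth_le (w : Wd) (U : Subgroup G) : dS U (depth w) ≤ ev w U := by
  induction w with
  | x => exact le_rfl
  | br w v ih1 ih2 =>
    change dS U (max (depth w) (depth v) + 1) ≤ _
    rw [dS_succ, ev_br]
    exact Subgroup.commutator_mono ((dS_anti U (le_max_left _ _)).trans ih1)
      ((dS_anti U (le_max_right _ _)).trans ih2)

theorem ev_W_true (j : ℕ) (U : Subgroup G) : ev (W true j) U = U.lowerCentralSeries j := by
  induction j with
  | zero => rfl
  | succ j ih =>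
    rw [Subgroup.lowerCentralSeries_succ, ← ih]
    rfl

theorem ev_W_false (j : ℕ) (U : Subgroup G) : ev (W false j) U = dS U j := by
  induction j with
  | zero => rfl
  | succ j ih =>
    rw [dS_succ, ← ih]
    rfl

end Ev

variable {A G : Type*} [CommGroup A] [Group G] (φ : A →* MulAut G) (p : ℕ)

theorem ev_inv {U : Subgroup G} (hU : ∀ a, ∀ x ∈ U, φ a x ∈ U) (w : Wd) :
    ∀ a, ∀ x ∈ ev w U, φ a x ∈ ev w U := by
  induction w with
  | x => exact hU
  | br w v ih1 ih2 => exact commutator_inv φ ih1 ih2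

/-- The index set of the special subgroups. -/
def Ix (A : Type*) [Group A] (p : ℕ) : Wd → Type _
  | .x => {B : Subgroup A // B.index = p}
  | .br w v => Ix A p w × Ix A p v × {B : Subgroup A // B.index = p}

theorem finite_Ix (A : Type*) [Group A] [Finite A] (p : ℕ) : ∀ w, Finite (Ix A p w)
  | .x => (inferInstance : Finite {B : Subgroup A // B.index = p})
  | .br w v => by
    have := finite_Ix A p w
    have := finite_Ix A p v
    exact (inferInstance : Finite (Ix A p w × Ix A p v × {B : Subgroup A // B.index = p}))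

/-- The number of special subgroups. -/
def cb (h : ℕ) : Wd → ℕ
  | .x => h
  | .br w v => cb h w * (cb h v * h)

theorem card_Ix (A : Type*) [Group A] [Finite A] (p : ℕ) : ∀ w, Nat.card (Ix A p w) =
    cb (Nat.card {B : Subgroup A // B.index = p}) w
  | .x => rfl
  | .br w v => by
    change Nat.card (Ix A p w × Ix A p v × {B : Subgroup A // B.index = p}) = _
    rw [Nat.card_prod, Nat.card_prod, card_Ix A p w, card_Ix A p v]
    rfl

/-- The special subgroups. -/
def Sp : (w : Wd) → Ix A p w → Subgroup G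
  | .x, B => fix φ B.1
  | .br w v, i => ⁅Sp w i.1, Sp v i.2.1⁆ ⊓ fix φ i.2.2.1

/-- A subgroup of `A` attached to a special subgroup. -/
def Bx : (w : Wd) → Ix A p w → Subgroup A
  | .x, B => B.1
  | .br w v, i => Bx w i.1 ⊓ Bx v i.2.1

theorem Sp_inv (w : Wd) (i : Ix A p w) : ∀ a, ∀ x ∈ Sp φ p w i, φ a x ∈ Sp φ p w i := by
  induction w with
  | x => exact fun a x hx => fix_invariant φ i.1 a hx
  | br w v ih1 ih2 =>
    intro a x hx
    exact ⟨commutator_inv φ (ih1 i.1) (ih2 i.2.1) a x hx.1, fix_invariant φ i.2.2.1 a hx.2⟩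

theorem Sp_le_ev (w : Wd) (i : Ix A p w) : Sp φ p w i ≤ ev w (fix φ (Bx p w i)) := by
  induction w with
  | x => exact le_rfl
  | br w v ih1 ih2 =>
    refine inf_le_left.trans ?_
    rw [ev_br]
    refine Subgroup.commutator_mono ((ih1 i.1).trans (ev_mono ?_ w)) ((ih2 i.2.1).trans (ev_mono ?_ v))
    · exact fix_anti φ inf_le_left
    · exact fix_anti φ inf_le_right

theorem Bx_index (hp : 0 < p) (w : Wd) (i : Ix A p w) : (Bx p w i).index ≤ p ^ leaves w := by
  induction w with
  | x =>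
    change i.1.index ≤ p ^ 1
    rw [i.2, pow_one]
  | br w v ih1 ih2 =>
    change (Bx p w i.1 ⊓ Bx p v i.2.1).index ≤ p ^ (leaves w + leaves v)
    rw [pow_add]
    exact Subgroup.index_inf_le.trans (Nat.mul_le_mul (ih1 i.1) (ih2 i.2.1))

theorem Sp_le_fix (w : Wd) (i : Ix A p w) : ∃ B : {B : Subgroup A // B.index = p},
    Sp φ p w i ≤ fix φ B.1 := by
  cases w with
  | x => exact ⟨i, le_rfl⟩
  | br w v => exact ⟨i.2.2, inf_le_right⟩

/-- Each special subgroup for `w` lies in a special subgroup for `v`. -/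
def Dom (w v : Wd) : Prop := ∀ i : Ix A p w, ∃ l : Ix A p v, Sp φ p w i ≤ Sp φ p v l

theorem Dom_x (w : Wd) : Dom φ p w .x := fun i => Sp_le_fix φ p w i

theorem Dom_refl (w : Wd) : Dom φ p w w := fun i => ⟨i, le_rfl⟩

theorem Dom_br {w v w' v' : Wd} (h : Dom φ p w w') (h' : Dom φ p v v') :
    Dom φ p (.br w v) (.br w' v') := by
  intro i
  obtain ⟨a, ha⟩ := h i.1
  obtain ⟨b, hb⟩ := h' i.2.1
  exact ⟨(a, b, i.2.2), inf_le_inf_right _ (Subgroup.commutator_mono ha hb)⟩

theorem Dom_W (b : Bool) (j : ℕ) : Dom φ p (W b (j + 1)) (W b j) := by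
  induction j with
  | zero => exact Dom_x φ p _
  | succ j ih =>
    apply Dom_br φ p ih
    cases b with
    | true => exact Dom_refl φ p _
    | false => exact ih

theorem Dom_W' (b : Bool) (j : ℕ) : Dom φ p (W b j) (if b then .x else W b j) := by
  cases b with
  | true => exact Dom_x φ p _
  | false => exact Dom_refl φ p _

/-- The special subgroups generate the verbal subgroup: the step. -/
theorem iSup_Sp_step [Fact p.Prime] [Finite A] [Nontrivial A] (hA : ∀ a : A, a ^ p = 1)
    [Finite G] (hG : ¬ p ∣ Nat.card G) {w v : Wd} (h1 : Dom φ p w v) (h2 : Dom φ p (.br w v) w)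
    (hw : ⨆ i, Sp φ p w i = ev w ⊤) (hv : ⨆ i, Sp φ p v i = ev v ⊤) :
    ⨆ i, Sp φ p (.br w v) i = ev (.br w v) ⊤ := by
  apply le_antisymm
  · refine iSup_le fun i => inf_le_left.trans ?_
    rw [ev_br, ← hw, ← hv]
    exact Subgroup.commutator_mono (le_iSup (Sp φ p w) i.1) (le_iSup (Sp φ p v) i.2.1)
  · have hcomm : ∀ i l, ⁅Sp φ p w i, Sp φ p v l⁆ ≤ ⨆ i, Sp φ p (.br w v) i := by
      intro i l
      refine (le_iSup_fix φ hA hG _ (commutator_inv φ (Sp_inv φ p w i) (Sp_inv φ p v l))).trans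
        (iSup_le fun B => ?_)
      exact le_iSup (Sp φ p (.br w v)) (i, l, B)
    have hnv : ∀ l, Sp φ p v l ≤ Subgroup.normalizer ((⨆ i, Sp φ p (.br w v) i : Subgroup G) : Set G) := by
      intro l
      have key : ∀ d ∈ Sp φ p v l, ∀ x ∈ ⨆ i, Sp φ p (.br w v) i, d * x * d⁻¹ ∈ ⨆ i, Sp φ p (.br w v) i := by
        intro d hd
        have h3 : (⨆ i, Sp φ p (.br w v) i) ≤
            (⨆ i, Sp φ p (.br w v) i).comap (MulAut.conj d).toMonoidHom := by
          refine iSup_le fun i x hx => ?_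
          change d * x * d⁻¹ ∈ ⨆ i, Sp φ p (.br w v) i
          obtain ⟨i', hi'⟩ := h2 i
          have h4 : ⁅x, d⁆ ∈ ⁅Sp φ p w i', Sp φ p v l⁆ :=
            Subgroup.commutator_mem_commutator (hi' hx) hd
          have h5 : d * x * d⁻¹ = ⁅x, d⁆⁻¹ * x := by
            rw [commutatorElement_def]; group
          rw [h5]
          exact mul_mem (inv_mem (hcomm _ _ h4)) ((le_iSup (Sp φ p (.br w v)) i) hx)
        exact h3
      intro d hd
      rw [Subgroup.mem_normalizer_iff]
      intro x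
      refine ⟨fun hx => key d hd x hx, fun hx => ?_⟩
      have h3 := key d⁻¹ (inv_mem hd) _ hx
      have h4 : d⁻¹ * (d * x * d⁻¹) * d⁻¹⁻¹ = x := by group
      rwa [h4] at h3
    have hnw : ∀ i, Sp φ p w i ≤ Subgroup.normalizer ((⨆ i, Sp φ p (.br w v) i : Subgroup G) : Set G) := by
      intro i
      obtain ⟨l, hl⟩ := h1 i
      exact hl.trans (hnv l)
    rw [ev_br, ← hw, ← hv]
    exact commutator_iSup_le _ _ _ hcomm hnw hnv

/-- **Lemma S.** -/
theorem iSup_Sp [Fact p.Prime] [Finite A] [Nontrivial A] (hA : ∀ a : A, a ^ p = 1)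
    [Finite G] (hG : ¬ p ∣ Nat.card G) (b : Bool) (j : ℕ) :
    ⨆ i, Sp φ p (W b j) i = ev (W b j) ⊤ := by
  have h0 : ⨆ i, Sp φ p .x i = ev .x (⊤ : Subgroup G) := iSup_fix_eq_top φ hA hG
  induction j with
  | zero => exact h0
  | succ j ih =>
    refine iSup_Sp_step φ p hA hG (Dom_W' φ p b j) (Dom_W φ p b j) ih ?_
    cases b with
    | true => exact h0
    | false => exact ih

/-- The closure property. -/
theorem Sp_closed (b : Bool) (j : ℕ) (i l : Ix A p (W b j)) (B : Subgroup A) (hB : B.index = p) :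
    ∃ r, ⁅Sp φ p (W b j) i, Sp φ p (W b j) l⁆ ⊓ fix φ B ≤ Sp φ p (W b j) r := by
  cases j with
  | zero => exact ⟨⟨B, hB⟩, inf_le_right⟩
  | succ j =>
    obtain ⟨i', hi'⟩ := Dom_W φ p b j i
    obtain ⟨l', hl'⟩ := Dom_W φ p b j l
    obtain ⟨l'', hl''⟩ := Dom_W' φ p b j l'
    exact ⟨(i', l'', ⟨B, hB⟩), inf_le_inf_right _ (Subgroup.commutator_mono hi' (hl'.trans hl''))⟩

end Cfsg.Agent.H476.Special
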