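import Mathlib
import Cfsg.Agent.H476.Special
import Cfsg.Agent.Lib.NilpotentCoprime
import Cfsg.Agent.Lib.CoprimeStab

/-!
# Nilpotency of a verbal subgroup from the nilpotency of the verbal subgroups of the fixed points

Solvable case.
-/

set_option autoImplicit false

namespace Cfsg.Agent.H476.SpNil

open Cfsg.Agent.Lib.CoprimeHyperplane Cfsg.Agent.H476.CopAct Cfsg.Agent.H476.GrSub
open Cfsg.Agent.H476.Special
open scoped commutatorElement

universe u

/-- The `q`-elements of a nilpotent subgroup form a subgroup. -/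
theorem exists_qpart {H : Type*} [Group H] [Finite H] (K : Subgroup H) (hK : Group.IsNilpotent K)
    (q : ℕ) [hq : Fact q.Prime] : ∃ Q : Subgroup H, ∀ x, x ∈ Q ↔ x ∈ K ∧ ∃ n, x ^ (q ^ n) = 1 := by
  obtain ⟨P⟩ : Nonempty (Sylow q K) := inferInstance
  have hPn : (P : Subgroup K).Normal := by
    have := (Group.isNilpotent_of_finite_tfae (G := K)).out 0 3
    exact (this.1 hK) q hq P
  refine ⟨(P : Subgroup K).map K.subtype, fun x => ⟨?_, ?_⟩⟩
  · rintro ⟨y, hy, rfl⟩
    refine ⟨y.2, ?_⟩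
    obtain ⟨n, hn⟩ := P.isPGroup' ⟨y, hy⟩
    refine ⟨n, ?_⟩
    have h1 := congrArg (fun z : (P : Subgroup K) => ((z : K) : H)) hn
    simpa using h1
  · rintro ⟨hx, n, hn⟩
    have hpg : IsPGroup q (Subgroup.zpowers (⟨x, hx⟩ : K)) := by
      rw [IsPGroup.iff_card, Nat.card_zpowers]
      have : orderOf (⟨x, hx⟩ : K) ∣ q ^ n := by
        apply orderOf_dvd_of_pow_eq_one
        apply Subtype.ext
        simp [hn]
      exact (Nat.dvd_prime_pow hq.out).1 this |>.imp fun _ h => h.2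
    obtain ⟨Q, hQ⟩ := hpg.exists_le_sylow
    have hPQ : P = Q := by
      have := P.unique_of_normal hPn
      exact Subsingleton.elim P Q
    exact ⟨⟨x, hx⟩, by rw [hPQ]; exact hQ (Subgroup.mem_zpowers _), rfl⟩

variable {A : Type*} [CommGroup A]

/-- A minimal invariant normal subgroup of a solvable group. -/
theorem exists_minimal_inv {G : Type u} [Group G] [Finite G] [Nontrivial G] [Group.IsSolvable G]
    (φ : A →* MulAut G) : ∃ (N : Subgroup G) (q : ℕ), N ≠ ⊥ ∧ N.Normal ∧ (∀ a, ∀ x ∈ N, φ a x ∈ N) ∧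
      (∀ M : Subgroup G, M.Normal → (∀ a, ∀ x ∈ M, φ a x ∈ M) → M ≤ N → M ≠ ⊥ → M = N) ∧
      q.Prime ∧ (∀ x ∈ N, x ^ q = 1) ∧ ∀ x ∈ N, ∀ y ∈ N, x * y = y * x := by
  obtain ⟨N, hN⟩ := exists_minimal_of_wellFoundedLT
    (fun N : Subgroup G => N ≠ ⊥ ∧ N.Normal ∧ ∀ a, ∀ x ∈ N, φ a x ∈ N)
    ⟨⊤, (bot_ne_top).symm, inferInstance, fun _ _ _ => trivial⟩
  obtain ⟨⟨hN1, hN2, hN3⟩, hN4⟩ := hN
  have hmin : ∀ M : Subgroup G, M.Normal → (∀ a, ∀ x ∈ M, φ a x ∈ M) → M ≤ N → M ≠ ⊥ → M = N :=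
    fun M h1 h2 h3 h4 => le_antisymm h3 (hN4 ⟨h4, h1, h2⟩ h3)
  have habel : ⁅N, N⁆ = ⊥ := by
    by_contra h
    have h1 := hmin ⁅N, N⁆ inferInstance (commutator_inv φ hN3 hN3)
      (Subgroup.commutator_le_left N N) h
    have h2 := Group.IsSolvable.commutator_lt_of_ne_bot (G := G) hN1
    exact h2.ne h1
  have hcomm : ∀ x ∈ N, ∀ y ∈ N, x * y = y * x := by
    intro x hx y hy
    have h1 : ⁅x, y⁆ ∈ ⁅N, N⁆ := Subgroup.commutator_mem_commutator hx hy
    rw [habel, Subgroup.mem_bot] at h1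
    exact commutatorElement_eq_one_iff_mul_comm.mp h1
  have hcard : Nat.card N ≠ 1 := fun h => hN1 (Subgroup.card_eq_one.mp h)
  obtain ⟨q, hq, hqd⟩ := Nat.exists_prime_and_dvd hcard
  refine ⟨N, q, hN1, hN2, hN3, hmin, hq, ?_, hcomm⟩
  let T : Subgroup G :=
    { carrier := {x | x ∈ N ∧ x ^ q = 1}
      one_mem' := ⟨one_mem _, one_pow _⟩
      mul_mem' := by
        rintro x y ⟨hx, hx'⟩ ⟨hy, hy'⟩
        refine ⟨mul_mem hx hy, ?_⟩
        rw [(show Commute x y from hcomm x hx y hy).mul_pow, hx', hy', one_mul]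
      inv_mem' := by
        rintro x ⟨hx, hx'⟩
        exact ⟨inv_mem hx, by rw [inv_pow, hx', inv_one]⟩ }
  have hTn : T.Normal := by
    constructor
    rintro x ⟨hx, hx'⟩ g
    exact ⟨hN2.conj_mem x hx g, by rw [conj_pow, hx']; group⟩
  have hTinv : ∀ a, ∀ x ∈ T, φ a x ∈ T := by
    rintro a x ⟨hx, hx'⟩
    exact ⟨hN3 a x hx, by rw [← map_pow, hx', map_one]⟩
  have hTne : T ≠ ⊥ := by
    intro h
    haveI : Fact q.Prime := ⟨hq⟩
    obtain ⟨x, hx⟩ := exists_prime_orderOf_dvd_card' (G := N) q hqd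
    have h1 : (x : G) ∈ T := ⟨x.2, by
      have := pow_orderOf_eq_one x
      rw [hx] at this
      exact congrArg Subtype.val this⟩
    rw [h, Subgroup.mem_bot] at h1
    have h2 : x = 1 := Subtype.ext h1
    rw [h2, orderOf_one] at hx
    exact hq.one_lt.ne hx
  have hTN : T = N := hmin T hTn hTinv (fun x hx => hx.1) hTne
  intro x hx
  rw [← hTN] at hx
  exact hx.2

/-- `q'`-elements of `w(C(E))` centralize `N`. -/
theorem commute_of_qprime {G : Type u} [Group G] [Finite G] {p : ℕ} [Fact p.Prime] [Finite A]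
    (hA : ∀ a : A, a ^ p = 1) (φ : A →* MulAut G) (hG : ¬ p ∣ Nat.card G) (w : Wd)
    (hnil : ∀ a : A, a ≠ 1 → Group.IsNilpotent ↥(ev w (fix φ (Subgroup.zpowers a))))
    {N : Subgroup G} (hNn : N.Normal) (hNinv : ∀ a, ∀ x ∈ N, φ a x ∈ N) {q : ℕ} (hq : q.Prime)
    (hNq : ∀ x ∈ N, x ^ q = 1) (E : Subgroup A) (hE : p ^ 2 ≤ Nat.card E)
    {t : G} (ht : t ∈ ev w (fix φ E)) (htq : ¬ q ∣ orderOf t) {x : G} (hx : x ∈ N) : Commute x t := by
  have hp : p.Prime := Fact.out
  haveI : Nontrivial E := by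
    rw [← Finite.one_lt_card_iff_nontrivial]
    have := hp.two_le
    nlinarith
  haveI : Fact q.Prime := ⟨hq⟩
  have hNpg : IsPGroup q N := fun x => ⟨1, by
    rw [pow_one]; exact Subtype.ext (hNq x x.2)⟩
  have hcop : (orderOf t).Coprime (Nat.card N) := by
    obtain ⟨n, hn⟩ := IsPGroup.iff_card.mp hNpg
    rw [hn]
    exact Nat.Coprime.pow_right n ((Nat.Prime.coprime_iff_not_dvd hq).mpr htq).symm
  have h1 := le_iSup_fix (A := E) (φ.comp E.subtype) (p := p) (fun b => Subtype.ext (hA b)) hG N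
    (fun a x hx => hNinv a x hx)
  have key : N ≤ Subgroup.centralizer ({t} : Set G) := by
    refine h1.trans (iSup_le ?_)
    rintro ⟨B, hB⟩ y ⟨hyN, hyB⟩
    have hBne : ∃ a ∈ B, a ≠ 1 := by
      by_contra hcon
      push Not at hcon
      have hB1 : B = ⊥ := (Subgroup.eq_bot_iff_forall B).mpr hcon
      change B.index = p at hB
      rw [hB1, Subgroup.index_bot] at hB
      have := hp.two_le
      nlinarith
    obtain ⟨a, haB, ha1⟩ := hBne
    have ha1' : (a : A) ≠ 1 := fun h => ha1 (Subtype.ext h)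
    set C := fix φ (Subgroup.zpowers (a : A)) with hC
    have hV := hnil a ha1'
    have haE : Subgroup.zpowers (a : A) ≤ E := (Subgroup.zpowers_le).mpr a.2
    have htV : t ∈ ev w C := ev_mono (fix_anti φ haE) w ht
    have hyC : y ∈ C := by
      intro b hb
      obtain ⟨k, rfl⟩ := Subgroup.mem_zpowers_iff.mp hb
      exact hyB (a ^ k) (Subgroup.zpow_mem _ haB k)
    have hc1 : ⁅y, t⁆ ∈ ev w C := by
      rw [commutatorElement_def]
      exact mul_mem (ev_conj w C hyC htV) (inv_mem htV)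
    have hc2 : ⁅y, t⁆ ∈ N := by
      have e : ⁅y, t⁆ = y * (t * y⁻¹ * t⁻¹) := by rw [commutatorElement_def]; group
      rw [e]
      exact mul_mem hyN (hNn.conj_mem _ (inv_mem hyN) t)
    have hc3 : ⁅y, t⁆ ^ q = 1 := hNq _ hc2
    have hc4 : Commute ⁅y, t⁆ t := by
      have h5 : Commute (⟨⁅y, t⁆, hc1⟩ : ev w C) (⟨t, htV⟩ : ev w C) := by
        have := hV
        refine Lib.NilpotentCoprime.commute_of_pow_eq_one (m := q) (n := orderOf t)
          ((Nat.Prime.coprime_iff_not_dvd hq).mpr htq) ?_ ?_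
        · exact Subtype.ext hc3
        · exact Subtype.ext (pow_orderOf_eq_one t)
      exact congrArg Subtype.val h5.eq
    have hc5 := Lib.CoprimeStab.commute_of_commutator_commute hcop hc2 hc4
    rw [Subgroup.mem_centralizer_iff]
    intro s hs
    rw [Set.mem_singleton_iff.mp hs]
    exact hc5.symm.eq
  have h2 := Subgroup.mem_centralizer_iff.mp (key hx) t rfl
  exact h2.symm

/-- **Nilpotency of the verbal subgroup.** -/
theorem nilpotent_ev {p : ℕ} [Fact p.Prime] [Finite A] (hA : ∀ a : A, a ^ p = 1) (b : Bool) (j : ℕ)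
    (hcard : p ^ (leaves (W b j)) * p ^ 2 ≤ Nat.card A) (c : ℕ) (n : ℕ) :
    ∀ (G : Type u) [Group G] [Finite G] [Group.IsSolvable G] (φ : A →* MulAut G),
      ¬ p ∣ Nat.card G → Nat.card G ≤ n →
      (∀ a : A, a ≠ 1 → (ev (W b j) (fix φ (Subgroup.zpowers a))).lowerCentralSeries c = ⊥) →
      Group.IsNilpotent ↥(ev (W b j) (⊤ : Subgroup G)) := by
  have hp : p.Prime := Fact.out
  haveI : Nontrivial A := by
    rw [← Finite.one_lt_card_iff_nontrivial]
    have h1 := Nat.one_le_pow (leaves (W b j)) p hp.pos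
    have := hp.two_le
    nlinarith
  induction n with
  | zero =>
    intro G _ _ _ φ _ h0
    exact absurd (Nat.le_zero.mp h0) Nat.card_pos.ne'
  | succ n ih =>
    intro G _ _ _ φ hG hGn hfix
    by_cases hnt : Nontrivial G
    swap
    · rw [not_nontrivial_iff_subsingleton] at hnt
      infer_instance
    obtain ⟨N, q, hN1, hN2, hN3, hmin, hq, hNq, hNc⟩ := exists_minimal_inv φ
    haveI : Fact q.Prime := ⟨hq⟩
    set w := W b j with hw
    -- the quotient
    have hNp : ¬ p ∣ Nat.card N := fun h => hG (h.trans (Subgroup.card_subgroup_dvd_card N))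
    have hcardQ : Nat.card (G ⧸ N) ≤ n := by
      have h1 := Subgroup.card_eq_card_quotient_mul_card_subgroup N
      have h2 : 2 ≤ Nat.card N := by
        have h3 : Nat.card N ≠ 1 := fun h => hN1 (Subgroup.card_eq_one.mp h)
        have h4 : 0 < Nat.card N := Nat.card_pos
        omega
      have h3 : 0 < Nat.card (G ⧸ N) := Nat.card_pos
      nlinarith
    have hpQ : ¬ p ∣ Nat.card (G ⧸ N) := fun h => hG (h.trans (Subgroup.card_quotient_dvd_card N))
    have hpA : IsPGroup p A := fun a => ⟨1, by rw [pow_one]; exact hA a⟩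
    have hnilQ : Group.IsNilpotent ↥(ev w (⊤ : Subgroup (G ⧸ N))) := by
      refine ih (G ⧸ N) (quo φ N hN3) hpQ hcardQ fun a ha => ?_
      rw [fix_quo φ (hpA.to_subgroup _) N hN3 hNp, ← ev_map, ← Subgroup.map_lowerCentralSeries,
        hfix a ha, Subgroup.map_bot]
    have hmap : (ev w (⊤ : Subgroup G)).map (QuotientGroup.mk' N) = ev w (⊤ : Subgroup (G ⧸ N)) := by
      rw [ev_map, ← MonoidHom.range_eq_map, QuotientGroup.range_mk']
    -- the `q`-part
    obtain ⟨Q', hQ'⟩ := exists_qpart (ev w (⊤ : Subgroup (G ⧸ N))) hnilQ q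
    let Q : Subgroup G := Q'.comap (QuotientGroup.mk' N)
    have hQmem : ∀ x : G, x ∈ Q ↔ (QuotientGroup.mk x : G ⧸ N) ∈ ev w (⊤ : Subgroup (G ⧸ N)) ∧
        ∃ n, (QuotientGroup.mk x : G ⧸ N) ^ (q ^ n) = 1 := fun x => hQ' _
    have hNQ : N ≤ Q := by
      intro x hx
      rw [hQmem, (QuotientGroup.eq_one_iff x).mpr hx]
      exact ⟨one_mem _, 0, one_pow _⟩
    have hQn : Q.Normal := by
      constructor
      intro x hx g
      rw [hQmem] at hx ⊢
      obtain ⟨h1, n, h2⟩ := hx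
      rw [QuotientGroup.mk_mul, QuotientGroup.mk_mul, QuotientGroup.mk_inv]
      refine ⟨ev_conj w ⊤ trivial h1, n, ?_⟩
      rw [conj_pow, h2]; group
    have hQinv : ∀ a, ∀ x ∈ Q, φ a x ∈ Q := by
      intro a x hx
      rw [hQmem] at hx ⊢
      obtain ⟨h1, n, h2⟩ := hx
      rw [← quo_mk φ N hN3]
      refine ⟨ev_inv (quo φ N hN3) (U := ⊤) (fun _ _ _ => Subgroup.mem_top _) w a _ h1, n, ?_⟩
      rw [← map_pow, h2, map_one]
    have hQq : IsPGroup q Q := by
      intro x
      obtain ⟨h1, n, h2⟩ := (hQmem x).mp x.2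
      refine ⟨n + 1, Subtype.ext ?_⟩
      have h3 : (x : G) ^ (q ^ n) ∈ N := by
        rw [← QuotientGroup.eq_one_iff, QuotientGroup.mk_pow]; exact h2
      have h4 := hNq _ h3
      rw [← pow_mul, ← pow_succ] at h4
      exact h4
    have hNQc : ⁅N, Q⁆ = ⊥ := by
      by_contra hne
      have h1 := hmin ⁅N, Q⁆ inferInstance (commutator_inv φ hN3 hQinv)
        (Subgroup.commutator_le_left N Q) hne
      have h2 : ∀ k, N ≤ Q.lowerCentralSeries k := by
        intro k
        induction k with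
        | zero => exact hNQ
        | succ k ih' =>
          rw [Subgroup.lowerCentralSeries_succ]
          exact h1.ge.trans (Subgroup.commutator_mono ih' le_rfl)
      have h3 : Group.IsNilpotent Q := hQq.isNilpotent
      obtain ⟨k, hk⟩ := (Subgroup.isNilpotent_iff_lowerCentralSeries Q).mp h3
      have h4 := h2 k
      rw [hk] at h4
      exact hN1 (le_bot_iff.mp h4)
    have hqel : ∀ x ∈ ev w (⊤ : Subgroup G), (∃ n, x ^ (q ^ n) = 1) →
        x ∈ Subgroup.centralizer (N : Set G) := by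
      rintro x hx ⟨n, hn⟩
      have hxQ : x ∈ Q := by
        rw [hQmem]
        refine ⟨?_, n, ?_⟩
        · rw [← hmap]; exact ⟨x, hx, rfl⟩
        · rw [← QuotientGroup.mk_pow, hn, QuotientGroup.mk_one]
      rw [Subgroup.mem_centralizer_iff]
      intro y hy
      have h1 : ⁅y, x⁆ ∈ ⁅N, Q⁆ := Subgroup.commutator_mem_commutator hy hxQ
      rw [hNQc, Subgroup.mem_bot] at h1
      exact commutatorElement_eq_one_iff_mul_comm.mp h1
    -- everything centralizes `N`
    have hnilfix : ∀ a : A, a ≠ 1 → Group.IsNilpotent ↥(ev w (fix φ (Subgroup.zpowers a))) :=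
      fun a ha => Subgroup.isNilpotent_of_lowerCentralSeries_eq_bot (hfix a ha)
    have hcent : ev w (⊤ : Subgroup G) ≤ Subgroup.centralizer (N : Set G) := by
      rw [hw, ← iSup_Sp φ p hA hG b j]
      refine iSup_le fun i v hv => ?_
      have hidx := Bx_index p hp.pos (W b j) i
      have hcardE : p ^ 2 ≤ Nat.card (Bx p (W b j) i) := by
        have h1 := (Bx p (W b j) i).card_mul_index
        have h2 : p ^ leaves (W b j) * p ^ 2 ≤ Nat.card (Bx p (W b j) i) * p ^ leaves (W b j) := by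
          refine hcard.trans ?_
          rw [← h1]
          exact Nat.mul_le_mul_left _ hidx
        rw [mul_comm] at h2
        exact Nat.le_of_mul_le_mul_right h2 (pow_pos hp.pos _)
      have hvE := Sp_le_ev φ p (W b j) i hv
      set E := Bx p (W b j) i with hE
      have hvT : v ∈ ev w (⊤ : Subgroup G) := ev_mono le_top w hvE
      -- decompose
      obtain ⟨e, m, hm, hem⟩ := Nat.exists_eq_pow_mul_and_not_dvd (orderOf_pos v).ne' q hq.ne_one
      have h1 : v ^ m ∈ Subgroup.centralizer (N : Set G) := by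
        apply hqel _ (pow_mem hvT m)
        refine ⟨e, ?_⟩
        rw [← pow_mul, mul_comm, ← hem, pow_orderOf_eq_one]
      have h2 : v ^ (q ^ e) ∈ Subgroup.centralizer (N : Set G) := by
        rw [Subgroup.mem_centralizer_iff]
        intro x hx
        refine (commute_of_qprime hA φ hG w hnilfix hN2 hN3 hq hNq E hcardE
          (pow_mem hvE (q ^ e)) ?_ hx).eq
        have h3 : orderOf (v ^ (q ^ e)) ∣ m := by
          apply orderOf_dvd_of_pow_eq_one
          rw [← pow_mul, ← hem, pow_orderOf_eq_one]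
        exact fun h => hm (h.trans h3)
      have hcop : (q ^ e).Coprime m :=
        Nat.Coprime.pow_left e ((Nat.Prime.coprime_iff_not_dvd hq).mpr hm)
      have h3 : v = (v ^ (q ^ e)) ^ (Nat.gcdA (q ^ e) m) * (v ^ m) ^ (Nat.gcdB (q ^ e) m) := by
        rw [← zpow_natCast, ← zpow_natCast v m, ← zpow_mul, ← zpow_mul, ← zpow_add,
          ← Nat.gcd_eq_gcd_ab, hcop, Nat.cast_one, zpow_one]
      rw [h3]
      exact mul_mem (zpow_mem h2 _) (zpow_mem h1 _)
    -- conclusion
    let f : ↥(ev w (⊤ : Subgroup G)) →* G ⧸ N :=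
      (QuotientGroup.mk' N).comp (ev w (⊤ : Subgroup G)).subtype
    have hrange : f.range = ev w (⊤ : Subgroup (G ⧸ N)) := by
      rw [MonoidHom.range_comp, Subgroup.subtype_range, hmap]
    haveI : Group.IsNilpotent f.range := by rw [hrange]; exact hnilQ
    refine Subgroup.isNilpotent_of_ker_le_center f.rangeRestrict ?_
    intro x hx
    rw [MonoidHom.mem_ker] at hx
    have hxN : (x : G) ∈ N := by
      have h1 : f x = 1 := congrArg Subtype.val hx
      exact (QuotientGroup.eq_one_iff _).mp h1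
    rw [Subgroup.mem_center_iff]
    intro y
    have h2 := Subgroup.mem_centralizer_iff.mp (hcent y.2) x hxN
    exact Subtype.ext h2.symm

end Cfsg.Agent.H476.SpNil
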