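import Mathlib
import Cfsg.Agent.H476.CopAct
import Cfsg.Agent.SignalizersComponents.SolvableFunctor

/-!
# A `p'`-group with an elementary abelian group of automorphisms of rank `≥ 3` with solvable fixed points

is solvable, by the solvable signalizer functor theorem.
-/

set_option autoImplicit false

namespace Cfsg.Agent.H476.SpSolv

open Cfsg.Agent.Lib.CoprimeHyperplane Cfsg.Agent.H476.CopAct

theorem isSolvable_of_fix {A G : Type*} [CommGroup A] [Finite A] [Group G] [Finite G] {p : ℕ}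
    [Fact p.Prime] (hA : ∀ a : A, a ^ p = 1) (hcard : p ^ 3 ≤ Nat.card A) (φ : A →* MulAut G)
    (hG : ¬ p ∣ Nat.card G)
    (hfix : ∀ a : A, a ≠ 1 → Group.IsSolvable ↥(fix φ (Subgroup.zpowers a))) :
    Group.IsSolvable G := by
  have hp : p.Prime := Fact.out
  have : Nontrivial A := by
    rw [← Finite.one_lt_card_iff_nontrivial]
    have := hp.two_le
    nlinarith [Nat.pow_le_pow_left this 3]
  let Γ := G ⋊[φ] A
  have hfin : Finite Γ := Finite.of_equiv (G × A) (SemidirectProduct.equivProd (φ := φ)).symm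
  let ι₁ : G →* Γ := SemidirectProduct.inl
  let ι₂ : A →* Γ := SemidirectProduct.inr
  have hι₁ : Function.Injective ι₁ := SemidirectProduct.inl_injective
  have hι₂ : Function.Injective ι₂ := SemidirectProduct.inr_injective
  let G' : Subgroup Γ := ι₁.range
  let A' : Subgroup Γ := ι₂.range
  have hact : ∀ (a : A) (g : G), ι₂ a * ι₁ g * (ι₂ a)⁻¹ = ι₁ (φ a g) := by
    intro a g
    rw [← map_inv]
    exact (SemidirectProduct.inl_aut (φ := φ) a g).symm
  have hG'n : ∀ x ∈ G', ∀ y : Γ, y * x * y⁻¹ ∈ G' := by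
    intro x hx y
    have h1 : G' = (SemidirectProduct.rightHom (φ := φ)).ker := SemidirectProduct.range_inl_eq_ker_rightHom
    rw [h1] at hx ⊢
    exact (MonoidHom.normal_ker _).conj_mem x hx y
  have hA'c : ∀ x ∈ A', ∀ y ∈ A', x * y = y * x := by
    rintro _ ⟨a, rfl⟩ _ ⟨b, rfl⟩
    rw [← map_mul, mul_comm, map_mul]
  have hA'e : Cfsg.IsElementaryAbelian p A' := by
    refine ⟨⟨⟨fun x y => Subtype.ext (hA'c x x.2 y y.2)⟩⟩, ?_⟩
    rintro _ ⟨a, rfl⟩
    rw [← map_pow, hA, map_one]
  have hA'card : p ^ 3 ≤ Nat.card A' := by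
    have h1 : Nat.card A' = Nat.card A := Nat.card_congr (MonoidHom.ofInjective hι₂).symm.toEquiv
    rwa [h1]
  let θ : Γ → Subgroup Γ := fun x => G' ⊓ Subgroup.centralizer {x}
  have hθeq : ∀ a : A, θ (ι₂ a) = (fix φ (Subgroup.zpowers a)).map ι₁ := by
    intro a
    apply le_antisymm
    · rintro _ ⟨⟨g, rfl⟩, hg⟩
      refine ⟨g, ?_, rfl⟩
      have h1 := Subgroup.mem_centralizer_iff.mp hg (ι₂ a) rfl
      have h2 : φ a g = g := by
        apply hι₁
        rw [← hact, h1, mul_inv_cancel_right]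
      have h3 : ∀ n : ℕ, φ (a ^ n) g = g := by
        intro n
        induction n with
        | zero => rw [pow_zero, map_one, MulAut.one_apply]
        | succ n ih => rw [pow_succ, map_mul, MulAut.mul_apply, h2, ih]
      intro b hb
      obtain ⟨k, rfl⟩ := (Submonoid.mem_powers_iff _ _).mp (mem_powers_iff_mem_zpowers.mpr hb)
      exact h3 k
    · rintro _ ⟨g, hg, rfl⟩
      refine ⟨⟨g, rfl⟩, Subgroup.mem_centralizer_iff.mpr fun x hx => ?_⟩
      rw [Set.mem_singleton_iff.mp hx]
      have h1 := hact a g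
      rw [hg a (Subgroup.mem_zpowers a)] at h1
      rw [mul_inv_eq_iff_eq_mul] at h1
      exact h1
  have hθ : Cfsg.IsSolvableSignalizerFunctor p A' θ := by
    refine ⟨⟨fun a _ _ => inf_le_right, ?_, ?_, fun a _ _ b _ _ => ?_⟩, ?_⟩
    · intro a _ _ h
      apply hG
      have h1 : Nat.card G' = Nat.card G := Nat.card_congr (MonoidHom.ofInjective hι₁).symm.toEquiv
      rw [← h1]
      exact h.trans (Subgroup.card_dvd_of_le inf_le_left)
    · intro a ha _ b hb x hx
      refine ⟨hG'n x hx.1 b, Subgroup.mem_centralizer_iff.mpr fun y hy => ?_⟩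
      rw [Set.mem_singleton_iff.mp hy]
      have h1 := Subgroup.mem_centralizer_iff.mp hx.2 a rfl
      have h2 := hA'c a ha b hb
      have h3 : a * (b * x * b⁻¹) = b * (a * x) * b⁻¹ := by
        rw [← mul_assoc, ← mul_assoc, h2]; group
      have h4 : b⁻¹ * a = a * b⁻¹ := by
        rw [inv_mul_eq_iff_eq_mul, ← mul_assoc, ← h2, mul_inv_cancel_right]
      rw [h3, h1, mul_assoc _ b⁻¹ a, h4]; simp only [mul_assoc]
    · exact inf_le_inf_right _ inf_le_left
    · rintro _ ⟨a, rfl⟩ ha1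
      rw [hθeq]
      have ha : a ≠ 1 := by
        rintro rfl
        exact ha1 (map_one _)
      have := hfix a ha
      exact Group.isSolvable_of_surjective
        (f := ((fix φ (Subgroup.zpowers a)).equivMapOfInjective ι₁ hι₁).toMonoidHom)
        ((fix φ (Subgroup.zpowers a)).equivMapOfInjective ι₁ hι₁).surjective
  obtain ⟨h1, -⟩ := Cfsg.Agent.SignalizersComponents.SolvableFunctor.closure_mem hA'e hA'card hθ
  have hsol := h1.1
  have hle : G' ≤ ⨆ a : {a : Γ // a ∈ A' ∧ a ≠ 1}, θ (a : Γ) := by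
    have h2 : (⊤ : Subgroup G) ≤ (⨆ a : {a : Γ // a ∈ A' ∧ a ≠ 1}, θ (a : Γ)).comap ι₁ := by
      rw [← iSup_fix_eq_top φ hA hG]
      refine iSup_le ?_
      rintro ⟨B, hB⟩
      have hBne : ∃ a ∈ B, a ≠ 1 := by
        by_contra hcon
        push Not at hcon
        have hB1 : B = ⊥ := (Subgroup.eq_bot_iff_forall B).mpr hcon
        rw [hB1, Subgroup.index_bot] at hB
        rw [hB] at hcard
        have h5 := hp.two_le
        nlinarith [Nat.pow_le_pow_left h5 2]
      obtain ⟨a, haB, ha1⟩ := hBne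
      intro g hg
      have h3 : ι₁ g ∈ θ (ι₂ a) := by
        rw [hθeq]
        exact ⟨g, fix_anti φ ((Subgroup.zpowers_le).mpr haB) hg, rfl⟩
      have h4 : ι₂ a ≠ 1 := by
        intro h
        exact ha1 (hι₂ (h.trans (map_one _).symm))
      exact (le_iSup (fun a : {a : Γ // a ∈ A' ∧ a ≠ 1} => θ (a : Γ)) ⟨ι₂ a, ⟨a, rfl⟩, h4⟩) h3
    rintro _ ⟨g, rfl⟩
    exact h2 trivial
  have hGsol : Group.IsSolvable G' := Group.isSolvable_of_isSolvable_injective (Subgroup.inclusion_injective hle)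
  exact Group.isSolvable_of_isSolvable_injective (f := (MonoidHom.ofInjective hι₁).toMonoidHom)
    (MonoidHom.ofInjective hι₁).injective

end Cfsg.Agent.H476.SpSolv
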