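import Mathlib
import Cfsg.Prelude.Def_Transfer
import Cfsg.Agent.H476.SpSolv
import Cfsg.Agent.H476.SpNil

/-!
# Bounds for the class of a term of a central or derived series from the fixed points of a coprime
elementary abelian group of automorphisms
-/

set_option autoImplicit false

namespace Cfsg.Agent.H476.SpMain

open Cfsg.Agent.Lib.CoprimeHyperplane Cfsg.Agent.H476.CopAct Cfsg.Agent.H476.GrSub
open Cfsg.Agent.H476.Special Cfsg.Agent.H476.LieBound Cfsg.Agent.H449
open scoped commutatorElement

section

variable {G : Type*} [Group G]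

theorem map_derivedSeries_eq (U : Subgroup G) (n : ℕ) : (derivedSeries U n).map U.subtype = dS U n := by
  induction n with
  | zero =>
    rw [derivedSeries_zero, ← MonoidHom.range_eq_map, Subgroup.subtype_range]
    rfl
  | succ n ih => rw [derivedSeries_succ, Subgroup.map_commutator, ih, dS_succ]

theorem derivedSeries_eq_dS (n : ℕ) : derivedSeries G n = dS (⊤ : Subgroup G) n := by
  induction n with
  | zero => rfl
  | succ n ih => rw [derivedSeries_succ, ih, dS_succ]

theorem isSolvable_of_dS (U : Subgroup G) {n : ℕ} (h : dS U n = ⊥) : Group.IsSolvable U := by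
  rw [← map_derivedSeries_eq, Subgroup.map_eq_bot_iff_of_injective _ U.subtype_injective] at h
  exact ⟨n, h⟩

theorem dS_map {H : Type*} [Group H] (f : G →* H) (U : Subgroup G) (n : ℕ) :
    (dS U n).map f = dS (U.map f) n := by
  induction n with
  | zero => rfl
  | succ n ih => rw [dS_succ, Subgroup.map_commutator, ih, dS_succ]

theorem dS_ev_eq_bot (w : Wd) (U : Subgroup G) {c : ℕ} (h : (ev w U).lowerCentralSeries c = ⊥) :
    dS U (depth w + c) = ⊥ := by
  rw [dS_add, eq_bot_iff, ← h]
  exact (dS_mono (dS_depth_le w U) c).trans (dS_le_lcs _ c)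

theorem iterComm_mono {M M' S S' : Subgroup G} (hM : M ≤ M') (hS : S ≤ S') (n : ℕ) :
    iterComm M S n ≤ iterComm M' S' n := by
  induction n with
  | zero => exact hM
  | succ n ih => exact Subgroup.commutator_mono ih hS

theorem iterComm_map {H : Type*} [Group H] (f : G →* H) (M S : Subgroup G) (n : ℕ) :
    (iterComm M S n).map f = iterComm (M.map f) (S.map f) n := by
  induction n with
  | zero => rfl
  | succ n ih => rw [iterComm_succ, Subgroup.map_commutator, ih, iterComm_succ]

/-- `[C, w(C), …, w(C)] = 1`. -/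
theorem iterComm_ev_le (w : Wd) (C : Subgroup G) (n : ℕ) :
    iterComm C (ev w C) (n + 1) ≤ (ev w C).lowerCentralSeries n := by
  induction n with
  | zero =>
    change ⁅C, ev w C⁆ ≤ ev w C
    rw [Subgroup.commutator_le]
    intro x hx y hy
    rw [commutatorElement_def]
    exact mul_mem (ev_conj w C hx hy) (inv_mem hy)
  | succ n ih =>
    rw [iterComm_succ, Subgroup.lowerCentralSeries_succ]
    exact Subgroup.commutator_mono ih le_rfl

end

/-- The class of `w(G)` for a group with a coprime action. -/
theorem class_ev_action {A G : Type*} [CommGroup A] [Finite A] [Group G] [Finite G] {p : ℕ}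
    [Fact p.Prime] (hA : ∀ a : A, a ^ p = 1) (φ : A →* MulAut G) (hG : ¬ p ∣ Nat.card G)
    (b : Bool) (j c : ℕ) (hcard : p ^ (leaves (W b j)) * p ^ 2 ≤ Nat.card A)
    (hcard3 : p ^ 3 ≤ Nat.card A)
    (hfix : ∀ a : A, a ≠ 1 → (ev (W b j) (fix φ (Subgroup.zpowers a))).lowerCentralSeries c = ⊥) :
    (ev (W b j) (⊤ : Subgroup G)).lowerCentralSeries
      (bnd p (cb (Nat.card {B : Subgroup A // B.index = p}) (W b j)) (c + 1)
        (depth (W b j) + c)) = ⊥ := by
  have hp : p.Prime := Fact.out
  have : Nontrivial A := by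
    rw [← Finite.one_lt_card_iff_nontrivial]
    have h5 := hp.two_le
    nlinarith [Nat.pow_le_pow_left h5 3]
  have hsolv : Group.IsSolvable G := SpSolv.isSolvable_of_fix hA hcard3 φ hG fun a ha =>
    isSolvable_of_dS _ (dS_ev_eq_bot _ _ (hfix a ha))
  have hnil := SpNil.nilpotent_ev hA b j hcard c _ G φ hG le_rfl hfix
  set w := W b j with hw
  set K := ev w (⊤ : Subgroup G) with hK
  have hKinv : ∀ a, ∀ x ∈ K, φ a x ∈ K := ev_inv φ (U := ⊤) (fun _ _ _ => Subgroup.mem_top _) w
  have hKp : ¬ p ∣ Nat.card K := fun h => hG (h.trans (Subgroup.card_subgroup_dvd_card K))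
  have hfinIx : Finite (Ix A p w) := finite_Ix A p w
  have : Fintype (Ix A p w) := Fintype.ofFinite _
  have hSpK : ∀ i, Sp φ p w i ≤ K := fun i => (Sp_le_ev φ p w i).trans (ev_mono le_top w)
  let P : Ix A p w → Subgroup K := fun i => (Sp φ p w i).subgroupOf K
  have hPmap : ∀ i, (P i).map K.subtype = Sp φ p w i := fun i =>
    Subgroup.map_subgroupOf_eq_of_le (hSpK i)
  have hfixmap : ∀ E : Subgroup A, (fix (res φ K hKinv) E).map K.subtype ≤ fix φ E := by
    rintro E _ ⟨x, hx, rfl⟩
    exact (mem_fix_res φ K hKinv E x).mp hx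
  have hbot : ∀ X : Subgroup K, X.map K.subtype ≤ ⊥ → X = ⊥ := by
    intro X hX
    rw [← Subgroup.map_eq_bot_iff_of_injective _ K.subtype_injective]
    exact le_bot_iff.mp hX
  obtain ⟨a₀, ha₀⟩ := exists_ne (1 : A)
  have key := class_bound hA hKp hnil (res φ K hKinv) P
    (fun i a x hx => Sp_inv φ p w i a x hx)
    (by
      apply Subgroup.map_injective K.subtype_injective
      rw [Subgroup.map_iSup, ← MonoidHom.range_eq_map, Subgroup.subtype_range]
      have h1 : ∀ i, (P i).map K.subtype = Sp φ p w i := hPmap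
      rw [iSup_congr h1, iSup_Sp φ p hA hG b j])
    (by
      intro i l B hB
      obtain ⟨r, hr⟩ := Sp_closed φ p b j i l B hB
      refine ⟨r, ?_⟩
      rintro x ⟨hx1, hx2⟩
      apply hr
      refine ⟨?_, (mem_fix_res φ K hKinv B x).mp hx2⟩
      have h1 : (x : G) ∈ ⁅P i, P l⁆.map K.subtype := ⟨x, hx1, rfl⟩
      rwa [Subgroup.map_commutator, hPmap, hPmap] at h1)
    (c + 1)
    (by
      intro i
      have hidx := Bx_index p hp.pos w i
      have hcardE : p ^ 2 ≤ Nat.card (Bx p w i) := by
        have h1 := (Bx p w i).card_mul_index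
        have h2 : p ^ leaves w * p ^ 2 ≤ Nat.card (Bx p w i) * p ^ leaves w := by
          refine hcard.trans ?_
          rw [← h1]
          exact Nat.mul_le_mul_left _ hidx
        rw [mul_comm] at h2
        exact Nat.le_of_mul_le_mul_right h2 (pow_pos hp.pos _)
      refine ⟨Bx p w i, ?_, ?_⟩
      · intro h
        rw [h, Subgroup.card_bot] at hcardE
        have h5 := hp.two_le
        nlinarith [Nat.pow_le_pow_left h5 2]
      · intro E' hE' hE'p
        have hne : ∃ a ∈ E', a ≠ 1 := by
          by_contra hcon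
          push Not at hcon
          have hB1 : E' = ⊥ := (Subgroup.eq_bot_iff_forall E').mpr hcon
          rw [hB1, Subgroup.relIndex_bot_left] at hE'p
          rw [hE'p] at hcardE
          have h5 := hp.two_le
          nlinarith
        obtain ⟨a, haE', ha1⟩ := hne
        apply hbot
        rw [iterComm_map, hPmap]
        have h1 : Sp φ p w i ≤ ev w (fix φ (Subgroup.zpowers a)) :=
          (Sp_le_ev φ p w i).trans (ev_mono (fix_anti φ ((Subgroup.zpowers_le).mpr (hE' haE'))) w)
        have h2 : (fix (res φ K hKinv) E').map K.subtype ≤ fix φ (Subgroup.zpowers a) :=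
          (hfixmap E').trans (fix_anti φ ((Subgroup.zpowers_le).mpr haE'))
        refine (iterComm_mono h2 h1 (c + 1)).trans ((iterComm_ev_le w _ c).trans ?_)
        rw [hfix a ha1])
    a₀ (depth w + c)
    (by
      apply hbot
      rw [dS_map]
      refine (dS_mono (hfixmap _) _).trans ?_
      rw [dS_ev_eq_bot w _ (hfix a₀ ha₀)])
  rw [← Nat.card_eq_fintype_card, card_Ix] at key
  rw [← Subgroup.top_subtype_lowerCentralSeries, key, Subgroup.map_bot]

/-- The main result, for subgroups of the automorphism group. -/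
theorem class_ev (p k c : ℕ) (hp : p.Prime) (hk3 : 3 ≤ k) (b : Bool) (j : ℕ)
    (hj : leaves (W b j) + 2 ≤ k) :
    ∃ B : ℕ, ∀ (G : Type) [Group G] [Finite G], (Nat.card G).Coprime p →
      ∀ A : Subgroup (MulAut G), Cfsg.IsElementaryAbelian p A → Nat.card ↥A = p ^ k →
        (∀ a ∈ A, a ≠ 1 → (ev (W b j)
          ((a : MulAut G).toMonoidHom.eqLocus (MonoidHom.id G))).lowerCentralSeries c = ⊥) →
        (ev (W b j) (⊤ : Subgroup G)).lowerCentralSeries B = ⊥ := by
  refine ⟨Finset.sup (Finset.range (2 ^ (p ^ k) + 1))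
    (fun h => bnd p (cb h (W b j)) (c + 1) (depth (W b j) + c)), ?_⟩
  intro G _ _ hG A hA hAcard hfix
  haveI : Fact p.Prime := ⟨hp⟩
  letI cA : CommGroup A :=
    { (inferInstance : Group A) with mul_comm := fun x y => hA.1.is_comm.comm x y }
  have hAp : ∀ a : A, a ^ p = 1 := fun a => Subtype.ext (hA.2 a a.2)
  have hGp : ¬ p ∣ Nat.card G := fun h =>
    hp.one_lt.ne' (Nat.eq_one_of_dvd_coprimes hG h dvd_rfl)
  have hfixeq : ∀ a : A, fix A.subtype (Subgroup.zpowers a) =
      ((a : MulAut G)).toMonoidHom.eqLocus (MonoidHom.id G) := by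
    intro a
    apply le_antisymm
    · intro x hx
      exact hx a (Subgroup.mem_zpowers a)
    · intro x hx c hc
      have hx' : (a : MulAut G) x = x := hx
      have h3 : ∀ n : ℕ, A.subtype (a ^ n) x = x := by
        intro n
        induction n with
        | zero => rw [pow_zero, map_one, MulAut.one_apply]
        | succ n ih =>
          rw [pow_succ, map_mul, MulAut.mul_apply]
          change A.subtype (a ^ n) ((a : MulAut G) x) = x
          rw [hx', ih]
      obtain ⟨k, rfl⟩ := (Submonoid.mem_powers_iff _ _).mp (mem_powers_iff_mem_zpowers.mpr hc)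
      exact h3 k
  have h1 := class_ev_action hAp A.subtype hGp b j c
    (by rw [hAcard, ← pow_add]; exact Nat.pow_le_pow_right hp.pos hj)
    (by rw [hAcard]; exact Nat.pow_le_pow_right hp.pos hk3)
    (by
      intro a ha
      rw [hfixeq]
      exact hfix a a.2 fun h => ha (Subtype.ext h))
  rw [eq_bot_iff, ← h1]
  apply Subgroup.lowerCentralSeries_antitone
  have hle : Nat.card {B : Subgroup A // B.index = p} ≤ 2 ^ (p ^ k) := by
    refine (Nat.card_le_card_of_injective (fun B : {B : Subgroup A // B.index = p} =>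
      ((B : Subgroup A) : Set A)) fun B C h => Subtype.ext (SetLike.coe_injective h)).trans ?_
    rw [← hAcard]
    have : Fintype A := Fintype.ofFinite _
    rw [Nat.card_eq_fintype_card, Nat.card_eq_fintype_card, Fintype.card_set]
  exact Finset.le_sup (f := fun h => bnd p (cb h (W b j)) (c + 1) (depth (W b j) + c))
    (Finset.mem_range.mpr (by omega))

end Cfsg.Agent.H476.SpMain
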