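import Cfsg.Agent.H91.Symp

/-!
# Stabilisers of totally isotropic subspaces (two lemmas for S2195)

* `exists_partners` : dual frame of a totally isotropic frame;
* `exists_inf_finrank` : Lagrangian subspaces in all relative positions;
* `exists_three_points` : the stabiliser of a totally isotropic subspace which is not Lagrangian has three orbits of points.
-/

set_option autoImplicit false

namespace Cfsg.Agent.H476.SympStab

open Cfsg.Agent.H91 Cfsg.Agent.H91.Symp Module

variable {F V : Type*} [Field F] [AddCommGroup V] [Module F V]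

/-- dual frame -/
theorem exists_partners [FiniteDimensional F V] {B : LinearMap.BilinForm F V} (hB : SForm B) {k : ℕ} {u : Fin k → V}
    (li : LinearIndependent F u) (hti : ∀ i l, B (u i) (u l) = 0) :
    ∃ w : Fin k → V, (∀ i l, B (u i) (w l) = if i = l then 1 else 0) ∧ ∀ i l, B (w i) (w l) = 0 := by
  classical
  -- vectors dual to the frame
  have h1 : ∀ l, ∃ y : V, ∀ i, B (u i) y = if i = l then 1 else 0 := by
    intro l
    let b := Basis.span li
    obtain ⟨f, hf⟩ := LinearMap.exists_extend (p := Submodule.span F (Set.range u)) (b.coord l)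
    have hfu : ∀ i, f (u i) = if i = l then 1 else 0 := by
      intro i
      have h2 : (b i : V) = u i := congrArg Subtype.val (Basis.span_apply li i)
      have h3 : f (b i : V) = b.coord l (b i) := by rw [← hf]; rfl
      rw [← h2, h3, Basis.coord_apply, Basis.repr_self, Finsupp.single_apply]
    refine ⟨-((LinearMap.BilinForm.toDual B hB.nd).symm f), fun i => ?_⟩
    rw [map_neg, hB.swap, neg_neg, ← hfu]
    have h4 := LinearMap.BilinForm.apply_toDual_symm_apply (hB := hB.nd) f (u i)
    exact h4
  choose y hy using h1
  -- correction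
  let c : Fin k → Fin k → F := fun i l => if i < l then -B (y i) (y l) else 0
  have hu0 : ∀ i l, B (u i) (∑ m, c l m • u m) = 0 := by
    intro i l
    rw [map_sum]
    exact Finset.sum_eq_zero fun m _ => by rw [map_smul, hti, smul_zero]
  have hyu : ∀ i l, B (y i) (∑ m, c l m • u m) = -c l i := by
    intro i l
    rw [map_sum, Finset.sum_eq_single i]
    · rw [map_smul, hB.swap, hy i i, if_pos rfl, smul_eq_mul, mul_neg, mul_one]
    · intro m _ hm
      rw [map_smul, hB.swap, hy i m, if_neg hm, neg_zero, smul_zero]
    · intro h; exact absurd (Finset.mem_univ _) h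
  refine ⟨fun l => y l + ∑ m, c l m • u m, ?_, ?_⟩
  · intro i l
    rw [map_add, hu0, add_zero, hy]
  · intro i l
    have h5 : B (∑ m, c i m • u m) (∑ m, c l m • u m) = 0 := by
      rw [map_sum]
      refine Finset.sum_eq_zero fun m _ => ?_
      rw [map_smul, hB.swap, hu0, neg_zero, smul_zero]
    have h6 : B (∑ m, c i m • u m) (y l) = c i l := by rw [hB.swap, hyu, neg_neg]
    have h7 := hyu i l
    change B (y i + ∑ m, c i m • u m) (y l + ∑ m, c l m • u m) = 0
    generalize (∑ m, c i m • u m) = s at *
    generalize (∑ m, c l m • u m) = t at *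
    simp only [map_add, LinearMap.add_apply]
    rw [h5, h6, h7, add_zero]
    rcases lt_trichotomy i l with h | rfl | h
    · simp only [c, if_pos h, if_neg (not_lt.2 h.le)]
      ring
    · rw [hB.self]; ring
    · simp only [c, if_pos h, if_neg (not_lt.2 h.le)]
      rw [hB.swap (y i)]
      ring

/-- the frame together with its dual frame is linearly independent -/
theorem li_partners {B : LinearMap.BilinForm F V} (hB : SForm B) {k : ℕ} {u w : Fin k → V}
    (huu : ∀ i l, B (u i) (u l) = 0) (huw : ∀ i l, B (u i) (w l) = if i = l then 1 else 0)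
    (hww : ∀ i l, B (w i) (w l) = 0) (P : Fin k → Prop) [DecidablePred P] :
    LinearIndependent F (fun i => if P i then w i else u i) := by
  rw [Fintype.linearIndependent_iff]
  intro a ha i
  by_cases hP : P i
  · have h1 : B (u i) (∑ l, a l • (if P l then w l else u l)) = a i := by
      rw [map_sum, Finset.sum_eq_single i]
      · rw [if_pos hP, map_smul, huw, if_pos rfl, smul_eq_mul, mul_one]
      · intro l _ hl
        rw [map_smul]
        by_cases hl' : P l
        · rw [if_pos hl', huw, if_neg (Ne.symm hl), smul_zero]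
        · rw [if_neg hl', huu, smul_zero]
      · intro h; exact absurd (Finset.mem_univ _) h
    rw [ha, map_zero] at h1
    exact h1.symm
  · have h1 : B (w i) (∑ l, a l • (if P l then w l else u l)) = -a i := by
      rw [map_sum, Finset.sum_eq_single i]
      · rw [if_neg hP, map_smul, hB.swap, huw, if_pos rfl, smul_eq_mul, mul_neg, mul_one]
      · intro l _ hl
        rw [map_smul]
        by_cases hl' : P l
        · rw [if_pos hl', hww, smul_zero]
        · rw [if_neg hl', hB.swap, huw, if_neg hl, neg_zero, smul_zero]
      · intro h; exact absurd (Finset.mem_univ _) h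
    rw [ha, map_zero] at h1
    rw [← neg_eq_zero]
    exact h1.symm

/-- **Lagrangian subspaces in all relative positions.** -/
theorem exists_inf_finrank [FiniteDimensional F V] {B : LinearMap.BilinForm F V} (hB : SForm B) {k : ℕ}
    {M : Submodule F V} (hM : TI B M) (hMk : finrank F M = k) (j : ℕ) (hj : j ≤ k) :
    ∃ g ∈ Iso B, finrank F ↥(M ⊓ M.map (g : V →ₗ[F] V)) = k - j := by
  classical
  let bM : Basis (Fin k) F M := finBasisOfFinrankEq F M hMk
  let u : Fin k → V := fun i => (bM i : V)
  have hu : ∀ i, u i ∈ M := fun i => (bM i).2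
  have li : LinearIndependent F u := bM.linearIndependent.map' M.subtype (Submodule.ker_subtype M)
  have hspan : Submodule.span F (Set.range u) = M := by
    have h1 := congrArg (Submodule.map M.subtype) bM.span_eq
    rw [Submodule.map_span, Submodule.map_top, Submodule.range_subtype, ← Set.range_comp] at h1
    exact h1
  have huu : ∀ i l, B (u i) (u l) = 0 := fun i l => hM _ (hu i) _ (hu l)
  obtain ⟨w, huw, hww⟩ := exists_partners hB li huu
  let w' : Fin k → V := fun i => if (i : ℕ) < j then w i else u i
  have li' : LinearIndependent F w' := li_partners hB huu huw hww (fun i => (i : ℕ) < j)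
  have hw' : ∀ i l, B (w' i) (w' l) = 0 := by
    intro i l
    simp only [w']
    split_ifs with h1 h2 h2
    · exact hww i l
    · rw [hB.swap, huw, if_neg, neg_zero]
      rintro rfl; exact h2 h1
    · rw [huw, if_neg]
      rintro rfl; exact h1 h2
    · exact huu i l
  obtain ⟨g, hg, hgu⟩ := witt_family hB li li' (fun i l => by rw [huu, hw'])
  refine ⟨g, hg, ?_⟩
  have hmap : M.map (g : V →ₗ[F] V) = Submodule.span F (Set.range w') := by
    rw [← hspan, Submodule.map_span, ← Set.range_comp]
    congr 2
    funext i
    exact hgu i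
  let v : {i : Fin k // j ≤ (i : ℕ)} → V := fun i => u i
  have liv : LinearIndependent F v := li.comp _ Subtype.val_injective
  have hinf : M ⊓ M.map (g : V →ₗ[F] V) = Submodule.span F (Set.range v) := by
    rw [hmap]
    apply le_antisymm
    · rintro x ⟨hxM, hx⟩
      obtain ⟨a, rfl⟩ := (Submodule.mem_span_range_iff_exists_fun F).1 hx
      have ha : ∀ i : Fin k, (i : ℕ) < j → a i = 0 := by
        intro i hi
        have h2 : B (u i) (∑ l, a l • w' l) = a i := by
          rw [map_sum, Finset.sum_eq_single i]
          · simp only [w', if_pos hi]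
            rw [map_smul, huw, if_pos rfl, smul_eq_mul, mul_one]
          · intro l _ hl
            simp only [w']
            split_ifs with h3
            · rw [map_smul, huw, if_neg (Ne.symm hl), smul_zero]
            · rw [map_smul, huu, smul_zero]
          · intro h; exact absurd (Finset.mem_univ _) h
        rw [← h2]
        exact hM _ (hu i) _ hxM
      refine Submodule.sum_mem _ fun i _ => ?_
      rcases lt_or_ge (i : ℕ) j with hi | hi
      · rw [ha i hi, zero_smul]
        exact Submodule.zero_mem _
      · refine Submodule.smul_mem _ _ ?_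
        simp only [w', if_neg (not_lt.2 hi)]
        exact Submodule.subset_span ⟨⟨i, hi⟩, rfl⟩
    · rw [Submodule.span_le]
      rintro _ ⟨⟨i, hi⟩, rfl⟩
      refine ⟨hu i, Submodule.subset_span ⟨i, ?_⟩⟩
      simp only [w', if_neg (not_lt.2 hi), v]
  rw [hinf, finrank_span_eq_card liv]
  have h3 : Fintype.card {i : Fin k // (i : ℕ) < j} = j := by
    rw [Fintype.card_subtype]
    have : (Finset.univ.filter fun i : Fin k => (i : ℕ) < j) = (Finset.univ : Finset (Fin j)).map (Fin.castLEEmb hj) := by
      ext i
      simp only [Finset.mem_filter, Finset.mem_univ, true_and, Finset.mem_map, Fin.castLEEmb_apply]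
      constructor
      · intro hi
        exact ⟨⟨i, hi⟩, rfl⟩
      · rintro ⟨l, rfl⟩
        exact l.2
    rw [this, Finset.card_map, Finset.card_univ, Fintype.card_fin]
  have h4 := Fintype.card_subtype_compl (fun i : Fin k => (i : ℕ) < j)
  rw [h3, Fintype.card_fin] at h4
  rw [← h4]
  exact Fintype.card_congr (Equiv.subtypeEquivRight fun i => by simp)

/-- **Three orbits of points.** -/
theorem exists_three_points [FiniteDimensional F V] {B : LinearMap.BilinForm F V} (hB : SForm B) {k : ℕ}
    (hV : finrank F V = 2 * k) {M : Submodule F V} (hM : TI B M) (h0 : M ≠ ⊥) (hMk : finrank F M < k) :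
    ∃ v : Fin 3 → V, (∀ i, v i ≠ 0) ∧ ∀ i j, (∃ g ∈ Iso B, M.map (g : V →ₗ[F] V) = M ∧ ∃ c : F, g (v i) = c • v j) →
      i = j := by
  classical
  let N : Submodule F V := B.orthogonal M
  have hN : ∀ x, x ∈ N ↔ ∀ m ∈ M, B m x = 0 := fun x => LinearMap.BilinForm.mem_orthogonal_iff
  have hMN : M ≤ N := fun x hx => (hN x).2 fun m hm => hM m hm x hx
  have hfr := LinearMap.BilinForm.finrank_orthogonal hB.nd M
  have hNM : M < N := by
    refine lt_of_le_of_ne hMN fun h => ?_
    have : finrank F M = finrank F N := by rw [← h]
    rw [this] at hMk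
    change finrank F N = _ at hfr
    have h5 := Submodule.finrank_mono hMN
    omega
  obtain ⟨v0, hv0, h00⟩ := Submodule.exists_mem_ne_zero_of_ne_bot h0
  obtain ⟨v1, hv1, h11⟩ := SetLike.exists_of_lt hNM
  obtain ⟨v2, hv2⟩ : ∃ v2, v2 ∉ N := by
    by_contra hcon
    push Not at hcon
    apply h00
    apply hB.eq_zero
    intro y
    exact (hN y).1 (hcon y) v0 hv0
  refine ⟨![v0, v1, v2], ?_, ?_⟩
  · intro i
    fin_cases i
    · exact h00
    · exact fun h => h11 (by change v1 = 0 at h; rw [h]; exact M.zero_mem)
    · exact fun h => hv2 (by change v2 = 0 at h; rw [h]; exact N.zero_mem)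
  · rintro i j ⟨g, hg, hgM, c, hc⟩
    -- the classes are invariant
    have gM : ∀ x, g x ∈ M ↔ x ∈ M := by
      intro x
      constructor
      · intro hx
        rw [← hgM] at hx
        obtain ⟨y, hy, hyx⟩ := hx
        have : y = x := g.injective hyx
        rwa [← this]
      · intro hx
        rw [← hgM]
        exact ⟨x, hx, rfl⟩
    have gN : ∀ x, g x ∈ N ↔ x ∈ N := by
      intro x
      rw [hN, hN]
      constructor
      · intro h m hm
        rw [← hg m x]
        exact h _ ((gM m).2 hm)
      · intro h m hm
        rw [← hgM] at hm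
        obtain ⟨y, hy, rfl⟩ := hm
        exact (hg y x).trans (h y hy)
    have key : ∀ a b : V, a ≠ 0 → g a = c • b → ((a ∈ M ↔ b ∈ M) ∧ (a ∈ N ↔ b ∈ N)) := by
      intro a b ha hab
      have hc0 : c ≠ 0 := by
        rintro rfl
        rw [zero_smul] at hab
        exact ha (by simpa using hab)
      rw [← gM a, ← gN a, hab]
      exact ⟨Submodule.smul_mem_iff _ hc0, Submodule.smul_mem_iff _ hc0⟩
    have hv1N : v1 ∈ N := hv1
    have hv2M : v2 ∉ M := fun h => hv2 (hMN h)
    have hv0N : v0 ∈ N := hMN hv0
    have n1 : v1 ≠ 0 := fun h => h11 (by rw [h]; exact M.zero_mem)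
    have n2 : v2 ≠ 0 := fun h => hv2 (by rw [h]; exact N.zero_mem)
    fin_cases i <;> fin_cases j <;> first | rfl | exfalso
    · exact h11 ((key v0 v1 h00 hc).1.1 hv0)
    · exact hv2M ((key v0 v2 h00 hc).1.1 hv0)
    · exact h11 ((key v1 v0 n1 hc).1.2 hv0)
    · exact hv2 ((key v1 v2 n1 hc).2.1 hv1N)
    · exact hv2M ((key v2 v0 n2 hc).1.2 hv0)
    · exact hv2 ((key v2 v1 n2 hc).2.2 hv1N)

end Cfsg.Agent.H476.SympStab
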